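import Mathlib

set_option autoImplicit false

namespace Cfsg.Agent.Helper20.S1906P

variable {G : Type*} [Group G] [Finite G] {A : Type*} [CommGroup A]

open scoped Classical in
theorem s1906_t1a (H : Subgroup G) (ϕ : ↥H →* A) (u : G) (hu2 : u * u = 1) :
    MonoidHom.transfer ϕ u =
      ∏ᶠ q : G ⧸ H, (if h : q.out⁻¹ * u * q.out ∈ H then ϕ ⟨q.out⁻¹ * u * q.out, h⟩ else 1) := by
  obtain ⟨D, hD⟩ : ∃ D : G → A, ∀ a : G, D a = if h : a ∈ H then ϕ ⟨a, h⟩ else 1 :=
    ⟨_, fun _ => rfl⟩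
  have hDin : ∀ (a : G) (h : a ∈ H), D a = ϕ ⟨a, h⟩ := fun a h => by rw [hD, dif_pos h]
  have hDout : ∀ (a : G), a ∉ H → D a = 1 := fun a h => by rw [hD, dif_neg h]
  have hDmul : ∀ a b : G, a ∈ H → b ∈ H → D (a * b) = D a * D b := by
    intro a b ha hb
    rw [hDin a ha, hDin b hb, hDin (a * b) (H.mul_mem ha hb), ← map_mul]
    rfl
  have hD1 : D 1 = 1 := by
    rw [hDin 1 H.one_mem]
    exact map_one ϕ
  have hinv : u⁻¹ = u := inv_eq_of_mul_eq_one_right hu2
  have hR : (∏ᶠ q : G ⧸ H,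
      (if h : q.out⁻¹ * u * q.out ∈ H then ϕ ⟨q.out⁻¹ * u * q.out, h⟩ else 1)) =
      ∏ᶠ q : G ⧸ H, D (q.out⁻¹ * u * q.out) := by
    apply finprod_congr
    intro q
    rw [hD]
  rw [hR]
  let T : H.LeftTransversal :=
    ⟨Set.range Quotient.out, Subgroup.isComplement_range_left Quotient.out_eq'⟩
  have hT : ∀ q : G ⧸ H, (T.2.leftQuotientEquiv q : G) = q.out :=
    fun q => Subgroup.IsComplement.leftQuotientEquiv_apply Quotient.out_eq' q
  have huT : ∀ q : G ⧸ H, ((u • T).2.leftQuotientEquiv q : G) = u * (u • q).out := by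
    intro q
    rw [Subgroup.smul_apply_eq_smul_apply_inv_smul, hT, hinv]
    rfl
  have hfac : ∀ (q : G ⧸ H)
      (pf : ((T.2.leftQuotientEquiv q : G))⁻¹ * ((u • T).2.leftQuotientEquiv q : G) ∈ H),
      ϕ ⟨_, pf⟩ = D (q.out⁻¹ * (u * (u • q).out)) := by
    intro q pf
    have hel : ((T.2.leftQuotientEquiv q : G))⁻¹ * ((u • T).2.leftQuotientEquiv q : G) =
        q.out⁻¹ * (u * (u • q).out) := by rw [hT, huT]
    have hmem : q.out⁻¹ * (u * (u • q).out) ∈ H := hel ▸ pf
    rw [hDin _ hmem]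
    congr 1
    exact Subtype.ext hel
  let _inst := H.fintypeQuotientOfFiniteIndex
  have h1 : MonoidHom.transfer ϕ u = ∏ q : G ⧸ H, D (q.out⁻¹ * (u * (u • q).out)) := by
    rw [MonoidHom.transfer_def ϕ T u]
    exact Finset.prod_congr rfl (fun q _ => hfac q _)
  rw [h1, finprod_eq_prod_of_fintype]
  have hmk : ∀ q : G ⧸ H, ((q.out : G) : G ⧸ H) = q := fun q => QuotientGroup.out_eq' q
  have hsm : ∀ q : G ⧸ H, u • q = ((u * q.out : G) : G ⧸ H) := by
    intro q
    conv_lhs => rw [← hmk q]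
    rfl
  have hfix : ∀ q : G ⧸ H, u • q = q ↔ q.out⁻¹ * u * q.out ∈ H := by
    intro q
    rw [hsm q]
    constructor
    · intro h
      have h2 : ((q.out : G) : G ⧸ H) = ((u * q.out : G) : G ⧸ H) := by rw [h, hmk]
      have h3 := QuotientGroup.eq.mp h2
      rwa [← mul_assoc] at h3
    · intro h
      have h3 : ((q.out : G) : G ⧸ H) = ((u * q.out : G) : G ⧸ H) :=
        QuotientGroup.eq.mpr (by rwa [← mul_assoc])
      rw [← h3, hmk]
  have huu : ∀ q : G ⧸ H, u • u • q = q := by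
    intro q
    rw [smul_smul, hu2, one_smul]
  have hmemF : ∀ q : G ⧸ H, q.out⁻¹ * (u * (u • q).out) ∈ H := by
    intro q
    have h2 : ((q.out : G) : G ⧸ H) = ((u * (u • q).out : G) : G ⧸ H) := by
      rw [hmk, ← hsm (u • q), huu]
    exact QuotientGroup.eq.mp h2
  have hprod : ∏ q : G ⧸ H,
      (D (q.out⁻¹ * (u * (u • q).out)) * (D (q.out⁻¹ * u * q.out))⁻¹) = 1 := by
    refine Finset.prod_involution (fun q _ => u • q) ?_ ?_ (fun q _ => Finset.mem_univ _) ?_
    · intro q _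
      by_cases hq : u • q = q
      · simp only [hq]
        rw [← mul_assoc q.out⁻¹ u q.out, mul_inv_cancel, one_mul]
      · have hq' : u • (u • q) ≠ u • q := by
          rw [huu]
          exact fun h => hq h.symm
        have hG1 : D (q.out⁻¹ * u * q.out) = 1 := hDout _ (fun h => hq ((hfix q).mpr h))
        have hG2 : D ((u • q).out⁻¹ * u * (u • q).out) = 1 :=
          hDout _ (fun h => hq' ((hfix (u • q)).mpr h))
        have hm2 : (u • q).out⁻¹ * (u * q.out) ∈ H := by
          have := hmemF (u • q)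
          rwa [huu] at this
        show D (q.out⁻¹ * (u * (u • q).out)) * (D (q.out⁻¹ * u * q.out))⁻¹ *
          (D ((u • q).out⁻¹ * (u * (u • (u • q)).out)) *
            (D ((u • q).out⁻¹ * u * (u • q).out))⁻¹) = 1
        rw [hG1, hG2, inv_one, mul_one, mul_one, huu, ← hDmul _ _ (hmemF q) hm2]
        have h5 : q.out⁻¹ * (u * (u • q).out) * ((u • q).out⁻¹ * (u * q.out)) = 1 := by
          calc q.out⁻¹ * (u * (u • q).out) * ((u • q).out⁻¹ * (u * q.out))
              = q.out⁻¹ * (u * u) * q.out := by group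
            _ = 1 := by rw [hu2]; group
        rw [h5, hD1]
    · intro q _ hne hfixq
      apply hne
      have hfixq' : u • q = q := hfixq
      rw [hfixq', ← mul_assoc q.out⁻¹ u q.out, mul_inv_cancel]
    · intro q _
      exact huu q
  rw [Finset.prod_mul_distrib, Finset.prod_inv_distrib, mul_inv_eq_one] at hprod
  exact hprod

end Cfsg.Agent.Helper20.S1906P
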