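import Mathlib
import Cfsg.Agent.Helper59.SmallSimple

/-!
# S0984, piece N3A: a simple group of order 2520 does not have 28 Sylow 3-subgroups.
-/

set_option autoImplicit false
set_option linter.style.haveILetI false

universe u

namespace Cfsg.Agent.Helper20

open Cfsg.Agent.Helper59

/-- an automorphism of order dividing 5 of a group of order 9 is trivial -/
theorem a7_aut9_five {P : Type*} [Group P] [Finite P] (hP : Nat.card P = 9) (φ : MulAut P)
    (h5 : φ ^ 5 = 1) : φ = 1 := by
  haveI : Fact (Nat.Prime 5) := ⟨by norm_num⟩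
  have hZ : IsPGroup 5 (Subgroup.zpowers φ) := by
    rcases (Nat.dvd_prime Nat.prime_five).1 (orderOf_dvd_of_pow_eq_one h5) with h | h
    · exact IsPGroup.of_card (n := 0) (by rw [Nat.card_zpowers, h, pow_zero])
    · exact IsPGroup.of_card (n := 1) (by rw [Nat.card_zpowers, h, pow_one])
  obtain ⟨H, hH⟩ : ∃ H : Subgroup P, ∀ y, y ∈ H ↔ φ y = y := by
    refine ⟨{ carrier := {y | φ y = y}, mul_mem' := ?_, one_mem' := ?_, inv_mem' := ?_ },
      fun y => Iff.rfl⟩
    · intro a b ha hb
      have ha' : φ a = a := ha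
      have hb' : φ b = b := hb
      show φ (a * b) = a * b
      rw [map_mul, ha', hb']
    · exact map_one φ
    · intro a ha
      have ha' : φ a = a := ha
      show φ a⁻¹ = a⁻¹
      rw [map_inv, ha']
  have hset : MulAction.fixedPoints (Subgroup.zpowers φ) P = (H : Set P) := by
    ext y
    rw [MulAction.mem_fixedPoints, SetLike.mem_coe, hH]
    constructor
    · intro h
      exact h ⟨φ, Subgroup.mem_zpowers φ⟩
    · intro h g
      have h1 : Subgroup.zpowers φ ≤ MulAction.stabilizer (MulAut P) y := by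
        rw [Subgroup.zpowers_le, MulAction.mem_stabilizer_iff]
        exact h
      exact MulAction.mem_stabilizer_iff.1 (h1 g.2)
  have hmod := hZ.card_modEq_card_fixedPoints P
  rw [hset, hP] at hmod
  have hdvd : Nat.card H ∣ 9 := hP ▸ Subgroup.card_subgroup_dvd_card H
  have hH9 : Nat.card H = 9 := by
    have hle : Nat.card H ≤ 9 := Nat.le_of_dvd (by norm_num) hdvd
    have hm : 9 % 5 = Nat.card H % 5 := hmod
    obtain ⟨c, hc⟩ : ∃ c, c = Nat.card H := ⟨_, rfl⟩
    rw [← hc] at hle hm hdvd ⊢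
    interval_cases c <;> omega
  have htop : H = ⊤ := (Subgroup.card_eq_iff_eq_top H).1 (hH9.trans hP.symm)
  ext y
  have : y ∈ H := by rw [htop]; exact Subgroup.mem_top y
  exact (hH y).1 this

/-- PIECE N3A -/
theorem a7_n3_ne_28 {G : Type u} [Group G] [Finite G] [IsSimpleGroup G]
    (hG : Nat.card G = 2520) : Nat.card (Sylow 3 G) ≠ 28 := by
  intro h28
  haveI : Fact (Nat.Prime 3) := ⟨by norm_num⟩
  haveI : Fact (Nat.Prime 5) := ⟨by norm_num⟩
  obtain ⟨P⟩ : Nonempty (Sylow 3 G) := inferInstance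
  have hP9 : Nat.card (P : Subgroup G) = 9 := by
    have := smallSimple_sylow_card 3 2 280 (by rw [hG]; norm_num) (by norm_num) P
    simpa using this
  have hN := smallSimple_card_normalizer 3 P
  rw [h28, hG] at hN
  have hN90 : Nat.card (Subgroup.normalizer ((P : Subgroup G) : Set G)) = 90 := by omega
  obtain ⟨x, hx⟩ := exists_prime_orderOf_dvd_card'
    (G := ↥(Subgroup.normalizer ((P : Subgroup G) : Set G))) 5 (by rw [hN90]; norm_num)
  have hφ5 : (Subgroup.normalizerMonoidHom (P : Subgroup G) x) ^ 5 = 1 := by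
    rw [← map_pow, ← hx, pow_orderOf_eq_one, map_one]
  have hφ1 := a7_aut9_five hP9 _ hφ5
  have hxker : x ∈ (Subgroup.normalizerMonoidHom (P : Subgroup G)).ker := hφ1
  rw [Subgroup.normalizerMonoidHom_ker, Subgroup.mem_subgroupOf] at hxker
  obtain ⟨r, hr⟩ : ∃ r : G, r = (x : G) := ⟨_, rfl⟩
  rw [← hr] at hxker
  have hr5 : orderOf r = 5 := by rw [hr, Subgroup.orderOf_coe, hx]
  have hZp : IsPGroup 5 (Subgroup.zpowers r) :=
    IsPGroup.of_card (n := 1) (by rw [Nat.card_zpowers, hr5, pow_one])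
  obtain ⟨Q, hQ⟩ := hZp.exists_le_sylow
  have hQ5 : Nat.card (Q : Subgroup G) = 5 := by
    have := smallSimple_sylow_card 5 1 504 (by rw [hG]; norm_num) (by norm_num) Q
    simpa using this
  have hZQ : Subgroup.zpowers r = (Q : Subgroup G) := by
    apply Subgroup.eq_of_le_of_card_ge hQ
    rw [hQ5, Nat.card_zpowers, hr5]
  have hPN : (P : Subgroup G) ≤ Subgroup.normalizer ((Q : Subgroup G) : Set G) := by
    intro y hy
    apply Subgroup.centralizer_le_normalizer
    rw [← hZQ, Subgroup.mem_centralizer_iff]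
    intro z hz
    obtain ⟨k, rfl⟩ := Subgroup.mem_zpowers_iff.1 hz
    have hyr : Commute y r := (Subgroup.mem_centralizer_iff.1 hxker) y hy
    exact (hyr.zpow_right k).eq.symm
  have hNQ := smallSimple_card_normalizer 5 Q
  rw [hG] at hNQ
  have h9 : 9 ∣ Nat.card (Subgroup.normalizer ((Q : Subgroup G) : Set G)) := by
    have := Subgroup.card_dvd_of_le hPN
    rwa [hP9] at this
  have h5 : 5 ∣ Nat.card (Subgroup.normalizer ((Q : Subgroup G) : Set G)) := by
    have := Subgroup.card_dvd_of_le (Subgroup.le_normalizer (H := (Q : Subgroup G)))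
    rwa [hQ5] at this
  have hmod : Nat.card (Sylow 5 G) % 5 = 1 := card_sylow_modEq_one 5 G
  have hQ1 : Nat.card (Q : Subgroup G) ≠ 1 := by rw [hQ5]; norm_num
  have hQG : Nat.card (Q : Subgroup G) ≠ Nat.card G := by rw [hQ5, hG]; norm_num
  have hne1 := smallSimple_sylow_ne_one 5 Q hQ1 hQG
  obtain ⟨a, ha⟩ : ∃ a, a = Nat.card (Subgroup.normalizer ((Q : Subgroup G) : Set G)) := ⟨_, rfl⟩
  obtain ⟨n5, hn5⟩ : ∃ n, n = Nat.card (Sylow 5 G) := ⟨_, rfl⟩
  rw [← ha, ← hn5] at hNQ
  rw [← ha] at h9 h5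
  rw [← hn5] at hmod hne1
  have h45 : a = 45 := by
    obtain ⟨b, rfl⟩ := h9
    obtain ⟨c, rfl⟩ : 5 ∣ b := by omega
    have h56 : c * n5 = 56 := by
      have : 45 * (c * n5) = 45 * 56 := by
        calc 45 * (c * n5) = 9 * (5 * c) * n5 := by ring
          _ = 45 * 56 := hNQ
      exact Nat.eq_of_mul_eq_mul_left (by norm_num) this
    have hle : n5 ≤ 56 := Nat.le_of_dvd (by norm_num) ⟨c, by rw [← h56, mul_comm]⟩
    interval_cases n5 <;> omega
  have hcop : Nat.Coprime (Nat.card (Subgroup.normalizer ((Q : Subgroup G) : Set G))) (5 - 1) := by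
    rw [← ha, h45]; decide
  exact smallSimple_burnside 5 Q (smallSimple_normalizer_le_centralizer 5 Q hQ5 hcop) hQ1 hQG

end Cfsg.Agent.Helper20
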