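import Mathlib
import Cfsg.Agent.Helper9.OrdTools

/-!
# Fixed point counting on stable subsets (helper20)

* `FixCount.card_stable_modEq`: if `s ^ q = 1` (`q` prime) and the finite set `Y` is `s`-stable,
  then `|Y| ≡ |Y ∩ Fix(s)| (mod q)`.
* `FixCount.card_fixedBy_quot_lt`: in a simple group a nonidentity element moves a coset of a
  proper subgroup.
-/

set_option autoImplicit false

namespace Cfsg.Agent.Helper20.FixCount

open Cfsg.Agent.Helper9

theorem card_stable_modEq {G Ω : Type*} [Group G] [MulAction G Ω] (Y : Set Ω) [Finite ↥Y]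
    (s : G) (q : ℕ) [Fact q.Prime] (hs : s ^ q = 1) (hY : ∀ ω ∈ Y, s • ω ∈ Y) :
    Nat.card ↥Y ≡ Nat.card ↥(Y ∩ MulAction.fixedBy Ω s) [MOD q] := by
  classical
  haveI : Fintype ↥Y := Fintype.ofFinite _
  obtain ⟨f, hf⟩ : ∃ f : Function.End ↥Y, ∀ ω : ↥Y, ((f ω : ↥Y) : Ω) = s • (ω : Ω) :=
    ⟨fun ω => ⟨s • ω.1, hY ω.1 ω.2⟩, fun ω => rfl⟩
  have hpow : ∀ (n : ℕ) (ω : ↥Y), (((f ^ n) ω : ↥Y) : Ω) = s ^ n • (ω : Ω) := by
    intro n
    induction n with
    | zero =>
      intro ω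
      rw [pow_zero, pow_zero, one_smul]; rfl
    | succ n ih =>
      intro ω
      rw [pow_succ]
      show (((f ^ n) (f ω) : ↥Y) : Ω) = _
      rw [ih (f ω), hf, ← mul_smul, ← pow_succ]
  have hf2 : f ^ q ^ 1 = 1 := by
    rw [pow_one]
    funext ω
    apply Subtype.ext
    rw [hpow, hs, one_smul]; rfl
  have hmod := Equiv.Perm.card_fixedPoints_modEq (f := f) (p := q) (n := 1) hf2
  rw [Fintype.card_eq_nat_card, Fintype.card_eq_nat_card] at hmod
  have hequiv : Nat.card ↥(Function.fixedPoints f) = Nat.card ↥(Y ∩ MulAction.fixedBy Ω s) := by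
    apply Nat.card_congr
    refine ⟨fun x => ⟨x.1.1, x.1.2, ?_⟩, fun x => ⟨⟨x.1, x.2.1⟩, ?_⟩, ?_, ?_⟩
    · have h : f x.1 = x.1 := x.2
      have h2 := congrArg (fun z : ↥Y => (z : Ω)) h
      simp only [hf] at h2
      exact h2
    · show f ⟨x.1, x.2.1⟩ = ⟨x.1, x.2.1⟩
      apply Subtype.ext
      rw [hf]
      exact x.2.2
    · intro x; rfl
    · intro x; rfl
  rw [hequiv] at hmod
  exact hmod

theorem card_univ_modEq {G Ω : Type*} [Group G] [MulAction G Ω] [Finite Ω]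
    (s : G) (q : ℕ) [Fact q.Prime] (hs : s ^ q = 1) :
    Nat.card Ω ≡ Nat.card ↥(MulAction.fixedBy Ω s) [MOD q] := by
  have h := card_stable_modEq (Set.univ : Set Ω) s q hs (fun ω _ => Set.mem_univ _)
  rw [Set.univ_inter, Nat.card_congr (Equiv.Set.univ Ω)] at h
  exact h

theorem card_fixedBy_quot_lt {G : Type*} [Group G] [Finite G] [IsSimpleGroup G]
    (X : Subgroup G) (hX : X ≠ ⊤) (s : G) (hs : s ≠ 1) :
    Nat.card ↥(MulAction.fixedBy (G ⧸ X) s) < Nat.card (G ⧸ X) := by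
  classical
  have hinj := OrdTools.toPermHom_injective X hX
  have hne : MulAction.toPermHom G (G ⧸ X) s ≠ 1 := by
    intro h; apply hs; apply hinj; rw [h, map_one]
  obtain ⟨ω, hω⟩ : ∃ ω : G ⧸ X, s • ω ≠ ω := by
    by_contra hcon
    push Not at hcon
    apply hne
    ext ω
    exact hcon ω
  haveI : Fintype (G ⧸ X) := Fintype.ofFinite _
  haveI : Fintype ↥(MulAction.fixedBy (G ⧸ X) s) := Fintype.ofFinite _
  rw [Nat.card_eq_fintype_card, Nat.card_eq_fintype_card]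
  exact Fintype.card_lt_of_injective_of_notMem Subtype.val Subtype.val_injective (b := ω) (by
    rintro ⟨⟨z, hz⟩, rfl⟩
    exact hω hz)

end Cfsg.Agent.Helper20.FixCount
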