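import Mathlib

/-!
# PIECE A of CALL S4840 (helper73): a fixed-point-free `q`-group has at most one subgroup of
order `q`
-/

namespace Cfsg.Agent.Helper20

section
variable {S V : Type*} [Group S] [CommGroup V]

theorem gag_pow_val {q : ℕ} [NeZero q] {g : S} (hg : g ^ q = 1) (m : ℕ) :
    g ^ ((m : ZMod q).val) = g ^ m := by
  rw [ZMod.val_natCast, ← pow_eq_pow_mod m hg]

theorem gag_pow_val_add {q : ℕ} [NeZero q] {g : S} (hg : g ^ q = 1) (a b : ZMod q) :
    g ^ ((a + b).val) = g ^ (a.val + b.val) := by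
  have h : a + b = ((a.val + b.val : ℕ) : ZMod q) := by
    rw [Nat.cast_add, ZMod.natCast_zmod_val, ZMod.natCast_zmod_val]
  rw [h, gag_pow_val hg]

theorem gag_pow_val_mul {q : ℕ} [NeZero q] {g : S} (hg : g ^ q = 1) (a b : ZMod q) :
    g ^ ((a * b).val) = g ^ (a.val * b.val) := by
  have h : a * b = ((a.val * b.val : ℕ) : ZMod q) := by
    rw [Nat.cast_mul, ZMod.natCast_zmod_val, ZMod.natCast_zmod_val]
  rw [h, gag_pow_val hg]

/-- the norm-type product over the cyclic group generated by `g` -/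
noncomputable def gagT (q : ℕ) [NeZero q] (ψ : S →* MulAut V) (g : S) (v : V) : V :=
  ∏ i : ZMod q, ψ (g ^ i.val) v

theorem gagT_fixed (q : ℕ) [NeZero q] (ψ : S →* MulAut V) (g : S) (hg : g ^ q = 1) (v : V) :
    ψ g (gagT q ψ g v) = gagT q ψ g v := by
  unfold gagT
  rw [map_prod]
  have h1 : ∀ i : ZMod q, ψ g (ψ (g ^ i.val) v) = ψ (g ^ ((i + 1).val)) v := by
    intro i
    have h2 : g ^ (1 : ZMod q).val = g := by
      have := gag_pow_val (q := q) hg 1
      simpa using this
    rw [gag_pow_val_add hg, add_comm, pow_add, map_mul, h2]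
    rfl
  rw [Finset.prod_congr rfl (fun i _ => h1 i)]
  exact Fintype.prod_equiv (Equiv.addRight (1 : ZMod q)) _ _ (fun i => rfl)

theorem gagT_main (q : ℕ) [Fact q.Prime] (ψ : S →* MulAut V) (y z : S) (hyz : Commute y z)
    (hz : z ^ q = 1) (v : V) :
    ∏ k : ZMod q, gagT q ψ (y * z ^ k.val) v =
      v ^ q * ∏ i ∈ (Finset.univ.erase (0 : ZMod q)), ψ (y ^ i.val) (gagT q ψ z v) := by
  classical
  unfold gagT
  rw [Finset.prod_comm]
  rw [← Finset.mul_prod_erase Finset.univ _ (Finset.mem_univ (0 : ZMod q))]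
  congr 1
  · simp [ZMod.card]
  · refine Finset.prod_congr rfl (fun i hi => ?_)
    have hi0 : i ≠ 0 := Finset.ne_of_mem_erase hi
    rw [map_prod]
    have h1 : ∀ k : ZMod q, ψ ((y * z ^ k.val) ^ i.val) v
        = ψ (y ^ i.val) (ψ (z ^ ((k * i).val)) v) := by
      intro k
      rw [(hyz.pow_right _).mul_pow, gag_pow_val_mul hz, ← pow_mul, map_mul]
      rfl
    rw [Finset.prod_congr rfl (fun k _ => h1 k)]
    exact Fintype.prod_equiv (Equiv.mulRight₀ i hi0) _ _ (fun k => rfl)

theorem gag_no_rank_two [Finite V] (q : ℕ) [Fact q.Prime] (hq : (Nat.card V).Coprime q)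
    (ψ : S →* MulAut V) (hfpf : ∀ s : S, s ≠ 1 → ∀ v : V, ψ s v = v → v = 1)
    (y z : S) (hyz : Commute y z) (hy : y ^ q = 1) (hz : z ^ q = 1) (hz1 : z ≠ 1)
    (hyz' : y ∉ Subgroup.zpowers z) (v : V) : v = 1 := by
  classical
  have hTz : gagT q ψ z v = 1 := hfpf z hz1 _ (gagT_fixed q ψ z hz v)
  have hTk : ∀ k : ZMod q, gagT q ψ (y * z ^ k.val) v = 1 := by
    intro k
    have hne : y * z ^ k.val ≠ 1 := by
      intro h
      apply hyz'
      have : y = (z ^ k.val)⁻¹ := eq_inv_of_mul_eq_one_left h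
      rw [this]
      exact inv_mem (pow_mem (Subgroup.mem_zpowers z) _)
    have hpow : (y * z ^ k.val) ^ q = 1 := by
      rw [(hyz.pow_right _).mul_pow, hy, one_mul, ← pow_mul, mul_comm, pow_mul, hz, one_pow]
    exact hfpf _ hne _ (gagT_fixed q ψ _ hpow v)
  have hmain := gagT_main q ψ y z hyz hz v
  rw [Finset.prod_congr rfl (fun k _ => hTk k), Finset.prod_const_one, hTz] at hmain
  simp only [map_one, Finset.prod_const_one, mul_one] at hmain
  have h1 : orderOf v ∣ q := orderOf_dvd_of_pow_eq_one hmain.symm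
  have h2 : orderOf v ∣ Nat.card V := orderOf_dvd_natCard v
  have h3 : orderOf v ∣ 1 := by
    have := Nat.dvd_gcd h2 h1
    rwa [Nat.Coprime.gcd_eq_one hq] at this
  exact orderOf_eq_one_iff.mp (Nat.dvd_one.mp h3)

end

theorem fpf_unique_subgroup {Γ V : Type*} [Group Γ] [CommGroup V] [Finite V] [Nontrivial V]
    (φ : Γ →* MulAut V) (q : ℕ) [Fact q.Prime] (hq : (Nat.card V).Coprime q)
    (S : Subgroup Γ) [Finite S] (hS : IsPGroup q S)
    (hfpf : ∀ s ∈ S, s ≠ 1 → ∀ v : V, φ s v = v → v = 1)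
    (H K : Subgroup S) (hH : Nat.card H = q) (hK : Nat.card K = q) : H = K := by
  classical
  have hqp := (Fact.out : q.Prime)
  by_contra hne
  let ψ : S →* MulAut V := φ.comp S.subtype
  have hfpf' : ∀ s : S, s ≠ 1 → ∀ v : V, ψ s v = v → v = 1 := by
    intro s hs v hv
    exact hfpf s s.2 (fun h => hs (Subtype.ext h)) v hv
  have hSnt : Nontrivial S := by
    have h1 : 1 < Nat.card H := by rw [hH]; exact hqp.one_lt
    have h2 : Nat.card H ≤ Nat.card S := Subgroup.card_le_card_group H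
    exact Finite.one_lt_card_iff_nontrivial.mp (lt_of_lt_of_le h1 h2)
  have hcen : q ∣ Nat.card (Subgroup.center S) := by
    have hnt : Nontrivial (Subgroup.center S) := hS.center_nontrivial
    obtain ⟨n, hn⟩ := IsPGroup.iff_card.mp (hS.to_subgroup (Subgroup.center S))
    have hn0 : n ≠ 0 := by
      rintro rfl
      have h1 : 1 < Nat.card (Subgroup.center S) := Finite.one_lt_card_iff_nontrivial.mpr hnt
      rw [hn] at h1
      simp at h1
    rw [hn]
    exact dvd_pow_self q hn0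
  obtain ⟨z, hz⟩ := exists_prime_orderOf_dvd_card' q hcen
  have hzS : orderOf (z : S) = q := by rw [Subgroup.orderOf_coe, hz]
  have hzq : (z : S) ^ q = 1 := by rw [← hzS]; exact pow_orderOf_eq_one _
  have hz1 : (z : S) ≠ 1 := by
    intro h
    rw [h, orderOf_one] at hzS
    exact hqp.one_lt.ne hzS
  obtain ⟨Y, hY, hYz⟩ : ∃ Y : Subgroup S, Nat.card Y = q ∧ Y ≠ Subgroup.zpowers (z : S) := by
    by_cases h : H = Subgroup.zpowers (z : S)
    · exact ⟨K, hK, fun h' => hne (h.trans h'.symm)⟩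
    · exact ⟨H, hH, h⟩
  obtain ⟨y, hyY, hy1⟩ : ∃ y ∈ Y, y ≠ 1 := by
    have hYnt : Nontrivial Y := by
      apply Finite.one_lt_card_iff_nontrivial.mp
      rw [hY]; exact hqp.one_lt
    obtain ⟨y, hy⟩ := exists_ne (1 : Y)
    exact ⟨y, y.2, fun h => hy (Subtype.ext h)⟩
  have hyq : y ^ q = 1 := by
    have h := pow_card_eq_one' (G := Y) (x := ⟨y, hyY⟩)
    rw [hY] at h
    exact congrArg Subtype.val h
  have hyo : orderOf y = q := orderOf_eq_prime hyq hy1
  have hyz : y ∉ Subgroup.zpowers (z : S) := by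
    intro hmem
    apply hYz
    have e1 : Subgroup.zpowers y = Y := by
      apply Subgroup.eq_of_le_of_card_ge
      · rw [Subgroup.zpowers_le]; exact hyY
      · rw [Nat.card_zpowers, hyo, hY]
    have e2 : Subgroup.zpowers y = Subgroup.zpowers (z : S) := by
      apply Subgroup.eq_of_le_of_card_ge
      · rw [Subgroup.zpowers_le]; exact hmem
      · rw [Nat.card_zpowers, Nat.card_zpowers, hyo, hzS]
    rw [← e1, e2]
  have hcomm : Commute y (z : S) := by
    exact Subgroup.mem_center_iff.mp z.2 y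
  obtain ⟨v, hv⟩ := exists_ne (1 : V)
  exact hv (gag_no_rank_two q hq ψ hfpf' y (z : S) hcomm hyq hzq hz1 hyz v)

end Cfsg.Agent.Helper20
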