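import Mathlib
import Cfsg.Prelude.Def_Transfer

/-!
# PIECE B of CALL S4840 (helper73): normal `p`-complement from an abelian quotient
-/

namespace Cfsg.Agent.Helper20

theorem npc_of_abelian_quotient {Γ : Type*} [Group Γ] [Finite Γ] (p : ℕ) [Fact p.Prime]
    (M : Subgroup Γ) [M.Normal] (hM : ∀ g ∈ M, (∃ k : ℕ, orderOf g = p ^ k) → g = 1)
    (hab : ∀ a b : Γ, a * b * a⁻¹ * b⁻¹ ∈ M) : Cfsg.HasNormalPComplement p Γ := by
  classical
  have hp := (Fact.out : p.Prime)
  obtain ⟨k, n, hn, hcard⟩ :=
    Nat.exists_eq_pow_mul_and_not_dvd (Nat.card_pos (α := Γ)).ne' p hp.ne_one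
  letI : CommGroup (Γ ⧸ M) :=
    { (inferInstance : Group (Γ ⧸ M)) with
      mul_comm := by
        intro a b
        induction a using QuotientGroup.induction_on with
        | _ a =>
          induction b using QuotientGroup.induction_on with
          | _ b =>
            rw [← QuotientGroup.mk_mul, ← QuotientGroup.mk_mul, QuotientGroup.eq]
            have := hab b⁻¹ a⁻¹
            simpa [mul_assoc] using this }
  let ψ : Γ →* Γ ⧸ M := (powMonoidHom n).comp (QuotientGroup.mk' M)
  let H : Subgroup Γ := ψ.ker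
  have hHmem : ∀ g, g ∈ H ↔ g ^ n ∈ M := by
    intro g
    change ψ g = 1 ↔ _
    change ((g : Γ ⧸ M)) ^ n = 1 ↔ _
    rw [← QuotientGroup.mk_pow, QuotientGroup.eq_one_iff]
  have hHcop : (Nat.card H).Coprime p := by
    rw [Nat.coprime_comm, Nat.Prime.coprime_iff_not_dvd hp]
    intro hdvd
    obtain ⟨g, hg⟩ := exists_prime_orderOf_dvd_card' p hdvd
    have hgn : ((g : Γ)) ^ n ∈ M := (hHmem _).mp g.2
    have hgo : orderOf (g : Γ) = p := by rw [Subgroup.orderOf_coe, hg]
    have h1 : (g : Γ) ^ n = 1 := by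
      apply hM _ hgn
      have : orderOf ((g : Γ) ^ n) ∣ p := by
        rw [← hgo]
        exact orderOf_pow_dvd n
      rcases (Nat.dvd_prime hp).mp this with h | h
      · exact ⟨0, by simpa using h⟩
      · exact ⟨1, by simpa using h⟩
    have : orderOf (g : Γ) ∣ n := orderOf_dvd_of_pow_eq_one h1
    rw [hgo] at this
    exact hn this
  have hHidx : ∃ j, H.index = p ^ j := by
    have : IsPGroup p (Γ ⧸ H) := by
      intro x
      induction x using QuotientGroup.induction_on with
      | _ g =>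
        refine ⟨k, ?_⟩
        rw [← QuotientGroup.mk_pow, QuotientGroup.eq_one_iff, hHmem, ← pow_mul, ← hcard,
          pow_card_eq_one']
        exact one_mem _
    obtain ⟨j, hj⟩ := IsPGroup.iff_card.mp this
    exact ⟨j, by rw [Subgroup.index_eq_card]; exact hj⟩
  obtain ⟨j, hj⟩ := hHidx
  obtain ⟨P⟩ : Nonempty (Sylow p Γ) := inferInstance
  have hΓ : Nat.card Γ = Nat.card H * p ^ j := by
    rw [← hj]; exact (Subgroup.card_mul_index H).symm
  have hHne : Nat.card H ≠ 0 := Nat.card_pos.ne'
  have hfac : (Nat.card Γ).factorization p = j := by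
    rw [hΓ, Nat.factorization_mul hHne (pow_ne_zero _ hp.ne_zero), Nat.Prime.factorization_pow hp]
    have h0 : (Nat.card H).factorization p = 0 :=
      Nat.factorization_eq_zero_of_not_dvd
        (fun h => (Nat.Prime.coprime_iff_not_dvd hp).mp hHcop.symm h)
    simp [h0]
  have hP : Nat.card (P : Subgroup Γ) = p ^ j := by
    rw [Sylow.card_eq_multiplicity, hfac]
  refine ⟨P, H, MonoidHom.normal_ker ψ, ?_⟩
  apply Subgroup.isComplement'_of_coprime
  · rw [hP, hΓ]
  · rw [hP]
    exact Nat.Coprime.pow_right _ hHcop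

end Cfsg.Agent.Helper20
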