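import Mathlib

/-!
# PIECE F of CALL S4840 (helper73): semiregular counting
-/

namespace Cfsg.Agent.Helper20

/-- a group acting with trivial stabilisers: its order divides the size of the set -/
theorem gag_card_dvd_of_free {Q X : Type*} [Group Q] [MulAction Q X]
    (h : ∀ b : X, MulAction.stabilizer Q b = ⊥) : Nat.card Q ∣ Nat.card X := by
  have e := MulAction.selfEquivOrbitsQuotientProd h
  rw [Nat.card_congr e, Nat.card_prod]
  exact dvd_mul_left _ _

theorem semireg_card_dvd {Γ V : Type*} [Group Γ] [Finite Γ] [Group V] [Finite V] (p : ℕ)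
    [Fact p.Prime] (φ : Γ →* MulAut V)
    (hfix : ∀ g : Γ, ∀ v : V, v ≠ 1 → φ g v = v → ∃ k : ℕ, orderOf g = p ^ k)
    (C : Subgroup Γ) (U : Subgroup V) (hU : ∀ c ∈ C, ∀ u ∈ U, φ c u ∈ U) :
    ∃ m : ℕ, Nat.card C ∣ (Nat.card U - 1) * p ^ m := by
  classical
  have hp := (Fact.out : p.Prime)
  have hCpos : Nat.card C ≠ 0 := Nat.card_pos.ne'
  obtain ⟨m, n, hn, hCn⟩ := Nat.exists_eq_pow_mul_and_not_dvd hCpos p hp.ne_one
  refine ⟨m, ?_⟩
  rw [hCn, mul_comm]
  refine Nat.mul_dvd_mul ?_ dvd_rfl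
  rw [Nat.dvd_iff_prime_pow_dvd_dvd]
  intro q k hq hqk
  by_cases hk : k = 0
  · subst hk; simp
  have hqp : q ≠ p := by
    rintro rfl
    exact hn (dvd_trans (dvd_pow_self q hk) hqk)
  haveI : Fact q.Prime := ⟨hq⟩
  have hqC : q ^ k ∣ Nat.card C := by rw [hCn]; exact dvd_mul_of_dvd_right hqk _
  obtain ⟨Q, hQ⟩ := Sylow.exists_subgroup_card_pow_prime q hqC
  let X := ↥((U : Set V) \ {1})
  letI : MulAction Q X :=
    { smul := fun g x => ⟨φ ((g : C) : Γ) x.1, hU _ (g : C).2 _ x.2.1, fun h => x.2.2 (by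
        have h' : φ ((g : C) : Γ) x.1 = 1 := h
        have h2 : φ ((g : C) : Γ) x.1 = φ ((g : C) : Γ) 1 := by rw [h', map_one]
        exact (φ ((g : C) : Γ)).injective h2)⟩
      one_smul := fun x => by
        apply Subtype.ext
        change φ (((1 : Q) : C) : Γ) x.1 = x.1
        simp
      mul_smul := fun g h x => by
        apply Subtype.ext
        change φ (((g * h : Q) : C) : Γ) x.1 = φ ((g : C) : Γ) (φ ((h : C) : Γ) x.1)
        simp [map_mul] }
  have hfree : ∀ b : X, MulAction.stabilizer Q b = ⊥ := by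
    intro b
    rw [eq_bot_iff]
    intro g hg
    rw [MulAction.mem_stabilizer_iff] at hg
    have hg' : φ ((g : C) : Γ) b.1 = b.1 := congrArg Subtype.val hg
    obtain ⟨j, hj⟩ := hfix _ _ b.2.2 hg'
    have h1 : orderOf g ∣ q ^ k := hQ ▸ orderOf_dvd_natCard g
    have h2 : orderOf g = orderOf ((g : C) : Γ) := by
      rw [Subgroup.orderOf_coe, Subgroup.orderOf_coe]
    rw [h2, hj] at h1
    have hj0 : j = 0 := by
      by_contra hj0
      have : p ∣ q ^ k := dvd_trans (dvd_pow_self p hj0) h1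
      exact hqp ((Nat.prime_dvd_prime_iff_eq hp hq).mp (hp.dvd_of_dvd_pow this)).symm
    subst hj0
    rw [pow_zero, orderOf_eq_one_iff] at hj
    rw [Subgroup.mem_bot]
    apply Subtype.ext
    apply Subtype.ext
    exact hj
  have hdvd := gag_card_dvd_of_free hfree
  rw [hQ] at hdvd
  have hX : Nat.card X = Nat.card U - 1 := by
    change Nat.card ↥((U : Set V) \ {1}) = _
    rw [Nat.card_coe_set_eq, Set.ncard_sdiff_singleton_of_mem (U.one_mem), ← Nat.card_coe_set_eq]
    rfl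
  rw [← hX]; exact hdvd

end Cfsg.Agent.Helper20
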