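import Mathlib
import Cfsg.Agent.Helper40.KGLDefs
import Cfsg.Agent.Helper40.KSLDefs
import Cfsg.Agent.Helper40.KGLP5a
set_option autoImplicit false
namespace Cfsg.Agent.Helper20
open Polynomial Cfsg.Agent.Helper40.KGL Cfsg.Agent.Helper40.KSL
open scoped DirectSum
open Classical
universe u v

theorem ksl_datSeq_ne_one_iff {F : Type u} [Field F] (n : ℕ) (M : Multiset (F[X] × ℕ))
    (hM : IsDat n M) (j : Fin n) : datSeq n M j ≠ 1 ↔ ∃ x ∈ M, x.2 = j.val + 1 := by
  constructor
  · intro h
    by_contra hne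
    push Not at hne
    apply h
    unfold datSeq
    have : M.filter (fun x => x.2 = j.val + 1) = 0 := by
      rw [Multiset.filter_eq_nil]
      exact hne
    rw [this]
    simp
  · rintro ⟨x, hx, hxj⟩ h1
    have hmon : ∀ f ∈ (M.filter (fun x => x.2 = j.val + 1)).map Prod.fst, f.Monic := by
      intro f hf
      rw [Multiset.mem_map] at hf
      obtain ⟨y, hy, rfl⟩ := hf
      exact (hM.1 y (Multiset.mem_filter.mp hy).1).2.1
    have hdeg : (datSeq n M j).natDegree =
        (((M.filter (fun x => x.2 = j.val + 1)).map Prod.fst).map natDegree).sum := by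
      unfold datSeq
      exact Polynomial.natDegree_multiset_prod_of_monic _ hmon
    have hmem : x.1.natDegree ∈
        (((M.filter (fun x => x.2 = j.val + 1)).map Prod.fst).map natDegree) := by
      apply Multiset.mem_map_of_mem
      apply Multiset.mem_map_of_mem
      exact Multiset.mem_filter.mpr ⟨hx, hxj⟩
    have hle := Multiset.le_sum_of_mem hmem
    have hpos : 0 < x.1.natDegree := Irreducible.natDegree_pos (hM.1 x hx).1
    rw [← hdeg, h1, natDegree_one] at hle
    omega

/-- PIECE B10 -/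
theorem gamSeq_datSeq {F : Type u} [Field F] (q n : ℕ) (M : Multiset (F[X] × ℕ))
    (hM : IsDat n M) : gamSeq q (datSeq n M) = gamDat q M := by
  unfold gamSeq gamDat
  congr 1
  apply Nat.dvd_antisymm
  · rw [Multiset.dvd_gcd]
    intro b hb
    rw [Multiset.mem_map] at hb
    obtain ⟨x, hx, rfl⟩ := hb
    have hb := isDat_snd_le n M hM x hx
    obtain ⟨j0, hj0⟩ : ∃ j0 : Fin n, j0.val + 1 = x.2 := ⟨⟨x.2 - 1, by omega⟩, by simp; omega⟩
    have hj : datSeq n M j0 ≠ 1 := by
      rw [ksl_datSeq_ne_one_iff n M hM]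
      exact ⟨x, hx, hj0.symm⟩
    rw [← hj0]
    exact Finset.gcd_dvd (f := fun j : Fin n => j.val + 1)
      (Finset.mem_filter.mpr ⟨Finset.mem_univ _, hj⟩)
  · apply Finset.dvd_gcd
    intro j hj
    have hj' := (Finset.mem_filter.mp hj).2
    rw [ksl_datSeq_ne_one_iff n M hM] at hj'
    obtain ⟨x, hx, hxj⟩ := hj'
    rw [← hxj]
    exact Multiset.gcd_dvd (Multiset.mem_map_of_mem Prod.snd hx)

end Cfsg.Agent.Helper20
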