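import Mathlib
import Cfsg.Agent.Helper40.KGLDefs
import Cfsg.Agent.Helper40.KSLDefs
set_option autoImplicit false
namespace Cfsg.Agent.Helper20
open Polynomial Cfsg.Agent.Helper40.KGL Cfsg.Agent.Helper40.KSL
open scoped DirectSum
open Classical
universe u v

/-- PIECE B5 -/
theorem exists_coprime_det_pow {F : Type u} [Field F] [Fintype F]
    (hB6 : ∀ (p : F[X]), p.Monic → ∀ (h : F[X]) (e : ℕ),
      LinearMap.det (mulQ (p ^ e) h) = LinearMap.det (mulQ p h) ^ e)
    (p : F[X]) (hp : Irreducible p)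
    (hm : p.Monic) (e : ℕ) (he : 1 ≤ e) (z : Fˣ) :
    ∃ h : F[X], IsCoprime h (p ^ e) ∧ LinearMap.det (mulQ (p ^ e) h) = (z : F) ^ e := by
  haveI : Fact (Irreducible p) := ⟨hp⟩
  haveI : Module.Finite F (AdjoinRoot p) := (AdjoinRoot.powerBasis hp.ne_zero).finite
  haveI : Finite (AdjoinRoot p) := Module.finite_of_finite F
  obtain ⟨a, ha⟩ := FiniteField.norm_surjective F (AdjoinRoot p) (z : F)
  obtain ⟨h, rfl⟩ := AdjoinRoot.mk_surjective a
  refine ⟨h, ?_, ?_⟩
  · apply IsCoprime.pow_right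
    apply IsCoprime.symm
    rw [hp.coprime_iff_not_dvd]
    intro hdvd
    rw [AdjoinRoot.mk_eq_zero.mpr hdvd, Algebra.norm_zero] at ha
    exact z.ne_zero ha.symm
  · rw [hB6 p hm h e]
    rw [← ha, Algebra.norm_apply]
    rfl

end Cfsg.Agent.Helper20
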