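import Mathlib
import Cfsg.Agent.Helper40.KGLDefs
import Cfsg.Agent.Helper40.KSLDefs
import Cfsg.Agent.Helper40.KGLP5a
set_option autoImplicit false
namespace Cfsg.Agent.Helper20
open Polynomial Cfsg.Agent.Helper40.KGL Cfsg.Agent.Helper40.KSL
open scoped DirectSum
open Classical
universe u v

theorem ksl_nu_mul {F : Type u} [Field F] (f g : F[X]) (hf : f.Monic) (hg : g.Monic) :
    nu (f * g) = nu f * nu g := by
  unfold nu
  rw [hf.natDegree_mul hg, Polynomial.mul_coeff_zero, pow_add]
  ring

theorem ksl_nu_multiset_prod {F : Type u} [Field F] (s : Multiset F[X])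
    (hs : ∀ f ∈ s, f.Monic) : nu s.prod = (s.map nu).prod := by
  induction s using Multiset.induction_on with
  | empty => simp [nu]
  | cons a s ih =>
    have hs' : ∀ f ∈ s, f.Monic := fun f hf => hs f (Multiset.mem_cons_of_mem hf)
    have hmon : s.prod.Monic := by
      simpa using Polynomial.monic_multiset_prod_of_monic s id hs'
    rw [Multiset.prod_cons, Multiset.map_cons, Multiset.prod_cons,
      ksl_nu_mul a s.prod (hs a (Multiset.mem_cons_self a s)) hmon, ih hs']

theorem ksl_prod_filter_snd {α : Type*} {R : Type*} [CommMonoid R] (n : ℕ) (w : α × ℕ → R)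
    (M : Multiset (α × ℕ)) (hM : ∀ x ∈ M, 1 ≤ x.2 ∧ x.2 ≤ n) :
    ∏ j : Fin n, ((M.filter (fun x => x.2 = j.val + 1)).map w).prod = (M.map w).prod := by
  induction M using Multiset.induction_on with
  | empty => simp
  | cons a M ih =>
    have ha := hM a (Multiset.mem_cons_self a M)
    have hM' : ∀ x ∈ M, 1 ≤ x.2 ∧ x.2 ≤ n := fun x hx => hM x (Multiset.mem_cons_of_mem hx)
    have key : ∀ j : Fin n,
        ((Multiset.filter (fun x => x.2 = j.val + 1) (a ::ₘ M)).map w).prod =
        ((M.filter (fun x => x.2 = j.val + 1)).map w).prod *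
          (if a.2 = j.val + 1 then w a else 1) := by
      intro j
      by_cases hj : a.2 = j.val + 1
      · rw [Multiset.filter_cons_of_pos (p := fun x : α × ℕ => x.2 = j.val + 1) M hj,
          Multiset.map_cons, Multiset.prod_cons, if_pos hj, mul_comm]
      · rw [Multiset.filter_cons_of_neg (p := fun x : α × ℕ => x.2 = j.val + 1) M hj,
          if_neg hj, mul_one]
    rw [Finset.prod_congr rfl (fun j _ => key j), Finset.prod_mul_distrib, ih hM',
      Multiset.map_cons, Multiset.prod_cons, mul_comm]
    congr 1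
    rw [Finset.prod_eq_single (⟨a.2 - 1, by omega⟩ : Fin n)]
    · rw [if_pos (by simp; omega)]
    · intro j _ hj
      rw [if_neg]
      intro h
      apply hj
      apply Fin.ext
      simp only
      omega
    · intro h
      exact absurd (Finset.mem_univ _) h

/-- PIECE B9 -/
theorem detSeq_datSeq {F : Type u} [Field F] (n : ℕ) (M : Multiset (F[X] × ℕ))
    (hM : IsDat n M) : detSeq (datSeq n M) = detDat M := by
  unfold detSeq detDat
  rw [← ksl_prod_filter_snd n (fun x : F[X] × ℕ => nu x.1 ^ x.2) M (isDat_snd_le n M hM)]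
  apply Finset.prod_congr rfl
  intro j _
  unfold datSeq
  rw [ksl_nu_multiset_prod _ (by
    intro f hf
    rw [Multiset.mem_map] at hf
    obtain ⟨x, hx, rfl⟩ := hf
    exact (hM.1 x (Multiset.mem_filter.mp hx).1).2.1), Multiset.map_map, ← Multiset.prod_map_pow]
  congr 1
  apply Multiset.map_congr rfl
  intro x hx
  rw [(Multiset.mem_filter.mp hx).2]
  rfl

end Cfsg.Agent.Helper20
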