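import Mathlib
import Cfsg.Agent.Helper90.MDSLDefs

set_option autoImplicit false

namespace Cfsg.Agent.Helper20

open Module Cfsg.Agent.Helper90.MD Cfsg.Agent.Helper60.MinIdx

section
variable {F V0 : Type*} [Field F] [Finite F] [AddCommGroup V0] [Module F V0] [Module.Finite F V0]

set_option linter.unusedSectionVars false

/-- The common kernel of `k` linearly independent forms has `q ^ (n - k)` elements. -/
theorem md_card_common_ker {k : ℕ} (v : Fin k → Dual F V0) (hli : LinearIndependent F v) :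
    Nat.card {x : V0 // ∀ i, v i x = 0} = Nat.card F ^ (finrank F V0 - k) := by
  obtain ⟨W, hW⟩ : ∃ W : Subspace F (Dual F V0), W = Submodule.span F (Set.range v) := ⟨_, rfl⟩
  have h1 : finrank F W = k := by rw [hW, finrank_span_eq_card hli]; simp
  have h2 := Subspace.finrank_add_finrank_dualCoannihilator_eq W
  have h3 : finrank F W.dualCoannihilator = finrank F V0 - k := by omega
  have h4 : Nat.card W.dualCoannihilator = Nat.card F ^ (finrank F V0 - k) := by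
    rw [Module.natCard_eq_pow_finrank (K := F), h3]
  rw [← h4]
  apply Nat.card_congr
  refine Equiv.subtypeEquivRight ?_
  intro x
  have h5 := Set.ext_iff.mp (Submodule.coe_dualCoannihilator_span (R := F) (M := V0) (Set.range v)) x
  rw [hW]
  constructor
  · intro h
    apply h5.mpr
    rintro f ⟨i, rfl⟩
    exact h i
  · intro h i
    exact h5.mp h (v i) ⟨i, rfl⟩

theorem qsub_comm (φ : Dual F V0) : ∀ x ∈ Qsub φ, ∀ y ∈ Qsub φ, x * y = y * x := by
  rintro _ ⟨a, ha, rfl⟩ _ ⟨b, hb, rfl⟩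
  rw [tv_add_left ha hb, tv_add_left hb ha, add_comm]

theorem qsub_card {φ : Dual F V0} (hφ : φ ≠ 0) :
    Nat.card (Qsub φ) = Nat.card F ^ (finrank F V0 - 1) := by
  have hli : LinearIndependent F (fun _ : Fin 1 => φ) := by
    rw [linearIndependent_unique_iff]; exact hφ
  rw [← md_card_common_ker _ hli]
  symm
  apply Nat.card_congr
  refine Equiv.ofBijective
    (fun x : {x : V0 // ∀ i : Fin 1, (fun _ : Fin 1 => φ) i x = 0} =>
      (⟨tv φ x.1, ⟨x.1, x.2 0, rfl⟩⟩ : Qsub φ)) ⟨?_, ?_⟩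
  · rintro ⟨x, hx⟩ ⟨y, hy⟩ hxy
    apply Subtype.ext
    exact tv_left_injective hφ (hx 0) (hy 0) (congrArg Subtype.val hxy)
  · rintro ⟨_, a, ha, rfl⟩
    exact ⟨⟨a, fun _ => ha⟩, rfl⟩

theorem xsub_comm (φ ψ : Dual F V0) : ∀ x ∈ Xsub φ ψ, ∀ y ∈ Xsub φ ψ, x * y = y * x := by
  rintro _ ⟨a, -, ha, rfl⟩ _ ⟨b, -, hb, rfl⟩
  rw [tv_add_left ha hb, tv_add_left hb ha, add_comm]

theorem xsub_card {φ ψ : Dual F V0} (hli : LinearIndependent F ![φ, ψ]) :
    Nat.card (Xsub φ ψ) = Nat.card F ^ (finrank F V0 - 2) := by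
  have hψ : ψ ≠ 0 := hli.ne_zero 1
  rw [← md_card_common_ker _ hli]
  symm
  apply Nat.card_congr
  refine Equiv.ofBijective
    (fun x : {x : V0 // ∀ i : Fin 2, ![φ, ψ] i x = 0} =>
      (⟨tv ψ x.1, ⟨x.1, x.2 0, x.2 1, rfl⟩⟩ : Xsub φ ψ)) ⟨?_, ?_⟩
  · rintro ⟨x, hx⟩ ⟨y, hy⟩ hxy
    apply Subtype.ext
    exact tv_left_injective hψ (hx 1) (hy 1) (congrArg Subtype.val hxy)
  · rintro ⟨_, a, ha, ha', rfl⟩
    refine ⟨⟨a, ?_⟩, rfl⟩
    intro i
    fin_cases i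
    · exact ha
    · exact ha'

theorem ysub_card {φ ψ ψ' : Dual F V0} (hli : LinearIndependent F ![φ, ψ, ψ']) :
    Nat.card (Ysub φ ψ ψ') = Nat.card F ^ (finrank F V0 - 3) := by
  have hψ : ψ' ≠ 0 := hli.ne_zero 2
  rw [← md_card_common_ker _ hli]
  symm
  apply Nat.card_congr
  refine Equiv.ofBijective
    (fun x : {x : V0 // ∀ i : Fin 3, ![φ, ψ, ψ'] i x = 0} =>
      (⟨tv ψ' x.1, ⟨x.1, x.2 0, x.2 1, x.2 2, rfl⟩⟩ : Ysub φ ψ ψ')) ⟨?_, ?_⟩
  · rintro ⟨x, hx⟩ ⟨y, hy⟩ hxy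
    apply Subtype.ext
    exact tv_left_injective hψ (hx 2) (hy 2) (congrArg Subtype.val hxy)
  · rintro ⟨_, a, ha, ha', ha'', rfl⟩
    refine ⟨⟨a, ?_⟩, rfl⟩
    intro i
    fin_cases i
    · exact ha
    · exact ha'
    · exact ha''

end

end Cfsg.Agent.Helper20
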