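import Mathlib
import Cfsg.Agent.Helper90.MDSLDefs

set_option autoImplicit false

namespace Cfsg.Agent.Helper20

open Module Cfsg.Agent.Helper90.MD Cfsg.Agent.Helper60.MinIdx

section
variable {F V0 : Type*} [Field F] [AddCommGroup V0] [Module F V0] [Module.Finite F V0]

theorem md_finrank_ker_ge {f : Dual F V0} {n : ℕ} (hn : n + 1 ≤ finrank F V0) :
    n ≤ finrank F (LinearMap.ker f) := by
  have h1 := LinearMap.finrank_range_add_finrank_ker f
  have h2 : finrank F (LinearMap.range f) ≤ 1 := by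
    have := Submodule.finrank_le (LinearMap.range f)
    rwa [Module.finrank_self] at this
  omega

omit [Module.Finite F V0] in
/-- Two nonzero forms: either some vector has value `1` under both, or they are proportional. -/
theorem md_forms_dichotomy {f1 f' : Dual F V0} (hf1 : f1 ≠ 0) (hf' : f' ≠ 0) :
    (∃ c : V0, f1 c = 1 ∧ f' c = 1) ∨ ∃ k : F, k ≠ 0 ∧ f' = k • f1 := by
  by_cases hex : ∃ c : V0, f1 c = 1 ∧ f' c = 1
  · exact Or.inl hex
  right
  push Not at hex
  obtain ⟨x0, hx0⟩ : ∃ x, f1 x ≠ 0 := by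
    by_contra hc; push Not at hc; exact hf1 (LinearMap.ext hc)
  obtain ⟨x, hx⟩ : ∃ x, f1 x = 1 := by
    refine ⟨(f1 x0)⁻¹ • x0, ?_⟩
    rw [map_smul, smul_eq_mul, inv_mul_cancel₀ hx0]
  have hk1 : f' x ≠ 1 := hex x hx
  -- `f'` vanishes on `ker f1`
  have hker : ∀ y : V0, f1 y = 0 → f' y = 0 := by
    intro y hy
    by_contra hy'
    apply hex (x + ((1 - f' x) * (f' y)⁻¹) • y)
    · rw [map_add, map_smul, hy, smul_zero, add_zero, hx]
    · rw [map_add, map_smul, smul_eq_mul, mul_assoc, inv_mul_cancel₀ hy', mul_one]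
      ring
  have heq : f' = f' x • f1 := by
    ext z
    have hz : f1 (z - f1 z • x) = 0 := by
      rw [map_sub, map_smul, hx, smul_eq_mul, mul_one, sub_self]
    have h2 := hker _ hz
    rw [map_sub, map_smul, smul_eq_mul, sub_eq_zero] at h2
    rw [LinearMap.smul_apply, smul_eq_mul, h2, mul_comm]
  refine ⟨f' x, ?_, heq⟩
  intro h0
  apply hf'
  rw [heq, h0, zero_smul]

/-- Transvections with the same centre are conjugate (dimension at least 3). -/
theorem md_tv_conj_same_centre (hn : 3 ≤ finrank F V0) {f1 f' : Dual F V0} {a' : V0}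
    (h1 : f1 a' = 0) (h' : f' a' = 0) (hf1 : f1 ≠ 0) (hf' : f' ≠ 0) (ha' : a' ≠ 0) :
    ∃ g : SpecialLinearGroup F V0, g * tv f1 a' * g⁻¹ = tv f' a' := by
  rcases md_forms_dichotomy hf1 hf' with ⟨c, hc1, hc'⟩ | ⟨k, hk, hkf⟩
  · have hη : (f1 - f') c = 0 := by
      rw [LinearMap.sub_apply, hc1, hc', sub_self]
    refine ⟨tv (f1 - f') c, ?_⟩
    rw [tv_conj]
    have hcen : tv (f1 - f') c a' = a' := by
      rw [tv_apply hη, LinearMap.sub_apply, h1, h', sub_self, zero_smul, add_zero]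
    have hax : cg (tv (f1 - f') c) f1 = f' := by
      ext x
      have hη' : (f1 - f') (-c) = 0 := by rw [map_neg, hη, neg_zero]
      rw [cg_apply, tv_inv, tv_apply hη', map_add, map_smul, map_neg, hc1, LinearMap.sub_apply,
        smul_eq_mul]
      ring
    rw [hcen, hax]
  · have hK : 2 ≤ finrank F (LinearMap.ker f1) := md_finrank_ker_ge (by omega)
    have h2 : f1 (k • a') = 0 := by rw [map_smul, h1, smul_zero]
    obtain ⟨g, hg⟩ := tv_conj_same_axis hK h1 h2 ha' (smul_ne_zero hk ha')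
    refine ⟨g, ?_⟩
    rw [hg, hkf, tv_smul]

end

section
variable {F V0 : Type*} [Field F] [Finite F] [AddCommGroup V0] [Module F V0] [Module.Finite F V0]

set_option linter.unusedSectionVars false

theorem tv_conj_all (hn : 3 ≤ finrank F V0) {f f' : Dual F V0} {a a' : V0} (h : f a = 0)
    (h' : f' a' = 0) (hf : f ≠ 0) (ha : a ≠ 0) (hf' : f' ≠ 0) (ha' : a' ≠ 0) :
    ∃ g : SpecialLinearGroup F V0, g * tv f a * g⁻¹ = tv f' a' := by
  obtain ⟨g0, hg0⟩ := sl_trans_vec (F := F) (by omega : 2 ≤ finrank F V0) ha ha'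
  have h1 : cg g0 f a' = 0 := by rw [← hg0, cg_apply_apply]; exact h
  have hf1 : cg g0 f ≠ 0 := fun hz => hf ((cg_eq_zero_iff g0 f).mp hz)
  obtain ⟨g1, hg1⟩ := md_tv_conj_same_centre hn h1 h' hf1 hf' ha'
  refine ⟨g1 * g0, ?_⟩
  have hc : g0 * tv f a * g0⁻¹ = tv (cg g0 f) a' := by rw [tv_conj, hg0]
  rw [← hg1, ← hc]
  group

theorem normal_tv_top (hn : 3 ≤ finrank F V0) (N : Subgroup (SpecialLinearGroup F V0))
    [N.Normal] {f : Dual F V0} {a : V0} (h : f a = 0) (hf : f ≠ 0) (ha : a ≠ 0)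
    (hN : tv f a ∈ N) : N = ⊤ := by
  apply tv_generate (by omega : 2 ≤ finrank F V0)
  intro f' a' h'
  by_cases hf' : f' = 0
  · rw [hf', tv_zero_left]; exact N.one_mem
  by_cases ha' : a' = 0
  · rw [ha', tv_zero_right]; exact N.one_mem
  obtain ⟨g, hg⟩ := tv_conj_all hn h h' hf ha hf' ha'
  rw [← hg]
  exact Subgroup.Normal.conj_mem inferInstance _ hN g

end

end Cfsg.Agent.Helper20
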