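import Cfsg.Agent.Helper71.McLGDefs
import Cfsg.Agent.Helper13.Witt

/-!
# CALL S5075, piece S: the symplectic range (helper20 for helper71)
-/

set_option autoImplicit false

namespace Cfsg.Agent.Helper20.McL

open Module Cfsg.Agent.Helper71.McL

variable {p : ℕ} [Fact p.Prime] {V : Type*} [AddCommGroup V] [Module (ZMod p) V]

theorem range_sp [Finite V] (H : Subgroup (V ≃ₗ[ZMod p] V)) (W : Submodule (ZMod p) V)
    (β : V →ₗ[ZMod p] Dual (ZMod p) V)
    (hnd : ∀ v ∈ W, v ≠ 0 → ∃ x ∈ W, β v x ≠ 0)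
    (hβ : ∀ v ∈ W, v ≠ 0 → ∀ φ : Dual (ZMod p) V,
      (TV (HW H W) φ v ↔ ∃ c : ZMod p, φ = c • β v))
    (ρ : ↥(HW H W) →* (↥W ≃ₗ[ZMod p] ↥W))
    (hρ : ∀ (h : ↥(HW H W)) (v : ↥W), ((ρ h v : ↥W) : V) = (h : V ≃ₗ[ZMod p] V) (v : V)) :
    ∃ B : LinearMap.BilinForm (ZMod p) ↥W, B.IsAlt ∧ B.Nondegenerate ∧
      (ρ.range : Set (↥W ≃ₗ[ZMod p] ↥W)) =
        {f : ↥W ≃ₗ[ZMod p] ↥W | ∀ x y, B (f x) (f y) = B x y} := by
  classical
  -- the form is alternating on `W`
  have halt : ∀ a ∈ W, β a a = 0 := by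
    intro a ha
    by_cases ha0 : a = 0
    · subst ha0; simp
    · exact ((hβ a ha ha0 (β a)).mpr ⟨1, (one_smul _ _).symm⟩).1
  have hskew : ∀ a ∈ W, ∀ b ∈ W, β a b = - β b a := by
    intro a ha b hb
    have h1 := halt (a + b) (W.add_mem ha hb)
    have h2 := halt a ha
    have h3 := halt b hb
    simp only [map_add, LinearMap.add_apply] at h1
    linear_combination h1 - h2 - h3
  let B : LinearMap.BilinForm (ZMod p) ↥W := β.compl₁₂ W.subtype W.subtype
  have hB : ∀ x y : ↥W, B x y = β (x : V) (y : V) := fun x y => rfl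
  have hBalt : B.IsAlt := fun x => by rw [hB]; exact halt _ x.2
  have hBnd : B.Nondegenerate := by
    refine ⟨?_, ?_⟩
    · intro x hx
      by_contra hx0
      have hx0' : (x : V) ≠ 0 := fun h => hx0 (Subtype.ext h)
      obtain ⟨y, hy, hxy⟩ := hnd _ x.2 hx0'
      exact hxy (hx ⟨y, hy⟩)
    · intro y hy
      by_contra hy0
      have hy0' : (y : V) ≠ 0 := fun h => hy0 (Subtype.ext h)
      obtain ⟨x, hx, hyx⟩ := hnd _ y.2 hy0'
      apply hyx
      have := hy ⟨x, hx⟩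
      rw [hB] at this
      rw [hskew _ y.2 _ hx, this, neg_zero]
  refine ⟨B, hBalt, hBnd, ?_⟩
  -- the isometry group
  let Iso : Subgroup (↥W ≃ₗ[ZMod p] ↥W) :=
    { carrier := {f | ∀ x y, B (f x) (f y) = B x y}
      mul_mem' := by
        intro f g hf hg x y
        show B (f (g x)) (f (g y)) = B x y
        rw [hf, hg]
      one_mem' := by
        intro x y
        rfl
      inv_mem' := by
        intro f hf x y
        have := hf (f⁻¹ x) (f⁻¹ y)
        have e1 : f (f⁻¹ x) = x := f.apply_symm_apply x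
        have e2 : f (f⁻¹ y) = y := f.apply_symm_apply y
        rw [e1, e2] at this
        exact this.symm }
  have hIso : ∀ f : ↥W ≃ₗ[ZMod p] ↥W, f ∈ Iso ↔ ∀ x y, B (f x) (f y) = B x y := fun f => Iff.rfl
  -- range ≤ Iso
  have hsub : ∀ (g : V ≃ₗ[ZMod p] V) (hg : g ∈ HW H W), ρ ⟨g, hg⟩ ∈ Iso := by
    intro g hg
    refine Subgroup.closure_induction (p := fun g hg => ρ ⟨g, hg⟩ ∈ Iso) ?_ ?_ ?_ ?_ hg
    · rintro g ⟨hgH, φ, v, hvW, hφv, hgx⟩
      have hgHW : g ∈ HW H W := Subgroup.subset_closure ⟨hgH, φ, v, hvW, hφv, hgx⟩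
      rw [hIso]
      intro x y
      rw [hB, hB]
      have ex : ((ρ ⟨g, hgHW⟩ x : ↥W) : V) = g (x : V) := hρ ⟨g, hgHW⟩ x
      have ey : ((ρ ⟨g, hgHW⟩ y : ↥W) : V) = g (y : V) := hρ ⟨g, hgHW⟩ y
      rw [ex, ey, hgx, hgx]
      by_cases hv0 : v = 0
      · subst hv0; simp
      · have hTV : TV (HW H W) φ v := ⟨hφv, g, hgHW, hgx⟩
        obtain ⟨c, hc⟩ := (hβ v hvW hv0 φ).mp hTV
        have h1 := hskew _ x.2 v hvW
        have h2 := halt v hvW
        subst hc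
        simp only [map_add, map_smul, LinearMap.add_apply, LinearMap.smul_apply, smul_eq_mul]
        rw [h1, h2]
        ring
    · have : (⟨1, Subgroup.one_mem _⟩ : ↥(HW H W)) = 1 := rfl
      show ρ ⟨1, _⟩ ∈ Iso
      rw [this, map_one]
      exact Iso.one_mem
    · intro a b ha hb iha ihb
      have ha' : a ∈ HW H W := ha
      have hb' : b ∈ HW H W := hb
      have : (⟨a * b, (HW H W).mul_mem ha' hb'⟩ : ↥(HW H W)) = ⟨a, ha'⟩ * ⟨b, hb'⟩ := rfl
      show ρ ⟨a * b, (HW H W).mul_mem ha' hb'⟩ ∈ Iso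
      rw [this, map_mul]
      exact Iso.mul_mem iha ihb
    · intro a ha iha
      have ha' : a ∈ HW H W := ha
      have : (⟨a⁻¹, (HW H W).inv_mem ha'⟩ : ↥(HW H W)) = (⟨a, ha'⟩ : ↥(HW H W))⁻¹ := rfl
      show ρ ⟨a⁻¹, (HW H W).inv_mem ha'⟩ ∈ Iso
      rw [this, map_inv]
      exact Iso.inv_mem iha
  -- TG B ≤ range
  have hTG : Cfsg.Agent.Helper13.TG B ≤ ρ.range := by
    unfold Cfsg.Agent.Helper13.TG
    rw [Subgroup.closure_le]
    rintro g ⟨u, c, hg⟩
    by_cases hu0 : u = 0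
    · have : g = 1 := by
        ext x
        rw [hg, hu0]
        simp
      rw [this]
      exact Subgroup.one_mem _
    · have hu0' : (u : V) ≠ 0 := fun h => hu0 (Subtype.ext h)
      obtain ⟨-, k, hk, hkx⟩ := (hβ _ u.2 hu0' ((-c) • β (u : V))).mpr ⟨-c, rfl⟩
      refine ⟨⟨k, hk⟩, ?_⟩
      ext x
      rw [hρ, hg]
      show k (x : V) = (x : V) + (c * B x u) • (u : V)
      rw [hkx, hB, hskew _ x.2 _ u.2]
      simp only [LinearMap.smul_apply, smul_eq_mul]
      congr 2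
      ring
  ext f
  constructor
  · rintro ⟨h, rfl⟩
    exact hsub h.1 h.2
  · intro hf
    have hf' : ∀ x y, B (f x) (f y) = B x y := hf
    obtain ⟨g, hgTG, hgf⟩ := Cfsg.Agent.Helper13.witt_alt B hBnd hBalt ⊤ (f : ↥W →ₗ[ZMod p] ↥W)
      (fun x _ x' _ => hf' x x') (fun x _ hx => by
        have : f x = 0 := hx
        exact (LinearEquiv.map_eq_zero_iff f).mp this)
    have : g = f := by
      ext x
      have := hgf x Submodule.mem_top
      rw [this]
      rfl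
    rw [← this]
    exact hTG hgTG

end Cfsg.Agent.Helper20.McL
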