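import Cfsg.Prelude.Def_Transfer
import Cfsg.Prelude.Def_Solvable
import Cfsg.Agent.Helper63.N15Defs

/-!
# Piece a2 of CALL S4415: a four-group acting on an abelian normal subgroup of odd order
-/

set_option autoImplicit false

namespace Cfsg.Agent.Helper20.N15

open Cfsg.Agent.Helper63.N15

/-- additive core of `a2`. -/
theorem a2_add {A : Type*} [AddCommGroup A] (f₁ f₂ f₃ : A → A)
    (a1 : ∀ x y, f₁ (x + y) = f₁ x + f₁ y) (a2 : ∀ x y, f₂ (x + y) = f₂ x + f₂ y)
    (a3 : ∀ x y, f₃ (x + y) = f₃ x + f₃ y)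
    (h11 : ∀ x, f₁ (f₁ x) = x) (h22 : ∀ x, f₂ (f₂ x) = x) (h12 : ∀ x, f₁ (f₂ x) = f₃ x)
    (h21 : ∀ x, f₂ (f₁ x) = f₃ x)
    (k1 : ∀ x, f₁ x = x → f₂ x = -x → x = 0) (k2 : ∀ x, f₂ x = x → f₃ x = -x → x = 0)
    (k3 : ∀ x, f₃ x = x → f₁ x = -x → x = 0)
    (t : ∀ y : A, y + y = 0 → y = 0) : ∀ x, f₁ x = x ∧ f₂ x = x := by
  have s1 : ∀ x y, f₁ (x - y) = f₁ x - f₁ y := by
    intro x y
    have := a1 (x - y) y
    rw [sub_add_cancel] at this
    rw [this]; abel
  have s2 : ∀ x y, f₂ (x - y) = f₂ x - f₂ y := by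
    intro x y
    have := a2 (x - y) y
    rw [sub_add_cancel] at this
    rw [this]; abel
  have s3 : ∀ x y, f₃ (x - y) = f₃ x - f₃ y := by
    intro x y
    have := a3 (x - y) y
    rw [sub_add_cancel] at this
    rw [this]; abel
  have h33 : ∀ x, f₃ (f₃ x) = x := by
    intro x
    rw [← h12 (f₃ x), ← h21 x, h22, h11]
  have h13 : ∀ x, f₁ (f₃ x) = f₂ x := by
    intro x; rw [← h12 x, h11]
  have h31 : ∀ x, f₃ (f₁ x) = f₂ x := by
    intro x; rw [← h21 (f₁ x), h11]
  have h23 : ∀ x, f₂ (f₃ x) = f₁ x := by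
    intro x; rw [← h21 x, h22]
  have h32 : ∀ x, f₃ (f₂ x) = f₁ x := by
    intro x; rw [← h12 (f₂ x), h22]
  intro x
  have ha : x + f₁ x - f₂ x - f₃ x = 0 := by
    apply k1
    · rw [s1, s1, a1, h11, h12, h13]; abel
    · rw [s2, s2, a2, h21, h22, h23]; abel
  have hb : x + f₂ x - f₃ x - f₁ x = 0 := by
    apply k2
    · rw [s2, s2, a2, h22, h23, h21]; abel
    · rw [s3, s3, a3, h32, h33, h31]; abel
  have hc : x + f₃ x - f₁ x - f₂ x = 0 := by
    apply k3
    · rw [s3, s3, a3, h33, h31, h32]; abel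
    · rw [s1, s1, a1, h13, h11, h12]; abel
  have e1 : (x - f₁ x) + (x - f₁ x) = 0 := by
    have : (x - f₁ x) + (x - f₁ x) = (x + f₂ x - f₃ x - f₁ x) + (x + f₃ x - f₁ x - f₂ x) := by
      abel
    rw [this, hb, hc, add_zero]
  have e2 : (x - f₂ x) + (x - f₂ x) = 0 := by
    have : (x - f₂ x) + (x - f₂ x) = (x + f₁ x - f₂ x - f₃ x) + (x + f₃ x - f₁ x - f₂ x) := by
      abel
    rw [this, ha, hc, add_zero]
  exact ⟨(sub_eq_zero.mp (t _ e1)).symm, (sub_eq_zero.mp (t _ e2)).symm⟩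

variable {G : Type*} [Group G] [Finite G] {V : Type*} [AddCommGroup V] [Module (ZMod 3) V]
  [Finite V] {ρ : Representation (ZMod 3) G V} {R : Subgroup G} {b q₁ q₂ q₃ : G} {v₁ v₂ v₃ : V}

/-- A2 (pure group theory). -/
theorem a2 (N : Subgroup G) (hN : N.Normal) (hab : ∀ x ∈ N, ∀ y ∈ N, x * y = y * x)
    (hodd : Odd (Nat.card N)) (h11 : q₁ * q₁ = 1) (h22 : q₂ * q₂ = 1) (h12 : q₁ * q₂ = q₃)
    (h21 : q₂ * q₁ = q₃)
    (k1 : ∀ x ∈ N, q₁ * x = x * q₁ → q₂ * x * q₂⁻¹ = x⁻¹ → x = 1)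
    (k2 : ∀ x ∈ N, q₂ * x = x * q₂ → q₃ * x * q₃⁻¹ = x⁻¹ → x = 1)
    (k3 : ∀ x ∈ N, q₃ * x = x * q₃ → q₁ * x * q₁⁻¹ = x⁻¹ → x = 1) :
    ∀ x ∈ N, q₁ * x = x * q₁ ∧ q₂ * x = x * q₂ := by
  have comm_of_conj : ∀ c y : G, c * y * c⁻¹ = y → c * y = y * c := by
    intro c y h
    calc c * y = (c * y * c⁻¹) * c := by group
      _ = y * c := by rw [h]
  have t0 : ∀ y ∈ N, y * y = 1 → y = 1 := by
    intro y hy hyy
    have h2 : orderOf y ∣ 2 := orderOf_dvd_of_pow_eq_one (by rw [pow_two, hyy])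
    have hN' : orderOf y ∣ Nat.card N := Subgroup.orderOf_dvd_natCard N hy
    have h1 : orderOf y = 1 := by
      rcases (Nat.dvd_prime Nat.prime_two).mp h2 with h | h
      · exact h
      · exfalso
        rw [h] at hN'
        exact (Nat.not_even_iff_odd.mpr hodd) (even_iff_two_dvd.mpr hN')
    exact orderOf_eq_one_iff.mp h1
  let cg : CommGroup ↥N :=
    { (inferInstance : Group ↥N) with mul_comm := fun a b => Subtype.ext (hab a a.2 b b.2) }
  obtain ⟨f, hf⟩ : ∃ f : G → Additive ↥N → Additive ↥N, ∀ (c : G) (x : Additive ↥N),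
      ((Additive.toMul (f c x) : ↥N) : G) = c * ((Additive.toMul x : ↥N) : G) * c⁻¹ :=
    ⟨fun c x => Additive.ofMul
      (⟨c * ((Additive.toMul x : ↥N) : G) * c⁻¹, hN.conj_mem _ (Additive.toMul x).2 c⟩ : ↥N),
      fun c x => rfl⟩
  have ext : ∀ x y : Additive ↥N,
      ((Additive.toMul x : ↥N) : G) = ((Additive.toMul y : ↥N) : G) → x = y := by
    intro x y h
    exact Additive.toMul.injective (Subtype.ext h)
  have vadd : ∀ x y : Additive ↥N, ((Additive.toMul (x + y) : ↥N) : G) =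
      ((Additive.toMul x : ↥N) : G) * ((Additive.toMul y : ↥N) : G) := fun x y => rfl
  have vneg : ∀ x : Additive ↥N, ((Additive.toMul (-x) : ↥N) : G) =
      ((Additive.toMul x : ↥N) : G)⁻¹ := fun x => rfl
  have vzero : ((Additive.toMul (0 : Additive ↥N) : ↥N) : G) = 1 := rfl
  have fadd : ∀ (c : G) (x y : Additive ↥N), f c (x + y) = f c x + f c y := by
    intro c x y
    apply ext
    rw [hf, vadd, vadd, hf, hf]
    group
  have key := a2_add (f q₁) (f q₂) (f q₃) (fadd q₁) (fadd q₂) (fadd q₃)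
    (by
      intro x; apply ext; rw [hf, hf]
      have e : q₁ * (q₁ * ((Additive.toMul x : ↥N) : G) * q₁⁻¹) * q₁⁻¹ =
          (q₁ * q₁) * ((Additive.toMul x : ↥N) : G) * (q₁ * q₁)⁻¹ := by group
      rw [e, h11]; group)
    (by
      intro x; apply ext; rw [hf, hf]
      have e : q₂ * (q₂ * ((Additive.toMul x : ↥N) : G) * q₂⁻¹) * q₂⁻¹ =
          (q₂ * q₂) * ((Additive.toMul x : ↥N) : G) * (q₂ * q₂)⁻¹ := by group
      rw [e, h22]; group)
    (by
      intro x; apply ext; rw [hf, hf, hf]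
      have e : q₁ * (q₂ * ((Additive.toMul x : ↥N) : G) * q₂⁻¹) * q₁⁻¹ =
          (q₁ * q₂) * ((Additive.toMul x : ↥N) : G) * (q₁ * q₂)⁻¹ := by group
      rw [e, h12])
    (by
      intro x; apply ext; rw [hf, hf, hf]
      have e : q₂ * (q₁ * ((Additive.toMul x : ↥N) : G) * q₁⁻¹) * q₂⁻¹ =
          (q₂ * q₁) * ((Additive.toMul x : ↥N) : G) * (q₂ * q₁)⁻¹ := by group
      rw [e, h21])
    (by
      intro x hx1 hx2
      apply ext
      rw [vzero]
      apply k1 _ (Additive.toMul x).2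
      · have := congrArg (fun z : Additive ↥N => ((Additive.toMul z : ↥N) : G)) hx1
        simp only [hf] at this
        exact comm_of_conj _ _ this
      · have := congrArg (fun z : Additive ↥N => ((Additive.toMul z : ↥N) : G)) hx2
        simp only [hf, vneg] at this
        exact this)
    (by
      intro x hx1 hx2
      apply ext
      rw [vzero]
      apply k2 _ (Additive.toMul x).2
      · have := congrArg (fun z : Additive ↥N => ((Additive.toMul z : ↥N) : G)) hx1
        simp only [hf] at this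
        exact comm_of_conj _ _ this
      · have := congrArg (fun z : Additive ↥N => ((Additive.toMul z : ↥N) : G)) hx2
        simp only [hf, vneg] at this
        exact this)
    (by
      intro x hx1 hx2
      apply ext
      rw [vzero]
      apply k3 _ (Additive.toMul x).2
      · have := congrArg (fun z : Additive ↥N => ((Additive.toMul z : ↥N) : G)) hx1
        simp only [hf] at this
        exact comm_of_conj _ _ this
      · have := congrArg (fun z : Additive ↥N => ((Additive.toMul z : ↥N) : G)) hx2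
        simp only [hf, vneg] at this
        exact this)
    (by
      intro y hy
      apply ext
      rw [vzero]
      apply t0 _ (Additive.toMul y).2
      have := congrArg (fun z : Additive ↥N => ((Additive.toMul z : ↥N) : G)) hy
      simp only [vadd, vzero] at this
      exact this)
  intro x hx
  obtain ⟨e1, e2⟩ := key (Additive.ofMul (⟨x, hx⟩ : ↥N))
  have e1' := congrArg (fun z : Additive ↥N => ((Additive.toMul z : ↥N) : G)) e1
  have e2' := congrArg (fun z : Additive ↥N => ((Additive.toMul z : ↥N) : G)) e2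
  simp only [hf] at e1' e2'
  have e1'' : q₁ * x * q₁⁻¹ = x := e1'
  have e2'' : q₂ * x * q₂⁻¹ = x := e2'
  exact ⟨comm_of_conj _ _ e1'', comm_of_conj _ _ e2''⟩

end Cfsg.Agent.Helper20.N15
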