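import Cfsg.Prelude.Def_Transfer
import Cfsg.Prelude.Def_Solvable
import Cfsg.Agent.Helper63.N15Defs

/-!
# Piece a3 of CALL S4415: a normal subgroup of odd order centralized by `q₁, q₂` is trivial
-/

set_option autoImplicit false

namespace Cfsg.Agent.Helper20.N15

open Cfsg.Agent.Helper63.N15

/-- an odd power equal to `1` in `ZMod 3` forces the base to be `1`. -/
theorem a3_zmod3 (a : ZMod 3) (m : ℕ) (hm : Odd m) (h : a ^ m = 1) : a = 1 := by
  obtain ⟨k, rfl⟩ := hm
  by_cases ha : a = 0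
  · rw [ha, zero_pow (by omega)] at h
    exact absurd h (by decide)
  · have h2 : a ^ 2 = 1 := ZMod.pow_card_sub_one_eq_one (p := 3) ha
    rw [pow_succ, pow_mul, h2, one_pow, one_mul] at h
    exact h

variable {G : Type*} [Group G] [Finite G] {V : Type*} [AddCommGroup V] [Module (ZMod 3) V]
  [Finite V] {ρ : Representation (ZMod 3) G V} {R : Subgroup G} {b q₁ q₂ q₃ : G} {v₁ v₂ v₃ : V}

/-- A3. A normal subgroup `N` of odd order centralized by `q₁, q₂` is trivial. -/
theorem a3 (c : Cfg ρ R b q₁ q₂ q₃ v₁ v₂ v₃) (N : Subgroup G) (hN : N.Normal)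
    (hodd : Odd (Nat.card N)) (h1 : ∀ x ∈ N, q₁ * x = x * q₁) (h2 : ∀ x ∈ N, q₂ * x = x * q₂) :
    N = ⊥ := by
  have hmul : ∀ (g h : G) (v : V), ρ (g * h) v = ρ g (ρ h v) := by
    intro g h v
    rw [map_mul]
    rfl
  have two : ∀ y : V, y + y = 0 → y = 0 := by
    intro y hy
    have h3 : (3 : ZMod 3) • y = 0 := by
      have : (3 : ZMod 3) = 0 := by decide
      rw [this, zero_smul]
    have e : y = (3 : ZMod 3) • y - (y + y) := by
      have : (3 : ZMod 3) • y = y + y + y := by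
        have e3 : (3 : ZMod 3) = 1 + 1 + 1 := by decide
        rw [e3, add_smul, add_smul, one_smul]
      rw [this]; abel
    rw [e, h3, hy, sub_zero]
  -- step 1: every x ∈ N maps v₁ to a multiple of v₁
  have step1 : ∀ x ∈ N, ∃ a : ZMod 3, ρ x v₁ = a • v₁ := by
    intro x hx
    obtain ⟨u, c₁, c₂, c₃, hw, hu1, hu2, -, -⟩ := c.dec (ρ x v₁)
    have e1 : ρ q₁ (ρ x v₁) = ρ x v₁ := by
      rw [← hmul, h1 x hx, hmul, c.s11]
    have e2 : ρ q₂ (ρ x v₁) = -ρ x v₁ := by
      rw [← hmul, h2 x hx, hmul, c.s21, map_neg]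
    rw [hw] at e1 e2
    simp only [map_add, map_smul, hu1, hu2, c.s11, c.s12, c.s13, c.s21, c.s22, c.s23] at e1 e2
    -- e1 : u + c₁ • v₁ + c₂ • -v₂ + c₃ • -v₃ = u + c₁ • v₁ + c₂ • v₂ + c₃ • v₃
    have E1 : c₂ • v₂ + c₃ • v₃ = 0 := by
      apply two
      have : (c₂ • v₂ + c₃ • v₃) + (c₂ • v₂ + c₃ • v₃) =
          (u + c₁ • v₁ + c₂ • v₂ + c₃ • v₃) - (u + c₁ • v₁ + c₂ • -v₂ + c₃ • -v₃) := by
        rw [smul_neg, smul_neg]; abel
      rw [this, e1, sub_self]
    have E2 : u + c₂ • v₂ = 0 := by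
      apply two
      have : (u + c₂ • v₂) + (u + c₂ • v₂) =
          (u + c₁ • -v₁ + c₂ • v₂ + c₃ • -v₃) + (u + c₁ • v₁ + c₂ • v₂ + c₃ • v₃) := by
        rw [smul_neg, smul_neg]; abel
      rw [this, e2, neg_add_cancel]
    have E3 : c₂ • v₂ - c₃ • v₃ = 0 := by
      have := congrArg (ρ q₂) E1
      rw [map_add, map_smul, map_smul, c.s22, c.s23, map_zero, smul_neg] at this
      rw [sub_eq_add_neg]; exact this
    have E4 : c₂ • v₂ = 0 := by
      apply two
      have : c₂ • v₂ + c₂ • v₂ = (c₂ • v₂ + c₃ • v₃) + (c₂ • v₂ - c₃ • v₃) := by abel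
      rw [this, E1, E3, add_zero]
    have E5 : c₃ • v₃ = 0 := by rw [E4, zero_add] at E1; exact E1
    have E6 : u = 0 := by rw [E4, add_zero] at E2; exact E2
    refine ⟨c₁, ?_⟩
    rw [hw, E6, E4, E5, zero_add, add_zero, add_zero]
  -- step 2: every x ∈ N fixes v₁
  have step2 : ∀ x ∈ N, ρ x v₁ = v₁ := by
    intro x hx
    obtain ⟨a, ha⟩ := step1 x hx
    have hpow : ∀ n : ℕ, ρ (x ^ n) v₁ = a ^ n • v₁ := by
      intro n
      induction n with
      | zero => rw [pow_zero, pow_zero, map_one, one_smul]; rfl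
      | succ n ih => rw [pow_succ, hmul, ha, map_smul, ih, smul_smul, pow_succ, mul_comm]
    have hm : Odd (orderOf x) := Odd.of_dvd_nat hodd (Subgroup.orderOf_dvd_natCard N hx)
    have h3 := hpow (orderOf x)
    rw [pow_orderOf_eq_one, map_one] at h3
    have h4 : (a ^ orderOf x - 1) • v₁ = 0 := by
      rw [sub_smul, one_smul, ← h3]
      show v₁ - v₁ = 0
      rw [sub_self]
    have h5 : a ^ orderOf x = 1 := by
      rcases smul_eq_zero.mp h4 with h | h
      · exact sub_eq_zero.mp h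
      · exact absurd h c.v1
    rw [ha, a3_zmod3 a _ hm h5, one_smul]
  -- step 3: the fixed space
  obtain ⟨W, hW⟩ : ∃ W : Submodule (ZMod 3) V, ∀ v, v ∈ W ↔ ∀ x ∈ N, ρ x v = v := by
    refine ⟨{ carrier := {v | ∀ x ∈ N, ρ x v = v}
              add_mem' := ?_
              zero_mem' := ?_
              smul_mem' := ?_ }, fun v => Iff.rfl⟩
    · intro a b ha hb x hx
      rw [map_add, ha x hx, hb x hx]
    · intro x hx
      rw [map_zero]
    · intro k a ha x hx
      rw [map_smul, ha x hx]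
  have hinv : ∀ g : G, ∀ v ∈ W, ρ g v ∈ W := by
    intro g v hv
    rw [hW] at hv ⊢
    intro x hx
    have hc : g⁻¹ * x * g ∈ N := by
      have := hN.conj_mem x hx g⁻¹
      rwa [inv_inv] at this
    have e : x * g = g * (g⁻¹ * x * g) := by group
    rw [← hmul, e, hmul, hv _ hc]
  have hv1 : v₁ ∈ W := (hW v₁).mpr step2
  rcases c.irr W hinv with hb | ht
  · rw [hb, Submodule.mem_bot] at hv1
    exact absurd hv1 c.v1
  · rw [Subgroup.eq_bot_iff_forall]
    intro x hx
    apply c.faith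
    intro v
    have : v ∈ W := by rw [ht]; exact Submodule.mem_top
    exact (hW v).mp this x hx

end Cfsg.Agent.Helper20.N15
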