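import Cfsg.Prelude.Def_Transfer
import Cfsg.Prelude.Def_Solvable
import Cfsg.Agent.Helper63.N15Defs

/-!
# Piece sm7 of CALL S4415: no element of order `7` acts faithfully on a space with `81` elements
-/

set_option autoImplicit false

namespace Cfsg.Agent.Helper20.N15

open Cfsg.Agent.Helper63.N15

variable {G : Type*} [Group G] [Finite G] {V : Type*} [AddCommGroup V] [Module (ZMod 3) V]
  [Finite V] {ρ : Representation (ZMod 3) G V} {R : Subgroup G} {b q₁ q₂ q₃ : G} {v₁ v₂ v₃ : V}

/-- SM7. No element of order `7` when `|V| = 81`. -/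
theorem sm7 (ρ : Representation (ZMod 3) G V)
    (hfaith : ∀ g : G, (∀ v : V, ρ g v = v) → g = 1) (hV : Nat.card V = 81) :
    ∀ x : G, x ^ 7 = 1 → x = 1 := by
  intro x hx
  apply hfaith
  classical
  have : Fintype V := Fintype.ofFinite V
  obtain ⟨F, hF⟩ : ∃ F : AddSubgroup V, ∀ v, v ∈ F ↔ ρ x v = v := by
    refine ⟨{ carrier := {v | ρ x v = v}, add_mem' := ?_, zero_mem' := ?_, neg_mem' := ?_ },
      fun v => Iff.rfl⟩
    · intro a b ha hb
      show ρ x (a + b) = a + b
      rw [map_add, ha, hb]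
    · show ρ x 0 = 0
      rw [map_zero]
    · intro a ha
      show ρ x (-a) = -a
      rw [map_neg, ha]
  have hdiv : Nat.card F ∣ 81 := by
    rw [← hV]
    exact AddSubgroup.card_addSubgroup_dvd_card F
  obtain ⟨f, hf⟩ : ∃ f : Function.End V, ∀ v, f v = ρ x v := ⟨fun v => ρ x v, fun v => rfl⟩
  have hpow : ∀ (n : ℕ) (v : V), (f ^ n) v = ρ (x ^ n) v := by
    intro n
    induction n with
    | zero => intro v; rw [pow_zero, pow_zero, map_one]; rfl
    | succ n ih =>
      intro v
      rw [pow_succ, pow_succ, map_mul]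
      show (f ^ n) (f v) = ρ (x ^ n) (ρ x v)
      rw [ih, hf]
  have hf7 : f ^ 7 ^ 1 = 1 := by
    rw [pow_one]
    funext v
    rw [hpow, hx, map_one]
    rfl
  have hmod : Nat.card V ≡ Nat.card F [MOD 7] := by
    have : Fact (Nat.Prime 7) := ⟨by norm_num⟩
    have h := Equiv.Perm.card_fixedPoints_modEq (p := 7) (n := 1) hf7
    rw [← Nat.card_eq_fintype_card, ← Nat.card_eq_fintype_card] at h
    have e : Nat.card (Function.fixedPoints f) = Nat.card F := by
      apply Nat.card_congr
      refine Equiv.subtypeEquivRight (fun v => ?_)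
      rw [hF, ← hf]
      rfl
    rw [← e]
    exact h
  rw [hV] at hmod
  have hdiv' : Nat.card F ∣ 3 ^ 4 := by
    have e : (3 : ℕ) ^ 4 = 81 := by norm_num
    rw [e]
    exact hdiv
  obtain ⟨j, hj, hj2⟩ := (Nat.dvd_prime_pow Nat.prime_three).mp hdiv'
  have hj4 : j = 4 := by
    rw [hj2] at hmod
    interval_cases j <;> first | rfl | (exfalso; revert hmod; decide)
  have hFtop : F = ⊤ := by
    apply AddSubgroup.eq_top_of_card_eq
    rw [hj2, hj4, hV]
    norm_num
  intro v
  rw [← hF, hFtop]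
  exact AddSubgroup.mem_top v

end Cfsg.Agent.Helper20.N15
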