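import Mathlib
import Cfsg.Agent.Helper21.N2RDefs

set_option autoImplicit false

namespace Cfsg.Agent.Helper20.N2RT1C

open Matrix Cfsg.Agent.Helper21.N2R

/-- T1C -/
theorem T1_commute_fE {m ν : Type*} [Fintype m] [DecidableEq m] [DecidableEq ν]
    {F : Type*} [Field F] (ι : Fˣ) (π : m → ν) (t : GL m F) (ht : t ∈ T1 m ι) (k : ν) :
    (t : Matrix m m F) * fE π k = fE π k * (t : Matrix m m F) := by
  obtain ⟨d, hd, rfl⟩ := (mem_T1_iff m ι t).mp ht
  rw [dg_val]
  unfold fE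
  rw [Matrix.diagonal_mul_diagonal, Matrix.diagonal_mul_diagonal]
  congr 1
  funext i
  exact mul_comm _ _

end Cfsg.Agent.Helper20.N2RT1C
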