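import Mathlib
import Cfsg.Agent.Helper21.N2RDefs

set_option autoImplicit false

namespace Cfsg.Agent.Helper20.N2RT1G

open Matrix Cfsg.Agent.Helper21.N2R

/-- T1G -/
theorem T1_good {m : Type*} [Fintype m] [DecidableEq m] {F : Type*} [Field F]
    (ι : Fˣ) (hι : ι ^ 2 = -1) (j : m) :
    ∃ u ∈ T1 m ι, ∃ J : Matrix m m F,
      fE (id : m → m) j * J = J ∧ J * fE (id : m → m) j = J ∧ J * J = - fE (id : m → m) j ∧
      (u : Matrix m m F) = 1 - fE (id : m → m) j + J ∧
      ((u⁻¹ : GL m F) : Matrix m m F) = 1 - fE (id : m → m) j - J := by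
  have hι2 : (ι : F) * (ι : F) = -1 := by
    have := congrArg (fun x : Fˣ => (x : F)) hι
    simpa [pow_two] using this
  have hιinv : ((ι⁻¹ : Fˣ) : F) = -(ι : F) := by
    have h1 : (ι : F) * (-(ι : F)) = 1 := by rw [mul_neg, hι2, neg_neg]
    have : ((ι⁻¹ : Fˣ) : F) = (ι : F)⁻¹ := Units.val_inv_eq_inv_val ι
    rw [this]
    exact inv_eq_of_mul_eq_one_right h1
  have hE : (fE (id : m → m) j : Matrix m m F) =
      Matrix.diagonal (fun i => if i = j then (1 : F) else 0) := rfl
  refine ⟨dg m F (Function.update 1 j ι), ?_,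
    Matrix.diagonal (fun i => if i = j then (ι : F) else 0), ?_, ?_, ?_, ?_, ?_⟩
  · rw [mem_T1_iff]
    refine ⟨Function.update 1 j ι, ?_, rfl⟩
    intro i
    by_cases hij : i = j
    · subst hij; rw [Function.update_self]; exact Subgroup.mem_zpowers ι
    · rw [Function.update_of_ne hij]; exact Subgroup.one_mem _
  · rw [hE, Matrix.diagonal_mul_diagonal]
    congr 1; funext i; split_ifs <;> simp
  · rw [hE, Matrix.diagonal_mul_diagonal]
    congr 1; funext i; split_ifs <;> simp
  · rw [hE, Matrix.diagonal_mul_diagonal, Matrix.diagonal_neg]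
    congr 1; funext i; split_ifs <;> simp [hι2]
  · rw [dg_val, hE, ← Matrix.diagonal_one, Matrix.diagonal_sub, Matrix.diagonal_add]
    congr 1; funext i
    by_cases hij : i = j
    · subst hij; simp
    · simp [hij]
  · rw [← map_inv, dg_val, hE, ← Matrix.diagonal_one, Matrix.diagonal_sub, Matrix.diagonal_sub]
    congr 1; funext i
    by_cases hij : i = j
    · subst hij; simp [hιinv]
    · simp [hij]

end Cfsg.Agent.Helper20.N2RT1G
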