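import Mathlib
import Cfsg.Agent.Helper21.N2RDefs

set_option autoImplicit false

namespace Cfsg.Agent.Helper20.N2RT1P

open Matrix Cfsg.Agent.Helper21.N2R

/-- T1P -/
theorem T1_isPGroup {m : Type*} [Fintype m] [DecidableEq m] {F : Type*} [Field F]
    (ι : Fˣ) (hι : ι ^ 4 = 1) : IsPGroup 2 (T1 m ι) := by
  rintro ⟨t, ht⟩
  refine ⟨2, ?_⟩
  obtain ⟨d, hd, rfl⟩ := (mem_T1_iff m ι t).mp ht
  apply Subtype.ext
  rw [Subgroup.coe_pow]
  show (dg m F d) ^ 2 ^ 2 = 1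
  rw [← map_pow]
  have : d ^ 2 ^ 2 = 1 := by
    funext i
    obtain ⟨z, hz⟩ := Subgroup.mem_zpowers_iff.mp (hd i)
    rw [Pi.pow_apply, Pi.one_apply, ← hz]
    norm_num
    rw [← zpow_natCast, ← _root_.zpow_mul, mul_comm, _root_.zpow_mul, zpow_natCast, hι, _root_.one_zpow]
  rw [this, map_one]

end Cfsg.Agent.Helper20.N2RT1P
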