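import Mathlib
import Cfsg.Agent.Helper21.N2RDefs

set_option autoImplicit false

namespace Cfsg.Agent.Helper20.N2RT3C

open Matrix Cfsg.Agent.Helper21.N2R

/-- T3C -/
theorem T3_commute_fE {κ ρ : Type*} [Fintype κ] [DecidableEq κ] [Fintype ρ] [DecidableEq ρ]
    {F : Type*} [Field F] (Mu : GL (Fin 2) F) (t : GL ((Fin 2 × κ) ⊕ ρ) F) (ht : t ∈ T3 κ ρ Mu)
    (k : κ ⊕ ρ) :
    (t : Matrix ((Fin 2 × κ) ⊕ ρ) ((Fin 2 × κ) ⊕ ρ) F) * fE (π3 κ ρ) k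
      = fE (π3 κ ρ) k * (t : Matrix ((Fin 2 × κ) ⊕ ρ) ((Fin 2 × κ) ⊕ ρ) F) := by
  obtain ⟨d, hd, rfl⟩ := (mem_T3_iff κ ρ Mu t).mp ht
  rw [bg_val]
  unfold fE
  ext y y'
  rw [Matrix.mul_diagonal, Matrix.diagonal_mul]
  rcases y with ⟨s, i⟩ | r <;> rcases y' with ⟨s', i'⟩ | r'
  · rw [Matrix.fromBlocks_apply₁₁, Matrix.blockDiagonal_apply]
    by_cases hii : i = i'
    · subst hii
      exact mul_comm _ _
    · simp [hii]
  · simp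
  · simp
  · rw [Matrix.fromBlocks_apply₂₂, Matrix.one_apply]
    by_cases hrr : r = r'
    · subst hrr
      exact mul_comm _ _
    · simp [hrr]

end Cfsg.Agent.Helper20.N2RT3C
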