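import Mathlib
import Cfsg.Agent.Helper21.N2RDefs

set_option autoImplicit false

namespace Cfsg.Agent.Helper20.N2RT3G

open Matrix Cfsg.Agent.Helper21.N2R

/-- the fibre idempotent of a block is the corner embedding of the identity -/
theorem fE_eq_corner {κ ρ : Type*} [Fintype κ] [DecidableEq κ] [Fintype ρ] [DecidableEq ρ]
    {F : Type*} [Field F] (i : κ) :
    (fE (π3 κ ρ) (Sum.inl i) : Matrix ((Fin 2 × κ) ⊕ ρ) ((Fin 2 × κ) ⊕ ρ) F) =
      Matrix.fromBlocks (Matrix.blockDiagonal (Pi.single i (1 : Matrix (Fin 2) (Fin 2) F))) 0 0 0 := by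
  unfold fE
  ext y y'
  rcases y with ⟨s, j⟩ | r <;> rcases y' with ⟨s', j'⟩ | r'
  · rw [Matrix.fromBlocks_apply₁₁, Matrix.blockDiagonal_apply, Matrix.diagonal_apply]
    by_cases hjj : j = j'
    · subst hjj
      by_cases hji : j = i
      · subst hji
        by_cases hss : s = s'
        · subst hss; simp [π3]
        · simp [hss]
      · have : (Sum.inl j : κ ⊕ ρ) ≠ Sum.inl i := fun h => hji (Sum.inl.inj h)
        simp [π3, hji, this]
    · have : (Sum.inl (s, j) : (Fin 2 × κ) ⊕ ρ) ≠ Sum.inl (s', j') := by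
        intro h; exact hjj (congrArg Prod.snd (Sum.inl.inj h))
      simp [hjj, this]
  · simp
  · simp
  · rw [Matrix.fromBlocks_apply₂₂, Matrix.diagonal_apply]
    simp [π3]

theorem corner_mul_corner {κ ρ : Type*} [Fintype κ] [DecidableEq κ] [Fintype ρ] [DecidableEq ρ]
    {F : Type*} [Field F] (i : κ) (A B : Matrix (Fin 2) (Fin 2) F) :
    (Matrix.fromBlocks (Matrix.blockDiagonal (Pi.single i A)) 0 0 0 :
        Matrix ((Fin 2 × κ) ⊕ ρ) ((Fin 2 × κ) ⊕ ρ) F) *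
      Matrix.fromBlocks (Matrix.blockDiagonal (Pi.single i B)) 0 0 0 =
      Matrix.fromBlocks (Matrix.blockDiagonal (Pi.single i (A * B))) 0 0 0 := by
  rw [Matrix.fromBlocks_multiply]
  simp only [Matrix.mul_zero, Matrix.zero_mul, add_zero]
  congr 1
  rw [← Matrix.blockDiagonal_mul]
  congr 1
  funext k
  by_cases hk : k = i
  · subst hk; simp
  · simp [hk]

/-- T3G -/
theorem T3_good {κ ρ : Type*} [Fintype κ] [DecidableEq κ] [Fintype ρ] [DecidableEq ρ]
    {F : Type*} [Field F] (Mu : GL (Fin 2) F)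
    (hMu : ((Mu ^ 4 : GL (Fin 2) F) : Matrix (Fin 2) (Fin 2) F) = -1) (i : κ) :
    ∃ u ∈ T3 κ ρ Mu, ∃ J : Matrix ((Fin 2 × κ) ⊕ ρ) ((Fin 2 × κ) ⊕ ρ) F,
      fE (π3 κ ρ) (Sum.inl i) * J = J ∧ J * fE (π3 κ ρ) (Sum.inl i) = J ∧
      J * J = - fE (π3 κ ρ) (Sum.inl i) ∧
      (u : Matrix ((Fin 2 × κ) ⊕ ρ) ((Fin 2 × κ) ⊕ ρ) F) = 1 - fE (π3 κ ρ) (Sum.inl i) + J ∧
      ((u⁻¹ : GL ((Fin 2 × κ) ⊕ ρ) F) : Matrix ((Fin 2 × κ) ⊕ ρ) ((Fin 2 × κ) ⊕ ρ) F)
        = 1 - fE (π3 κ ρ) (Sum.inl i) - J := by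
  obtain ⟨W, hW⟩ : ∃ W : Matrix (Fin 2) (Fin 2) F, W = ((Mu ^ 2 : GL (Fin 2) F) : Matrix _ _ F) :=
    ⟨_, rfl⟩
  have hWW : W * W = -1 := by
    rw [hW, ← hMu, ← Units.val_mul, ← pow_add]
  have hWinv : (((Mu ^ 2)⁻¹ : GL (Fin 2) F) : Matrix (Fin 2) (Fin 2) F) = -W := by
    rw [Matrix.coe_units_inv, ← hW]
    apply Matrix.inv_eq_right_inv
    rw [mul_neg, hWW, neg_neg]
  refine ⟨bg κ ρ F (Pi.mulSingle i (Mu ^ 2)), ?_,
    Matrix.fromBlocks (Matrix.blockDiagonal (Pi.single i W)) 0 0 0, ?_, ?_, ?_, ?_, ?_⟩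
  · rw [mem_T3_iff]
    refine ⟨Pi.mulSingle i (Mu ^ 2), ?_, rfl⟩
    intro k
    by_cases hk : k = i
    · subst hk; rw [Pi.mulSingle_eq_same]; exact Subgroup.pow_mem _ (Subgroup.mem_zpowers Mu) 2
    · rw [Pi.mulSingle_eq_of_ne hk]; exact Subgroup.one_mem _
  · rw [fE_eq_corner, corner_mul_corner, one_mul]
  · rw [fE_eq_corner, corner_mul_corner, mul_one]
  · rw [fE_eq_corner, corner_mul_corner, hWW, Matrix.fromBlocks_neg]
    congr 1
    · rw [← Matrix.blockDiagonal_neg]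
      congr 1
      funext k
      by_cases hk : k = i
      · subst hk; simp
      · simp [hk]
    · simp
    · simp
    · simp
  · rw [bg_val, fE_eq_corner, sub_add_eq_add_sub, eq_sub_iff_add_eq, ← Matrix.fromBlocks_one,
      Matrix.fromBlocks_add, Matrix.fromBlocks_add]
    congr 1
    · rw [← Matrix.blockDiagonal_one, ← Matrix.blockDiagonal_add, ← Matrix.blockDiagonal_add]
      congr 1
      funext k
      by_cases hk : k = i
      · subst hk; simp [hW, add_comm]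
      · simp [hk]
  · rw [← map_inv, bg_val, fE_eq_corner, eq_sub_iff_add_eq, eq_sub_iff_add_eq,
      ← Matrix.fromBlocks_one, Matrix.fromBlocks_add, Matrix.fromBlocks_add]
    congr 1
    · rw [← Matrix.blockDiagonal_one, ← Matrix.blockDiagonal_add, ← Matrix.blockDiagonal_add]
      congr 1
      funext k
      by_cases hk : k = i
      · subst hk
        simp only [Pi.add_apply, Pi.inv_apply, Pi.mulSingle_eq_same, Pi.single_eq_same,
          Pi.one_apply]
        rw [hWinv]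
        simp
      · simp [hk]
    · simp
    · simp
    · simp

end Cfsg.Agent.Helper20.N2RT3G
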