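import Mathlib
import Cfsg.Agent.Helper21.N2RDefs

set_option autoImplicit false

namespace Cfsg.Agent.Helper20.N2RT3P

open Matrix Cfsg.Agent.Helper21.N2R

/-- T3P -/
theorem T3_isPGroup {κ ρ : Type*} [Fintype κ] [DecidableEq κ] [Fintype ρ] [DecidableEq ρ]
    {F : Type*} [Field F] (Mu : GL (Fin 2) F) (hMu : Mu ^ 8 = 1) : IsPGroup 2 (T3 κ ρ Mu) := by
  rintro ⟨t, ht⟩
  refine ⟨3, ?_⟩
  obtain ⟨d, hd, rfl⟩ := (mem_T3_iff κ ρ Mu t).mp ht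
  apply Subtype.ext
  rw [Subgroup.coe_pow]
  show (bg κ ρ F d) ^ 2 ^ 3 = 1
  rw [← map_pow]
  have : d ^ 2 ^ 3 = 1 := by
    funext i
    obtain ⟨z, hz⟩ := Subgroup.mem_zpowers_iff.mp (hd i)
    rw [Pi.pow_apply, Pi.one_apply, ← hz]
    norm_num
    rw [← zpow_natCast, ← _root_.zpow_mul, mul_comm, _root_.zpow_mul, zpow_natCast, hMu, _root_.one_zpow]
  rw [this, map_one]

end Cfsg.Agent.Helper20.N2RT3P
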