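import Mathlib
import Cfsg.Agent.Helper9.OrdTools
import Cfsg.Agent.Helper9.OrdTools2
import Cfsg.Agent.Helper8.SylFix
import Cfsg.Agent.Helper8.SylSub
import Cfsg.Agent.Helper82.SylCent
import Cfsg.Agent.Helper20.FixCount

/-!
# CALL S0983 (helper82), piece N5148: no simple group of order 5148
-/

set_option autoImplicit false
set_option maxHeartbeats 1000000

namespace Cfsg.Agent.Helper20

open Subgroup Cfsg.Agent.Helper9 Cfsg.Agent.Helper8

variable {G : Type*} [Group G] [Finite G] [IsSimpleGroup G]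

/-- piece N5148 -/
theorem o5148 : Nat.card G ≠ 5148 := by
  classical
  intro hG
  haveI : Fact (Nat.Prime 11) := ⟨by norm_num⟩
  haveI : Fact (Nat.Prime 3) := ⟨by norm_num⟩
  haveI : Fact (Nat.Prime 13) := ⟨by norm_num⟩
  obtain ⟨P⟩ : Nonempty (Sylow 11 G) := inferInstance
  have hP : Nat.card (P : Subgroup G) = 11 := by
    have := OrdTools.sylow_card (p := 11) 1 468 (by rw [hG]; norm_num) (by norm_num) P
    simpa using this
  obtain ⟨hdvd, hmod, hne1, hNn⟩ :=
    OrdTools.sylow_num P (by rw [hP]; norm_num) (by rw [hP, hG]; norm_num)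
  have hidx : (P : Subgroup G).index = 468 := by
    have := Subgroup.card_mul_index (P : Subgroup G)
    rw [hP, hG] at this; omega
  rw [hidx] at hdvd
  rw [hG] at hNn
  obtain ⟨e, he, he1, hNe, h11C⟩ :=
    OrdTools.normalizer_centralizer_prime P hP (by rw [hG]; norm_num)
  have he10 : e ≤ 10 := Nat.le_of_dvd (by norm_num) he
  obtain ⟨c', hc'⟩ := h11C
  -- the number of Sylow 11-subgroups is 78
  have hn : Nat.card (Sylow 11 G) = 78 := by
    obtain ⟨k, hk⟩ := hdvd
    obtain ⟨j, hj⟩ : ∃ j, Nat.card (Sylow 11 G) = 11 * j + 1 :=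
      ⟨Nat.card (Sylow 11 G) / 11, by omega⟩
    have hle : Nat.card (Sylow 11 G) ≤ 468 := Nat.le_of_dvd (by norm_num) ⟨k, hk⟩
    have hj49 : j ≤ 42 := by omega
    rw [hj] at hk hNn
    have hcases : j = 1 ∨ j = 7 := by
      interval_cases j <;> omega
    rcases hcases with rfl | rfl
    · exfalso
      have h12 := OrdTools.card_centralizer_of_num P hP (by rw [hj])
      rw [h12] at hNe
      interval_cases e <;> omega
    · exact hj
  rw [hn] at hNn
  have hN : Nat.card (normalizer ((P : Subgroup G) : Set G)) = 66 := by omega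
  obtain ⟨C, hCdef⟩ : ∃ C : Subgroup G, C = centralizer ((P : Subgroup G) : Set G) := ⟨_, rfl⟩
  rw [← hCdef] at hNe hc'
  have hC : Nat.card C = 33 := by
    rw [hN] at hNe
    interval_cases e <;> omega
  -- a generator `g` of `P` and an element `u` of order 3 centralizing `P`
  obtain ⟨gP, hgP⟩ := exists_prime_orderOf_dvd_card' (G := ↥(P : Subgroup G)) 11
    (by rw [hP])
  obtain ⟨uC, huC⟩ := exists_prime_orderOf_dvd_card' (G := ↥C) 3 (by rw [hC]; norm_num)
  obtain ⟨g, hgdef⟩ : ∃ g : G, g = (gP : G) := ⟨_, rfl⟩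
  obtain ⟨u, hudef⟩ : ∃ u : G, u = (uC : G) := ⟨_, rfl⟩
  have hg : orderOf g = 11 := by rw [hgdef, Subgroup.orderOf_coe]; exact hgP
  have hu : orderOf u = 3 := by rw [hudef, Subgroup.orderOf_coe]; exact huC
  have hgmem : g ∈ (P : Subgroup G) := by rw [hgdef]; exact gP.2
  have hg1 : g ≠ 1 := by intro h; rw [h, orderOf_one] at hg; omega
  have hu1 : u ≠ 1 := by intro h; rw [h, orderOf_one] at hu; omega
  have hgu : g * u = u * g := by
    have h2 : u ∈ centralizer ((P : Subgroup G) : Set G) := by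
      rw [hudef]; exact hCdef.le uC.2
    rw [Subgroup.mem_centralizer_iff] at h2
    exact h2 g hgmem
  have hg11 : g ^ 11 = 1 := by rw [← hg]; exact pow_orderOf_eq_one g
  have hu3 : u ^ 3 = 1 := by rw [← hu]; exact pow_orderOf_eq_one u
  -- the centralizer `X` of `u`
  obtain ⟨X, hXdef⟩ : ∃ X : Subgroup G, X = centralizer ({u} : Set G) := ⟨_, rfl⟩
  have hgX : g ∈ X := by
    rw [hXdef, Subgroup.mem_centralizer_iff]
    intro h hh
    rw [Set.mem_singleton_iff] at hh
    rw [hh]; exact hgu.symm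
  have hPX : (P : Subgroup G) ≤ X := by
    rw [← OrdTools.zpowers_eq_sylow P hP hgmem hg1, Subgroup.zpowers_le]
    exact hgX
  have h11X : 11 ∣ Nat.card X := by
    rw [← hP]; exact Subgroup.card_dvd_of_le hPX
  have h9X : 9 ∣ Nat.card X := by
    obtain ⟨S, hS⟩ := (IsPGroup.of_card (p := 3) (n := 1)
      (by rw [Nat.card_zpowers, hu]; norm_num) : IsPGroup 3 (Subgroup.zpowers u)).exists_le_sylow
    have hScard : Nat.card (S : Subgroup G) = 3 ^ 2 :=
      OrdTools.sylow_card (p := 3) 2 572 (by rw [hG]; norm_num) (by norm_num) S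
    have hcomm : ∀ a b : ↥(S : Subgroup G), a * b = b * a :=
      (IsPGroup.isMulCommutative_of_card_eq_prime_sq hScard).is_comm.comm
    have hSX : (S : Subgroup G) ≤ X := by
      intro s hs
      rw [hXdef, Subgroup.mem_centralizer_iff]
      intro h hh
      rw [Set.mem_singleton_iff] at hh
      rw [hh]
      have huS : u ∈ (S : Subgroup G) := hS (Subgroup.mem_zpowers u)
      have := hcomm ⟨u, huS⟩ ⟨s, hs⟩
      exact congrArg Subtype.val this
    have := Subgroup.card_dvd_of_le hSX
    rw [hScard] at this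
    exact this
  have h99 : 99 ∣ Nat.card X :=
    Nat.Coprime.mul_dvd_of_dvd_of_dvd (by norm_num : Nat.Coprime 9 11) h9X h11X
  have hXtop : X ≠ ⊤ := by
    intro htop
    have hn : (Subgroup.zpowers u).Normal := by
      refine ⟨fun n hn y => ?_⟩
      have hy : y ∈ centralizer ({u} : Set G) := by rw [← hXdef, htop]; trivial
      rw [Subgroup.mem_centralizer_iff] at hy
      have hyu : u * y = y * u := hy u rfl
      obtain ⟨k, rfl⟩ := Subgroup.mem_zpowers_iff.mp hn
      have hcomm : Commute y (u ^ k) := (Commute.zpow_right (show Commute y u from hyu.symm) k)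
      rw [hcomm.eq, mul_inv_cancel_right]
      exact Subgroup.zpow_mem _ (Subgroup.mem_zpowers u) k
    have hc : Nat.card (Subgroup.zpowers u) = 3 := by rw [Nat.card_zpowers, hu]
    rcases hn.eq_bot_or_eq_top with h | h
    · rw [h, Subgroup.card_bot] at hc; omega
    · rw [h, Subgroup.card_top, hG] at hc; omega
  have hfact := OrdTools.card_dvd_factorial_index X hXtop
  have h13 : 13 ≤ X.index := by
    have : 13 ∣ X.index.factorial := Dvd.dvd.trans (by rw [hG]; norm_num) hfact
    exact (Nat.Prime.dvd_factorial (by norm_num)).mp this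
  have hXmul := Subgroup.card_mul_index X
  rw [hG] at hXmul
  obtain ⟨k, hk⟩ := h99
  have hkidx : k * X.index = 52 := by
    rw [hk] at hXmul
    have : 99 * (k * X.index) = 99 * 52 := by rw [← mul_assoc]; exact hXmul
    exact Nat.eq_of_mul_eq_mul_left (by norm_num) this
  have hidx52 : X.index ≤ 52 := by
    rcases Nat.eq_zero_or_pos k with h0 | h0
    · rw [h0] at hkidx; omega
    · nlinarith
  -- Sylow 11-subgroups of `X`
  have hXN := SylSub.card_eq_inf_normalizer_mul P X hPX
  have hXmod := SylSub.card_sylow_mod 11 X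
  have hinfle : Nat.card (X ⊓ normalizer ((P : Subgroup G) : Set G) : Subgroup G) ≤ 66 := by
    have := Subgroup.card_dvd_of_le
      (inf_le_right : X ⊓ normalizer ((P : Subgroup G) : Set G) ≤ normalizer ((P : Subgroup G) : Set G))
    rw [hN] at this
    exact Nat.le_of_dvd (by norm_num) this
  have hX396 : Nat.card X = 396 ∧ X.index = 13 := by
    obtain ⟨j, hj⟩ : ∃ j, Nat.card (Sylow 11 ↥X) = 11 * j + 1 :=
      ⟨Nat.card (Sylow 11 ↥X) / 11, by omega⟩
    have hcases : (k = 4 ∧ X.index = 13) ∨ (k = 2 ∧ X.index = 26) ∨ (k = 1 ∧ X.index = 52) := by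
      interval_cases hI : X.index <;> omega
    rcases hcases with ⟨hk4, hi⟩ | ⟨hk2, hi⟩ | ⟨hk1, hi⟩
    · exact ⟨by rw [hk, hk4], hi⟩
    · exfalso
      rw [hk, hk2, hj] at hXN
      have hj18 : j ≤ 17 := by
        by_contra hcon
        push Not at hcon
        have h0 : 0 < Nat.card (X ⊓ normalizer ((P : Subgroup G) : Set G) : Subgroup G) :=
          Nat.card_pos
        nlinarith
      interval_cases j <;> omega
    · exfalso
      rw [hk, hk1, hj] at hXN
      have hj18 : j ≤ 8 := by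
        by_contra hcon
        push Not at hcon
        have h0 : 0 < Nat.card (X ⊓ normalizer ((P : Subgroup G) : Set G) : Subgroup G) :=
          Nat.card_pos
        nlinarith
      interval_cases j <;> omega
  obtain ⟨hX396, hXidx⟩ := hX396
  -- the action on the 13 cosets of `X`
  haveI : Finite (G ⧸ X) := Subgroup.finite_quotient_of_finiteIndex
  have hΩ : Nat.card (G ⧸ X) = 13 := by rw [← Subgroup.index_eq_card, hXidx]
  obtain ⟨A, hA⟩ : ∃ A : Set (G ⧸ X), A = MulAction.fixedBy (G ⧸ X) g := ⟨_, rfl⟩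
  obtain ⟨B, hB⟩ : ∃ B : Set (G ⧸ X), B = MulAction.fixedBy (G ⧸ X) u := ⟨_, rfl⟩
  have hA1 := FixCount.card_univ_modEq (Ω := G ⧸ X) g 11 hg11
  have hA2 := FixCount.card_fixedBy_quot_lt X hXtop g hg1
  rw [← hA, hΩ] at hA1 hA2
  have hAcard : Nat.card ↥A = 2 := by
    have h1 : 13 % 11 = Nat.card ↥A % 11 := hA1
    omega
  have hB1 := FixCount.card_univ_modEq (Ω := G ⧸ X) u 3 hu3
  have hB2 := FixCount.card_fixedBy_quot_lt X hXtop u hu1
  rw [← hB, hΩ] at hB1 hB2
  -- `u` acts on `A`
  have hAB := FixCount.card_stable_modEq A u 3 hu3 (by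
    intro ω hω
    rw [hA, MulAction.mem_fixedBy] at hω ⊢
    rw [← mul_smul, hgu, mul_smul, hω])
  rw [← hB, hAcard] at hAB
  have hABle : Nat.card ↥(A ∩ B) ≤ Nat.card ↥A :=
    Nat.card_mono (Set.toFinite A) Set.inter_subset_left
  have hABcard : Nat.card ↥(A ∩ B) = 2 := by
    have h1 : 2 % 3 = Nat.card ↥(A ∩ B) % 3 := hAB
    omega
  -- `g` acts on `B`
  have hBA := FixCount.card_stable_modEq B g 11 hg11 (by
    intro ω hω
    rw [hB, MulAction.mem_fixedBy] at hω ⊢
    rw [← mul_smul, ← hgu, mul_smul, hω])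
  rw [← hA, Set.inter_comm, hABcard] at hBA
  have h1 : 13 % 3 = Nat.card ↥B % 3 := hB1
  have h2 : Nat.card ↥B % 11 = 2 % 11 := hBA
  omega

end Cfsg.Agent.Helper20
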