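import Mathlib
import Cfsg.Agent.Helper9.OrdTools
import Cfsg.Agent.Helper8.SylSub
import Cfsg.Agent.S0985

/-!
# CALL S0983 (helper82), piece N5600: no simple group of order 5600
-/

set_option autoImplicit false
set_option linter.style.haveILetI false
set_option maxHeartbeats 1000000

namespace Cfsg.Agent.Helper20

open Subgroup Cfsg.Agent.Helper9 Cfsg.Agent.Helper8

variable {G : Type*} [Group G] [Finite G] [IsSimpleGroup G]

/-- piece N5600 -/
theorem o5600 : Nat.card G ≠ 5600 := by
  classical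
  intro h
  haveI : Fact (Nat.Prime 5) := ⟨by norm_num⟩
  haveI : Fact (Nat.Prime 2) := ⟨by norm_num⟩
  obtain ⟨P0⟩ : Nonempty (Sylow 5 G) := inferInstance
  have hS : ∀ P : Sylow 5 G, Nat.card (P : Subgroup G) = 25 := fun P => by
    have := OrdTools.sylow_card (p := 5) 2 224 (by rw [h]; norm_num) (by norm_num) P
    simpa using this
  have hnum := OrdTools.sylow_num P0 (by rw [hS]; norm_num) (by rw [hS, h]; norm_num)
  have hidx0 : (P0 : Subgroup G).index = 224 := by
    have := (P0 : Subgroup G).card_mul_index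
    rw [hS, h] at this
    omega
  have hn224 : Nat.card (Sylow 5 G) ∣ 224 := hidx0 ▸ hnum.1
  have key25 : ∀ d ∈ Nat.divisors 224, d % 25 = 1 → d = 1 := by decide
  have hnot : ¬ Nat.card (Sylow 5 G) ≡ 1 [MOD 5 ^ 2] := by
    intro hmod
    exact hnum.2.2.1 (key25 _ (Nat.mem_divisors.mpr ⟨hn224, by norm_num⟩) hmod)
  obtain ⟨P, R, hPR, hidxPR⟩ := Cfsg.Agent.S0985.result 5 2 hnot
  have hP := hS P
  have hR := hS R
  -- Sylow 5-subgroups are abelian
  have hab : ∀ S : Sylow 5 G, ∀ a ∈ (S : Subgroup G), ∀ b ∈ (S : Subgroup G), a * b = b * a := by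
    intro S a ha b hb
    have hc := IsPGroup.isMulCommutative_of_card_eq_prime_sq (p := 5) (G := (S : Subgroup G))
      (by rw [hS S]; norm_num)
    have := hc.is_comm.comm ⟨a, ha⟩ ⟨b, hb⟩
    exact congrArg Subtype.val this
  -- `D = P ⊓ R` has order 5
  obtain ⟨D, hDdef⟩ : ∃ D : Subgroup G, D = (P : Subgroup G) ⊓ (R : Subgroup G) := ⟨_, rfl⟩
  have hDP : D ≤ (P : Subgroup G) := hDdef ▸ inf_le_left
  have hDR : D ≤ (R : Subgroup G) := hDdef ▸ inf_le_right
  have hDcard : Nat.card D = 5 := by
    have h1 := ((R : Subgroup G).subgroupOf (P : Subgroup G)).card_mul_index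
    have h2 : Nat.card ((R : Subgroup G).subgroupOf (P : Subgroup G)) = Nat.card D := by
      rw [hDdef, ← Subgroup.inf_subgroupOf_left]
      exact Nat.card_congr (Subgroup.subgroupOfEquivOfLe inf_le_left).toEquiv
    rw [h2, hP] at h1
    have hdvd : Nat.card D ∣ 25 := ⟨_, by rw [h1]⟩
    have hne : Nat.card D ≠ 25 := by
      intro h25
      have hle : (P : Subgroup G) ≤ D :=
        (Subgroup.eq_of_le_of_card_ge hDP (by rw [h25, hP])).ge
      have hPleR : (P : Subgroup G) ≤ (R : Subgroup G) := hle.trans hDR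
      exact hPR (Sylow.ext (Subgroup.eq_of_le_of_card_ge hPleR (by rw [hP, hR])))
    have hle5 : ((R : Subgroup G).subgroupOf (P : Subgroup G)).index ≤ 5 := by simpa using hidxPR
    have hcases : ∀ d ∈ Nat.divisors 25, d = 1 ∨ d = 5 ∨ d = 25 := by decide
    rcases hcases _ (Nat.mem_divisors.mpr ⟨hdvd, by norm_num⟩) with h' | h' | h'
    · rw [h'] at h1
      omega
    · exact h'
    · exact absurd h' hne
  -- the centraliser `C` of `D`
  obtain ⟨C, hCdef⟩ : ∃ C : Subgroup G, C = centralizer (D : Set G) := ⟨_, rfl⟩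
  have hle : ∀ S : Sylow 5 G, D ≤ (S : Subgroup G) → (S : Subgroup G) ≤ C := by
    intro S hDS s hs
    rw [hCdef, Subgroup.mem_centralizer_iff]
    intro d hd
    exact hab S d (hDS hd) s hs
  have hPC := hle P hDP
  have hRC := hle R hDR
  have hCtop : C ≠ ⊤ := by
    intro htop
    have hnorm : D.Normal := by
      constructor
      intro d hd g
      have hg : g ∈ centralizer (D : Set G) := by
        rw [← hCdef, htop]; exact Subgroup.mem_top g
      have := Subgroup.mem_centralizer_iff.mp hg d hd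
      rw [← this, mul_inv_cancel_right]
      exact hd
    rcases hnorm.eq_bot_or_eq_top with hb | hb
    · rw [hb, Subgroup.card_bot] at hDcard
      omega
    · rw [hb, Subgroup.card_top, h] at hDcard
      omega
  have hfact := OrdTools.card_dvd_factorial_index C hCtop
  rw [h] at hfact
  have hmul := C.card_mul_index
  rw [h] at hmul
  have hi10 : 10 ≤ C.index := by
    by_contra hlt
    push Not at hlt
    have hbad : ∀ i : ℕ, i < 10 → ¬ 5600 ∣ i.factorial := by decide
    exact hbad _ hlt hfact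
  -- Sylow counting in `C`
  have hsyl := SylSub.card_eq_inf_normalizer_mul P C hPC
  have hmod := SylSub.card_sylow_mod 5 C
  have hge2 : 2 ≤ Nat.card (Sylow 5 ↥C) := by
    refine le_trans ?_ (SylSub.card_le_card_sylow 5 C)
    have hnt : Nontrivial {S : Sylow 5 G // (S : Subgroup G) ≤ C} :=
      ⟨⟨⟨P, hPC⟩, ⟨R, hRC⟩, fun e => hPR (congrArg Subtype.val e)⟩⟩
    exact Finite.one_lt_card
  have h25 : 25 ∣ Nat.card (C ⊓ normalizer ((P : Subgroup G) : Set G) : Subgroup G) := by
    have := Subgroup.card_dvd_of_le (le_inf hPC Subgroup.le_normalizer :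
      (P : Subgroup G) ≤ C ⊓ normalizer ((P : Subgroup G) : Set G))
    rwa [hP] at this
  obtain ⟨a', ha'⟩ := h25
  rw [ha'] at hsyl
  have hc : Nat.card C = 400 ∧ Nat.card (Sylow 5 ↥C) = 16 := by
    generalize Nat.card (Sylow 5 ↥C) = n at *
    generalize C.index = i at *
    generalize Nat.card C = c at *
    have hc560 : c ≤ 560 := by nlinarith
    have ha'pos : 0 < a' := by
      rcases Nat.eq_zero_or_pos a' with h0 | h0
      · rw [h0] at hsyl
        simp at hsyl
        rw [hsyl] at hmul
        omega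
      · exact h0
    have hn22 : n ≤ 22 := by nlinarith
    have hn6 : n = 6 ∨ n = 11 ∨ n = 16 ∨ n = 21 := by omega
    rcases hn6 with rfl | rfl | rfl | rfl
    · exfalso
      have ha2 : a' ≤ 3 := by nlinarith
      interval_cases a' <;> (rw [hsyl] at hmul; omega)
    · exfalso
      have ha2 : a' ≤ 2 := by nlinarith
      interval_cases a' <;> (rw [hsyl] at hmul; omega)
    · have ha2 : a' = 1 := by nlinarith
      subst ha2
      exact ⟨by omega, rfl⟩
    · exfalso
      have ha2 : a' = 1 := by nlinarith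
      subst ha2
      rw [hsyl] at hmul
      omega
  obtain ⟨hCcard, hn5C⟩ := hc
  -- Burnside transfer inside `C`
  obtain ⟨P'⟩ : Nonempty (Sylow 5 ↥C) := inferInstance
  have hP'card : Nat.card (P' : Subgroup ↥C) = 25 := by
    have := OrdTools.sylow_card (G := ↥C) (p := 5) 2 16 (by rw [hCcard]; norm_num)
      (by norm_num) P'
    simpa using this
  have hNP' : Subgroup.normalizer ((P' : Subgroup ↥C) : Set ↥C) = (P' : Subgroup ↥C) := by
    symm
    apply Subgroup.eq_of_le_of_card_ge Subgroup.le_normalizer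
    have h1 := Sylow.card_eq_index_normalizer P'
    have h2 := Subgroup.card_mul_index (Subgroup.normalizer ((P' : Subgroup ↥C) : Set ↥C))
    rw [hCcard] at h2
    have h3 : (Subgroup.normalizer ((P' : Subgroup ↥C) : Set ↥C)).index = 16 := by
      rw [← hn5C]; exact h1.symm
    rw [h3] at h2
    rw [hP'card]
    omega
  have hP'comm := IsPGroup.isMulCommutative_of_card_eq_prime_sq (p := 5)
    (G := (P' : Subgroup ↥C)) (by rw [hP'card]; norm_num)
  have hNC' : Subgroup.normalizer ((P' : Subgroup ↥C) : Set ↥C) ≤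
      Subgroup.centralizer ((P' : Subgroup ↥C) : Set ↥C) := by
    rw [hNP']
    intro x hx
    rw [Subgroup.mem_centralizer_iff]
    intro y hy
    have := hP'comm.is_comm.comm ⟨y, hy⟩ ⟨x, hx⟩
    exact congrArg Subtype.val this
  have hcompl := MonoidHom.ker_transferSylow_isComplement' P' hNC'
  obtain ⟨V0, hV0def⟩ : ∃ V0 : Subgroup ↥C, V0 = (MonoidHom.transferSylow P' hNC').ker :=
    ⟨_, rfl⟩
  rw [← hV0def] at hcompl
  have hV0n : V0.Normal := by rw [hV0def]; infer_instance
  have hV0card : Nat.card V0 = 16 := by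
    have := hcompl.card_mul_card
    rw [hP'card, hCcard] at this
    omega
  obtain ⟨V, hVdef⟩ : ∃ V : Subgroup G, V = V0.map C.subtype := ⟨_, rfl⟩
  have hVcard : Nat.card V = 16 := by
    rw [hVdef, Subgroup.card_map_of_injective (Subgroup.subtype_injective _), hV0card]
  obtain ⟨N, hNdef⟩ : ∃ N : Subgroup G, N = normalizer (V : Set G) := ⟨_, rfl⟩
  have hCN : C ≤ N := by
    intro c hc
    rw [hNdef, Subgroup.mem_normalizer_iff]
    intro v
    constructor
    · intro hv
      rw [hVdef] at hv ⊢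
      obtain ⟨v0, hv0, rfl⟩ := hv
      exact ⟨⟨c, hc⟩ * v0 * ⟨c, hc⟩⁻¹, hV0n.conj_mem v0 hv0 ⟨c, hc⟩, rfl⟩
    · intro hv
      rw [hVdef] at hv ⊢
      obtain ⟨w0, hw0, hw⟩ := hv
      refine ⟨⟨c, hc⟩⁻¹ * w0 * ⟨c, hc⟩, ?_, ?_⟩
      · have := hV0n.conj_mem w0 hw0 (⟨c, hc⟩⁻¹)
        rwa [inv_inv] at this
      · have hw' : (w0 : G) = c * v * c⁻¹ := hw
        show c⁻¹ * (w0 : G) * c = v
        rw [hw']; group
  have h400 : 400 ∣ Nat.card N := by
    rw [← hCcard]; exact Subgroup.card_dvd_of_le hCN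
  have h32 : 32 ∣ Nat.card N := by
    have hV2 : IsPGroup 2 V := IsPGroup.of_card (n := 4) (by rw [hVcard]; norm_num)
    obtain ⟨S2, hS2⟩ := hV2.exists_le_sylow
    have hS2card : Nat.card (S2 : Subgroup G) = 32 := by
      have := OrdTools.sylow_card (p := 2) 5 175 (by rw [h]; norm_num) (by norm_num) S2
      simpa using this
    have hle2 := OrdTools.le_normalizer_of_card_two_mul hS2 (by rw [hS2card, hVcard])
    rw [← hS2card, hNdef]
    exact Subgroup.card_dvd_of_le hle2
  have h800 : 800 ∣ Nat.card N := by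
    have := Nat.lcm_dvd h400 h32
    have hl : Nat.lcm 400 32 = 800 := by decide
    rwa [hl] at this
  have hNmul := N.card_mul_index
  rw [h] at hNmul
  by_cases hNtop : N = ⊤
  · have hVn : V.Normal := by
      rw [← Subgroup.normalizer_eq_top_iff, ← hNdef]; exact hNtop
    rcases hVn.eq_bot_or_eq_top with hb | hb
    · rw [hb, Subgroup.card_bot] at hVcard
      omega
    · rw [hb, Subgroup.card_top, h] at hVcard
      omega
  · have hfactN := OrdTools.card_dvd_factorial_index N hNtop
    rw [h] at hfactN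
    have hidx7 : N.index < 8 := by
      obtain ⟨m, hm⟩ := h800
      rw [hm] at hNmul
      rcases Nat.eq_zero_or_pos m with h0 | h0
      · rw [h0] at hNmul; omega
      · nlinarith
    have hbad : ∀ i : ℕ, i < 8 → ¬ 5600 ∣ i.factorial := by decide
    exact hbad _ hidx7 hfactN

end Cfsg.Agent.Helper20
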