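import Mathlib
import Cfsg.Agent.Helper9.OrdTools
import Cfsg.Agent.Helper8.SylSub
import Cfsg.Agent.S0985

/-!
# CALL S0983 (helper82), piece N5880: no simple group of order 5880
-/

set_option autoImplicit false
set_option linter.style.haveILetI false
set_option maxHeartbeats 1000000

namespace Cfsg.Agent.Helper20

open Subgroup Cfsg.Agent.Helper9 Cfsg.Agent.Helper8

variable {G : Type*} [Group G] [Finite G] [IsSimpleGroup G]

/-- three sets of size at least 8 that pairwise meet in at most one point cover at least 22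
points -/
theorem o5880_count {α : Type*} [Fintype α] [DecidableEq α] (A1 A2 A3 : Finset α) (P : α)
    (h1 : 8 ≤ A1.card) (h2 : 8 ≤ A2.card) (h3 : 8 ≤ A3.card)
    (h12 : A1 ∩ A2 ⊆ {P}) (h13 : A1 ∩ A3 ⊆ {P}) (h23 : A2 ∩ A3 ⊆ {P}) :
    22 ≤ Fintype.card α := by
  have e1 := Finset.card_union_add_card_inter A1 A2
  have e2 := Finset.card_union_add_card_inter (A1 ∪ A2) A3
  have c12 : (A1 ∩ A2).card ≤ 1 := by
    have := Finset.card_le_card h12
    rwa [Finset.card_singleton] at this
  have c3 : ((A1 ∪ A2) ∩ A3).card ≤ 1 := by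
    have hsub : (A1 ∪ A2) ∩ A3 ⊆ {P} := by
      rw [Finset.union_inter_distrib_right]
      exact Finset.union_subset h13 h23
    have := Finset.card_le_card hsub
    rwa [Finset.card_singleton] at this
  have hle := Finset.card_le_univ (A1 ∪ A2 ∪ A3)
  omega

/-- piece N5880 -/
theorem o5880 : Nat.card G ≠ 5880 := by
  classical
  intro h
  haveI : Fact (Nat.Prime 7) := ⟨by norm_num⟩
  obtain ⟨P0⟩ : Nonempty (Sylow 7 G) := inferInstance
  have hS : ∀ P : Sylow 7 G, Nat.card (P : Subgroup G) = 49 := fun P => by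
    have := OrdTools.sylow_card (p := 7) 2 120 (by rw [h]; norm_num) (by norm_num) P
    simpa using this
  have hnum0 := OrdTools.sylow_num P0 (by rw [hS]; norm_num) (by rw [hS, h]; norm_num)
  have hidx0 : (P0 : Subgroup G).index = 120 := by
    have := (P0 : Subgroup G).card_mul_index
    rw [hS, h] at this
    omega
  have hn120 : Nat.card (Sylow 7 G) ∣ 120 := hidx0 ▸ hnum0.1
  have key49 : ∀ d ∈ Nat.divisors 120, d % 49 = 1 → d = 1 := by decide
  have key7 : ∀ d ∈ Nat.divisors 120, d % 7 = 1 → d = 1 ∨ d = 8 ∨ d = 15 ∨ d = 120 := by decide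
  have hnot : ¬ Nat.card (Sylow 7 G) ≡ 1 [MOD 7 ^ 2] := by
    intro hmod
    exact hnum0.2.2.1 (key49 _ (Nat.mem_divisors.mpr ⟨hn120, by norm_num⟩) hmod)
  obtain ⟨P, R, hPR, hidxPR⟩ := Cfsg.Agent.S0985.result 7 2 hnot
  have hP := hS P
  have hR := hS R
  -- Sylow 7-subgroups are abelian
  have hab : ∀ S : Sylow 7 G, ∀ a ∈ (S : Subgroup G), ∀ b ∈ (S : Subgroup G), a * b = b * a := by
    intro S a ha b hb
    have hc := IsPGroup.isMulCommutative_of_card_eq_prime_sq (p := 7) (G := (S : Subgroup G))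
      (by rw [hS S]; norm_num)
    have := hc.is_comm.comm ⟨a, ha⟩ ⟨b, hb⟩
    exact congrArg Subtype.val this
  -- the normalizer `K` of `P` has order at least 392
  obtain ⟨K, hKdef⟩ : ∃ K : Subgroup G, K = normalizer ((P : Subgroup G) : Set G) := ⟨_, rfl⟩
  have hnum := OrdTools.sylow_num P (by rw [hS]; norm_num) (by rw [hS, h]; norm_num)
  rw [← hKdef, h] at hnum
  have hn15 : Nat.card (Sylow 7 G) ≤ 15 := by
    rcases key7 _ (Nat.mem_divisors.mpr ⟨hn120, by norm_num⟩) hnum.2.1 with h1 | h1 | h1 | h1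
    · exact absurd h1 hnum.2.2.1
    · omega
    · omega
    · exfalso
      have hK49 : Nat.card K = 49 := by
        have := hnum.2.2.2
        rw [h1] at this
        omega
      have hKP : K = (P : Subgroup G) := by
        symm
        apply Subgroup.eq_of_le_of_card_ge
        · rw [hKdef]; exact Subgroup.le_normalizer
        · rw [hK49, hP]
      apply OrdTools.not_normalizer_le_centralizer P (by rw [hP]; norm_num)
        (by rw [hP, h]; norm_num)
      rw [← hKdef, hKP]
      intro x hx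
      rw [Subgroup.mem_centralizer_iff]
      intro y hy
      exact hab P y hy x hx
  have hK392 : 392 ≤ Nat.card K := by
    have := hnum.2.2.2
    nlinarith
  -- `D = P ⊓ R` has order 7
  obtain ⟨D, hDdef⟩ : ∃ D : Subgroup G, D = (P : Subgroup G) ⊓ (R : Subgroup G) := ⟨_, rfl⟩
  have hDP : D ≤ (P : Subgroup G) := hDdef ▸ inf_le_left
  have hDR : D ≤ (R : Subgroup G) := hDdef ▸ inf_le_right
  have hDcard : Nat.card D = 7 := by
    have h1 := ((R : Subgroup G).subgroupOf (P : Subgroup G)).card_mul_index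
    have h2 : Nat.card ((R : Subgroup G).subgroupOf (P : Subgroup G)) = Nat.card D := by
      rw [hDdef, ← Subgroup.inf_subgroupOf_left]
      exact Nat.card_congr (Subgroup.subgroupOfEquivOfLe inf_le_left).toEquiv
    rw [h2, hP] at h1
    have hdvd : Nat.card D ∣ 49 := ⟨_, by rw [h1]⟩
    have hne : Nat.card D ≠ 49 := by
      intro h49
      have hle : (P : Subgroup G) ≤ D :=
        (Subgroup.eq_of_le_of_card_ge hDP (by rw [h49, hP])).ge
      have hPleR : (P : Subgroup G) ≤ (R : Subgroup G) := hle.trans hDR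
      exact hPR (Sylow.ext (Subgroup.eq_of_le_of_card_ge hPleR (by rw [hP, hR])))
    have hle7 : ((R : Subgroup G).subgroupOf (P : Subgroup G)).index ≤ 7 := by simpa using hidxPR
    have hcases : ∀ d ∈ Nat.divisors 49, d = 1 ∨ d = 7 ∨ d = 49 := by decide
    rcases hcases _ (Nat.mem_divisors.mpr ⟨hdvd, by norm_num⟩) with h' | h' | h'
    · rw [h'] at h1
      omega
    · exact h'
    · exact absurd h' hne
  -- the normaliser `M` of `D`
  obtain ⟨M, hMdef⟩ : ∃ M : Subgroup G, M = normalizer (D : Set G) := ⟨_, rfl⟩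
  have hle : ∀ S : Sylow 7 G, D ≤ (S : Subgroup G) → (S : Subgroup G) ≤ M := by
    intro S hDS s hs
    rw [hMdef]
    apply Subgroup.centralizer_le_normalizer
    rw [Subgroup.mem_centralizer_iff]
    intro d hd
    exact hab S d (hDS hd) s hs
  have hPM := hle P hDP
  have hRM := hle R hDR
  have hMtop : M ≠ ⊤ := by
    intro htop
    have hnorm : D.Normal := by
      rw [← Subgroup.normalizer_eq_top_iff, ← hMdef]; exact htop
    rcases hnorm.eq_bot_or_eq_top with hb | hb
    · rw [hb, Subgroup.card_bot] at hDcard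
      omega
    · rw [hb, Subgroup.card_top, h] at hDcard
      omega
  have hfact := OrdTools.card_dvd_factorial_index M hMtop
  rw [h] at hfact
  have hmul := M.card_mul_index
  rw [h] at hmul
  have hi14 : 14 ≤ M.index := by
    by_contra hlt
    push Not at hlt
    have hbad : ∀ i : ℕ, i < 14 → ¬ 5880 ∣ i.factorial := by decide
    exact hbad _ hlt hfact
  -- Sylow counting in `M`
  have hsyl := SylSub.card_eq_inf_normalizer_mul P M hPM
  rw [← hKdef] at hsyl
  have hmod := SylSub.card_sylow_mod 7 M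
  have hge2 : 2 ≤ Nat.card (Sylow 7 ↥M) := by
    refine le_trans ?_ (SylSub.card_le_card_sylow 7 M)
    have hnt : Nontrivial {S : Sylow 7 G // (S : Subgroup G) ≤ M} :=
      ⟨⟨⟨P, hPM⟩, ⟨R, hRM⟩, fun e => hPR (congrArg Subtype.val e)⟩⟩
    exact Finite.one_lt_card
  have h49 : 49 ∣ Nat.card (M ⊓ K : Subgroup G) := by
    have := Subgroup.card_dvd_of_le (le_inf hPM (hKdef ▸ Subgroup.le_normalizer) :
      (P : Subgroup G) ≤ M ⊓ K)
    rwa [hP] at this
  obtain ⟨a', ha'⟩ := h49
  have hc : Nat.card M = 392 ∧ Nat.card (M ⊓ K : Subgroup G) = 49 := by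
    rw [ha'] at hsyl ⊢
    generalize Nat.card (Sylow 7 ↥M) = n at *
    generalize M.index = i at *
    generalize Nat.card M = c at *
    have hc420 : c ≤ 420 := by nlinarith
    have ha'pos : 0 < a' := by
      rcases Nat.eq_zero_or_pos a' with h0 | h0
      · rw [h0] at hsyl
        simp at hsyl
        rw [hsyl] at hmul
        omega
      · exact h0
    have hn8 : n ≤ 8 := by nlinarith
    have hn8' : n = 8 := by omega
    subst hn8'
    have ha1 : a' = 1 := by nlinarith
    subst ha1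
    exact ⟨by omega, by omega⟩
  obtain ⟨hMcard, hMK⟩ := hc
  -- membership in a conjugate Sylow subgroup
  have hmem : ∀ (g : G) (Q : Sylow 7 G) (q : G),
      q ∈ ((g • Q : Sylow 7 G) : Subgroup G) ↔ g⁻¹ * q * g ∈ (Q : Subgroup G) := by
    intro g Q q
    rw [Sylow.coe_subgroup_smul, Subgroup.mem_pointwise_smul_iff_inv_smul_mem]
    simp [MulAut.smul_def]
  -- every conjugate of `D` lies in at least 8 Sylow 7-subgroups
  have hTcard : ∀ x : G,
      8 ≤ Nat.card {Q : Sylow 7 G // ∀ d ∈ D, x * d * x⁻¹ ∈ (Q : Subgroup G)} := by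
    intro x
    have hidx : Nat.card (↥M ⧸ (K.subgroupOf M)) = 8 := by
      rw [← Subgroup.index_eq_card]
      have h1 := Subgroup.card_mul_index (K.subgroupOf M)
      have h2 : Nat.card (K.subgroupOf M) = 49 := by
        rw [← Subgroup.inf_subgroupOf_left,
          Nat.card_congr (Subgroup.subgroupOfEquivOfLe inf_le_left).toEquiv]
        exact hMK
      rw [h2, hMcard] at h1
      omega
    have hin : ∀ m : ↥M, ∀ d ∈ D,
        x * d * x⁻¹ ∈ (((x * (m : G)) • P : Sylow 7 G) : Subgroup G) := by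
      intro m d hd
      rw [hmem]
      have e : (x * (m : G))⁻¹ * (x * d * x⁻¹) * (x * (m : G)) = (m : G)⁻¹ * d * (m : G) := by
        group
      rw [e]
      apply hDP
      have hm : (m : G)⁻¹ ∈ normalizer (D : Set G) := by
        rw [← hMdef]; exact M.inv_mem m.2
      have := (Subgroup.mem_normalizer_iff.mp hm d).mp hd
      rwa [inv_inv] at this
    rw [← hidx]
    apply Nat.card_le_card_of_injective
      (fun q : ↥M ⧸ (K.subgroupOf M) =>
        (⟨(x * ((Quotient.out q : ↥M) : G)) • P, hin (Quotient.out q)⟩ :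
          {Q : Sylow 7 G // ∀ d ∈ D, x * d * x⁻¹ ∈ (Q : Subgroup G)}))
    intro q q' hqq'
    have h1 : (x * ((Quotient.out q : ↥M) : G)) • P = (x * ((Quotient.out q' : ↥M) : G)) • P :=
      congrArg Subtype.val hqq'
    rw [mul_smul, mul_smul] at h1
    have h2 := smul_left_cancel x h1
    have h3 : (((Quotient.out q : ↥M) : G)⁻¹ * ((Quotient.out q' : ↥M) : G)) • P = P := by
      rw [mul_smul, ← h2, inv_smul_smul]
    rw [Sylow.smul_eq_iff_mem_normalizer] at h3
    rw [← QuotientGroup.out_eq' q, ← QuotientGroup.out_eq' q']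
    apply QuotientGroup.eq.mpr
    rw [Subgroup.mem_subgroupOf]
    exact hKdef.ge h3
  -- three cosets of `M ⊓ K` in `K`
  have h3 : 2 < Nat.card (↥K ⧸ (M.subgroupOf K)) := by
    rw [← Subgroup.index_eq_card]
    have h1 := Subgroup.card_mul_index (M.subgroupOf K)
    have h2 : Nat.card (M.subgroupOf K) = 49 := by
      rw [← Subgroup.inf_subgroupOf_left,
        Nat.card_congr (Subgroup.subgroupOfEquivOfLe inf_le_left).toEquiv, inf_comm]
      exact hMK
    rw [h2] at h1
    nlinarith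
  haveI : Fintype (↥K ⧸ (M.subgroupOf K)) := Fintype.ofFinite _
  rw [Nat.card_eq_fintype_card, Fintype.two_lt_card_iff] at h3
  obtain ⟨q1, q2, q3, h12, h13, h23⟩ := h3
  obtain ⟨x1, rfl⟩ := QuotientGroup.mk_surjective q1
  obtain ⟨x2, rfl⟩ := QuotientGroup.mk_surjective q2
  obtain ⟨x3, rfl⟩ := QuotientGroup.mk_surjective q3
  have hsep : ∀ a b : ↥K, (a : ↥K ⧸ (M.subgroupOf K)) ≠ b → ((a : G)⁻¹ * (b : G)) ∉ M := by
    intro a b hab hmemM
    apply hab
    rw [QuotientGroup.eq, Subgroup.mem_subgroupOf]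
    simpa using hmemM
  -- two different conjugates of `D` under `K` lie in a common Sylow subgroup only for `P`
  have hint : ∀ a b : ↥K, ((a : G)⁻¹ * (b : G)) ∉ M → ∀ Q : Sylow 7 G,
      (∀ d ∈ D, (a : G) * d * (a : G)⁻¹ ∈ (Q : Subgroup G)) →
      (∀ d ∈ D, (b : G) * d * (b : G)⁻¹ ∈ (Q : Subgroup G)) → Q = P := by
    intro a b hab Q hQa hQb
    by_contra hQP
    have hIcard : Nat.card ((P : Subgroup G) ⊓ (Q : Subgroup G) : Subgroup G) ≤ 7 := by
      have hdvd : Nat.card ((P : Subgroup G) ⊓ (Q : Subgroup G) : Subgroup G) ∣ 49 := by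
        rw [← hP]; exact Subgroup.card_dvd_of_le inf_le_left
      have hne : Nat.card ((P : Subgroup G) ⊓ (Q : Subgroup G) : Subgroup G) ≠ 49 := by
        intro h49
        have hle : (P : Subgroup G) ≤ (P : Subgroup G) ⊓ (Q : Subgroup G) :=
          (Subgroup.eq_of_le_of_card_ge inf_le_left (by rw [h49, hP])).ge
        have hPleQ : (P : Subgroup G) ≤ (Q : Subgroup G) := hle.trans inf_le_right
        exact hQP (Sylow.ext (Subgroup.eq_of_le_of_card_ge hPleQ (by rw [hP, hS Q]))).symm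
      have hcases : ∀ d ∈ Nat.divisors 49, d = 1 ∨ d = 7 ∨ d = 49 := by decide
      rcases hcases _ (Nat.mem_divisors.mpr ⟨hdvd, by norm_num⟩) with h' | h' | h' <;> omega
    have hconjK : ∀ c : ↥K, ∀ d ∈ D, (c : G) * d * (c : G)⁻¹ ∈ (P : Subgroup G) := by
      intro c d hd
      have hc : (c : G) ∈ normalizer ((P : Subgroup G) : Set G) := hKdef.le c.2
      exact (Subgroup.mem_normalizer_iff.mp hc d).mp (hDP hd)
    have hDa : ∀ c : ↥K, (∀ d ∈ D, (c : G) * d * (c : G)⁻¹ ∈ (Q : Subgroup G)) →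
        D.map (MulAut.conj (c : G)).toMonoidHom = (P : Subgroup G) ⊓ (Q : Subgroup G) := by
      intro c hc
      apply Subgroup.eq_of_le_of_card_ge
      · rintro _ ⟨d, hd, rfl⟩
        exact ⟨hconjK c d hd, hc d hd⟩
      · rw [Subgroup.card_map_of_injective (MulAut.conj (c : G)).injective, hDcard]
        exact hIcard
    have hEq : D.map (MulAut.conj (a : G)).toMonoidHom =
        D.map (MulAut.conj (b : G)).toMonoidHom := by
      rw [hDa a hQa, hDa b hQb]
    apply hab
    rw [hMdef, Subgroup.mem_normalizer_iff]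
    have key : ∀ (u v : G), D.map (MulAut.conj u).toMonoidHom =
        D.map (MulAut.conj v).toMonoidHom → ∀ d ∈ D, (u⁻¹ * v) * d * (u⁻¹ * v)⁻¹ ∈ D := by
      intro u v huv d hd
      have h1 : v * d * v⁻¹ ∈ D.map (MulAut.conj u).toMonoidHom := by
        rw [huv]; exact ⟨d, hd, rfl⟩
      obtain ⟨d', hd', hd'eq⟩ := h1
      have hd'' : u * d' * u⁻¹ = v * d * v⁻¹ := hd'eq
      have e : (u⁻¹ * v) * d * (u⁻¹ * v)⁻¹ = d' := by
        calc (u⁻¹ * v) * d * (u⁻¹ * v)⁻¹ = u⁻¹ * (v * d * v⁻¹) * u := by group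
          _ = u⁻¹ * (u * d' * u⁻¹) * u := by rw [hd'']
          _ = d' := by group
      rw [e]; exact hd'
    intro y
    constructor
    · intro hy; exact key a b hEq y hy
    · intro hy
      have h1 := key b a hEq.symm _ hy
      have e : ((b : G)⁻¹ * (a : G)) * ((a : G)⁻¹ * (b : G) * y * ((a : G)⁻¹ * (b : G))⁻¹) *
          ((b : G)⁻¹ * (a : G))⁻¹ = y := by group
      rwa [e] at h1
  -- the count
  haveI : Fintype (Sylow 7 G) := Fintype.ofFinite _
  obtain ⟨A, hA⟩ : ∃ A : G → Finset (Sylow 7 G),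
      ∀ x Q, Q ∈ A x ↔ ∀ d ∈ D, x * d * x⁻¹ ∈ (Q : Subgroup G) :=
    ⟨fun x => Finset.univ.filter (fun Q : Sylow 7 G => ∀ d ∈ D, x * d * x⁻¹ ∈ (Q : Subgroup G)),
      fun x Q => by simp⟩
  have hAcard : ∀ x, 8 ≤ (A x).card := by
    intro x
    have h1 := hTcard x
    rw [Nat.card_eq_fintype_card, Fintype.card_subtype] at h1
    have h2 : A x = Finset.univ.filter
        (fun Q : Sylow 7 G => ∀ d ∈ D, x * d * x⁻¹ ∈ (Q : Subgroup G)) := by
      ext Q; simp [hA]
    rw [h2]
    convert h1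
  have hAint : ∀ a b : ↥K, ((a : G)⁻¹ * (b : G)) ∉ M → A a ∩ A b ⊆ {P} := by
    intro a b hab Q hQ
    rw [Finset.mem_inter, hA, hA] at hQ
    rw [Finset.mem_singleton]
    exact hint a b hab Q hQ.1 hQ.2
  have h22 := o5880_count (A x1) (A x2) (A x3) P (hAcard _) (hAcard _) (hAcard _)
    (hAint x1 x2 (hsep x1 x2 h12)) (hAint x1 x3 (hsep x1 x3 h13))
    (hAint x2 x3 (hsep x2 x3 h23))
  rw [← Nat.card_eq_fintype_card] at h22
  omega

end Cfsg.Agent.Helper20
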