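import Mathlib
import Cfsg.Agent.Helper9.OrdTools
import Cfsg.Agent.Helper9.OrdTools2
import Cfsg.Agent.Helper8.SylFix
import Cfsg.Agent.Helper8.SylSub
import Cfsg.Agent.Helper82.SylCent

/-!
# CALL S0983 (helper82), piece N5940: no simple group of order 5940
-/

set_option autoImplicit false
set_option maxHeartbeats 1000000

namespace Cfsg.Agent.Helper20

open Subgroup Cfsg.Agent.Helper9 Cfsg.Agent.Helper8

variable {G : Type*} [Group G] [Finite G] [IsSimpleGroup G]

/-- piece N5940 -/
theorem o5940 : Nat.card G ≠ 5940 := by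
  classical
  intro hG
  haveI : Fact (Nat.Prime 11) := ⟨by norm_num⟩
  haveI : Fact (Nat.Prime 3) := ⟨by norm_num⟩
  haveI : Fact (Nat.Prime 2) := ⟨by norm_num⟩
  have hna : ∃ a b : G, a * b ≠ b * a := by
    by_contra hcon
    push Not at hcon
    obtain ⟨x, hx⟩ := exists_prime_orderOf_dvd_card' (G := G) 2 (by rw [hG]; norm_num)
    have hn : (Subgroup.zpowers x).Normal :=
      ⟨fun n hn y => by rw [hcon y n, mul_inv_cancel_right]; exact hn⟩
    have hc : Nat.card (Subgroup.zpowers x) = 2 := by rw [Nat.card_zpowers, hx]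
    rcases hn.eq_bot_or_eq_top with h | h
    · rw [h, Subgroup.card_bot] at hc; omega
    · rw [h, Subgroup.card_top, hG] at hc; omega
  obtain ⟨P⟩ : Nonempty (Sylow 11 G) := inferInstance
  have hP : Nat.card (P : Subgroup G) = 11 := by
    have := OrdTools.sylow_card (p := 11) 1 540 (by rw [hG]; norm_num) (by norm_num) P
    simpa using this
  obtain ⟨hdvd, hmod, hne1, hNn⟩ :=
    OrdTools.sylow_num P (by rw [hP]; norm_num) (by rw [hP, hG]; norm_num)
  have hidx : (P : Subgroup G).index = 540 := by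
    have := Subgroup.card_mul_index (P : Subgroup G)
    rw [hP, hG] at this; omega
  rw [hidx] at hdvd
  rw [hG] at hNn
  obtain ⟨e, he, he1, hNe, h11C⟩ :=
    OrdTools.normalizer_centralizer_prime P hP (by rw [hG]; norm_num)
  have he10 : e ≤ 10 := Nat.le_of_dvd (by norm_num) he
  obtain ⟨c', hc'⟩ := h11C
  -- the number of Sylow 11-subgroups is 45
  have hn : Nat.card (Sylow 11 G) = 45 := by
    obtain ⟨k, hk⟩ := hdvd
    obtain ⟨j, hj⟩ : ∃ j, Nat.card (Sylow 11 G) = 11 * j + 1 :=
      ⟨Nat.card (Sylow 11 G) / 11, by omega⟩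
    have hle : Nat.card (Sylow 11 G) ≤ 540 := Nat.le_of_dvd (by norm_num) ⟨k, hk⟩
    have hj49 : j ≤ 49 := by omega
    rw [hj] at hk hNn
    have hcases : j = 1 ∨ j = 4 ∨ j = 49 := by
      interval_cases j <;> omega
    rcases hcases with rfl | rfl | rfl
    · exfalso
      have h12 := OrdTools.card_centralizer_of_num P hP (by rw [hj])
      rw [h12] at hNe
      interval_cases e <;> omega
    · exact hj
    · exfalso
      rw [hc'] at hNe
      have hN11 : Nat.card (normalizer ((P : Subgroup G) : Set G)) = 11 := by omega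
      rw [hN11] at hNe
      interval_cases e <;> omega
  rw [hn] at hNn
  have hN : Nat.card (normalizer ((P : Subgroup G) : Set G)) = 132 := by omega
  obtain ⟨C, hCdef⟩ : ∃ C : Subgroup G, C = centralizer ((P : Subgroup G) : Set G) := ⟨_, rfl⟩
  rw [← hCdef] at hNe hc'
  have hC : Nat.card C = 66 := by
    rw [hN] at hNe
    interval_cases e <;> omega
  obtain ⟨tC, htC⟩ := exists_prime_orderOf_dvd_card' (G := ↥C) 2 (by rw [hC]; norm_num)
  obtain ⟨yC, hyC⟩ := exists_prime_orderOf_dvd_card' (G := ↥C) 3 (by rw [hC]; norm_num)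
  have ht : orderOf (tC : G) = 2 := by rw [Subgroup.orderOf_coe]; exact htC
  have hy : orderOf (yC : G) = 3 := by rw [Subgroup.orderOf_coe]; exact hyC
  have hCcomm : ∀ c : ↥C, ∀ x ∈ (P : Subgroup G), x * (c : G) = (c : G) * x := by
    intro c x hx
    have h2 : (c : G) ∈ centralizer ((P : Subgroup G) : Set G) := hCdef.le c.2
    rw [Subgroup.mem_centralizer_iff] at h2
    exact h2 x hx
  have hCnorm : ∀ c : ↥C, (c : G) • P = P := by
    intro c
    rw [Sylow.smul_eq_iff_mem_normalizer]
    exact Subgroup.centralizer_le_normalizer _ (hCdef.le c.2)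
  have hsyl1 : 1 < Nat.card (Sylow 11 G) := by rw [hn]; norm_num
  have ht1 : (tC : G) ≠ 1 := by intro h; rw [h, orderOf_one] at ht; omega
  have hy1 : (yC : G) ≠ 1 := by intro h; rw [h, orderOf_one] at hy; omega
  have htt : (tC : G) * (tC : G) = 1 := by rw [← pow_two, ← ht, pow_orderOf_eq_one]
  -- the involution fixes exactly one Sylow 11-subgroup
  have hft : Nat.card (MulAction.fixedBy (Sylow 11 G) (tC : G)) = 1 := by
    have hft1 := SylFix.card_fixedBy_modEq_one P (tC : G) (hCcomm tC)
    have hft2 := SylFix.card_fixedBy_modEq (p := 11) (q := 2) (k := 1) (tC : G)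
      (by rw [ht]; norm_num)
    have hft3 := SylFix.card_fixedBy_lt (p := 11) hsyl1 (tC : G) ht1
    rw [hn] at hft2 hft3
    have h1 : Nat.card (MulAction.fixedBy (Sylow 11 G) (tC : G)) % 11 = 1 := hft1
    have h2 : 45 % 2 = Nat.card (MulAction.fixedBy (Sylow 11 G) (tC : G)) % 2 := hft2
    have hor : Nat.card (MulAction.fixedBy (Sylow 11 G) (tC : G)) = 1 ∨
        Nat.card (MulAction.fixedBy (Sylow 11 G) (tC : G)) = 23 := by omega
    rcases hor with h | h
    · exact h
    · exfalso
      haveI : Fintype (Sylow 11 G) := Fintype.ofFinite _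
      have hcard : Fintype.card (Sylow 11 G) = 45 := by rw [← Nat.card_eq_fintype_card, hn]
      obtain ⟨σ, hσ⟩ : ∃ σ : Equiv.Perm (Sylow 11 G),
          σ = MulAction.toPermHom G (Sylow 11 G) (tC : G) := ⟨_, rfl⟩
      have hσ2 : σ ^ 2 = 1 := by
        rw [hσ, ← map_pow, ← ht, pow_orderOf_eq_one, map_one]
      have hfp : Function.fixedPoints σ = MulAction.fixedBy (Sylow 11 G) (tC : G) := by
        ext a
        rw [Function.mem_fixedPoints, MulAction.mem_fixedBy, hσ]
        rfl
      have hfix : Fintype.card (Function.fixedPoints σ) + 2 * 11 =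
          Fintype.card (Sylow 11 G) := by
        rw [hcard, ← Nat.card_eq_fintype_card, hfp, h]
      have hsign := SylFix.sign_of_involution σ hσ2 11 hfix (by decide)
      have htriv := OrdTools.hom_trivial hna
        (Equiv.Perm.sign.comp (MulAction.toPermHom G (Sylow 11 G))) (tC : G)
      rw [MonoidHom.comp_apply, ← hσ, hsign] at htriv
      exact absurd htriv (by decide)
  -- the element of order 3 fixes exactly 12
  have hfy : Nat.card (MulAction.fixedBy (Sylow 11 G) (yC : G)) = 12 := by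
    have hfy1 := SylFix.card_fixedBy_modEq_one P (yC : G) (hCcomm yC)
    have hfy2 := SylFix.card_fixedBy_modEq (p := 11) (q := 3) (k := 1) (yC : G)
      (by rw [hy]; norm_num)
    have hfy3 := SylFix.card_fixedBy_lt (p := 11) hsyl1 (yC : G) hy1
    rw [hn] at hfy2 hfy3
    have h1 : Nat.card (MulAction.fixedBy (Sylow 11 G) (yC : G)) % 11 = 1 := hfy1
    have h2 : 45 % 3 = Nat.card (MulAction.fixedBy (Sylow 11 G) (yC : G)) % 3 := hfy2
    omega
  -- `⟨y⟩` is normal in `C`
  have hconj : (tC * yC * tC⁻¹ : ↥C) ∈ Subgroup.zpowers yC := by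
    obtain ⟨S, hS⟩ := (IsPGroup.of_card (p := 3) (n := 1)
      (by rw [Nat.card_zpowers, hyC]; norm_num) : IsPGroup 3 (Subgroup.zpowers yC)).exists_le_sylow
    have hScard : Nat.card (S : Subgroup ↥C) = 3 := by
      have := OrdTools.sylow_card (G := ↥C) (p := 3) 1 22 (by rw [hC]; norm_num) (by norm_num) S
      simpa using this
    have hSeq : Subgroup.zpowers yC = (S : Subgroup ↥C) := by
      apply Subgroup.eq_of_le_of_card_ge hS
      rw [hScard, Nat.card_zpowers, hyC]
    obtain ⟨N, hNdef⟩ : ∃ N : Subgroup ↥C,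
        N = Subgroup.normalizer ((S : Subgroup ↥C) : Set ↥C) := ⟨_, rfl⟩
    have hPC : ∀ g : ↥C, (g : G) ∈ (P : Subgroup G) → g ∈ N := by
      intro g hg
      rw [hNdef, Subgroup.mem_normalizer_iff]
      intro h
      have hcomm : g * h = h * g := by
        apply Subtype.ext
        exact hCcomm h (g : G) hg
      rw [hcomm, mul_inv_cancel_right]
    have hPleC : (P : Subgroup G) ≤ C := by
      rw [hCdef]; exact OrdTools.le_centralizer_of_prime P hP
    have h11 : 11 ∣ Nat.card N := by
      have hle : (P : Subgroup G).subgroupOf C ≤ N := by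
        intro g hg
        exact hPC g (Subgroup.mem_subgroupOf.mp hg)
      have hcard : Nat.card ((P : Subgroup G).subgroupOf C) = 11 := by
        rw [Nat.card_congr (Subgroup.subgroupOfEquivOfLe hPleC).toEquiv, hP]
      rw [← hcard]
      exact Subgroup.card_dvd_of_le hle
    have h3 : 3 ∣ Nat.card N := by
      rw [← hScard, hNdef]
      exact Subgroup.card_dvd_of_le Subgroup.le_normalizer
    have hidx3 : Nat.card (Sylow 3 ↥C) = N.index := by
      rw [hNdef]; exact Sylow.card_eq_index_normalizer S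
    have hmul := Subgroup.card_mul_index N
    rw [hC] at hmul
    have hmod3 : Nat.card (Sylow 3 ↥C) % 3 = 1 := card_sylow_modEq_one 3 ↥C
    have hn3 : Nat.card (Sylow 3 ↥C) = 1 := by
      rw [hidx3] at hmod3 ⊢
      obtain ⟨a, ha⟩ := h11
      obtain ⟨b, hb⟩ := h3
      have hNle : Nat.card N ≤ 66 := Nat.le_of_dvd (by norm_num) ⟨_, hmul.symm⟩
      have hNpos : 0 < Nat.card N := Nat.card_pos
      have hor : Nat.card N = 33 ∨ Nat.card N = 66 := by omega
      rcases hor with h | h <;> rw [h] at hmul <;> omega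
    haveI : Subsingleton (Sylow 3 ↥C) := (Nat.card_eq_one_iff_unique.mp hn3).1
    have hnorm : tC ∈ N := by
      rw [hNdef]
      exact Sylow.smul_eq_iff_mem_normalizer.mp (Subsingleton.elim _ _)
    rw [hNdef] at hnorm
    rw [hSeq]
    exact (Subgroup.mem_normalizer_iff.mp hnorm yC).mp (hS (Subgroup.mem_zpowers yC))
  obtain ⟨i, hi⟩ := Subgroup.mem_zpowers_iff.mp hconj
  have hi' : (yC : G) ^ i = (tC : G) * (yC : G) * (tC : G)⁻¹ := by
    have := congrArg (fun c : ↥C => (c : G)) hi
    simpa using this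
  have htinv : (tC : G)⁻¹ = (tC : G) := inv_eq_of_mul_eq_one_left htt
  -- `t` maps `Fix(y)` into itself
  have hmap : ∀ Q : Sylow 11 G, Q ∈ MulAction.fixedBy (Sylow 11 G) (yC : G) →
      (tC : G) • Q ∈ MulAction.fixedBy (Sylow 11 G) (yC : G) := by
    intro Q hQ
    rw [MulAction.mem_fixedBy] at hQ ⊢
    have hyi : (yC : G) ^ i • Q = Q := by
      have hmem : (yC : G) ∈ MulAction.stabilizer G Q := MulAction.mem_stabilizer_iff.mpr hQ
      exact MulAction.mem_stabilizer_iff.mp (Subgroup.zpow_mem _ hmem i)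
    have hyt : (yC : G) * (tC : G) = (tC : G) * (yC : G) ^ i := by
      rw [hi', htinv, ← mul_assoc, ← mul_assoc, htt, one_mul]
    rw [← mul_smul, hyt, mul_smul, hyi]
  obtain ⟨X, hX⟩ : ∃ X : Set (Sylow 11 G), X = MulAction.fixedBy (Sylow 11 G) (yC : G) :=
    ⟨_, rfl⟩
  rw [← hX] at hfy hmap
  haveI : Fintype ↥X := Fintype.ofFinite _
  obtain ⟨f, hf⟩ : ∃ f : Function.End ↥X, ∀ Q : ↥X, ((f Q : ↥X) : Sylow 11 G) = (tC : G) • Q.1 :=
    ⟨fun Q => ⟨(tC : G) • Q.1, hmap Q.1 Q.2⟩, fun Q => rfl⟩
  have hf2 : f ^ 2 ^ 1 = 1 := by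
    rw [pow_one, pow_two]
    funext Q
    apply Subtype.ext
    show ((f (f Q) : ↥X) : Sylow 11 G) = Q.1
    rw [hf, hf, ← mul_smul, htt, one_smul]
  have hmodf := Equiv.Perm.card_fixedPoints_modEq (f := f) (p := 2) (n := 1) hf2
  have hcardX : Fintype.card ↥X = 12 := by rw [← Nat.card_eq_fintype_card, hfy]
  have hPX : P ∈ X := by
    rw [hX, MulAction.mem_fixedBy]; exact hCnorm yC
  have hPt : P ∈ MulAction.fixedBy (Sylow 11 G) (tC : G) := by
    rw [MulAction.mem_fixedBy]; exact hCnorm tC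
  haveI : Subsingleton ↥(MulAction.fixedBy (Sylow 11 G) (tC : G)) :=
    (Nat.card_eq_one_iff_unique.mp hft).1
  have hcardfix : Fintype.card ↥(Function.fixedPoints f) = 1 := by
    rw [Fintype.card_eq_one_iff]
    refine ⟨⟨⟨P, hPX⟩, ?_⟩, ?_⟩
    · show f ⟨P, hPX⟩ = ⟨P, hPX⟩
      apply Subtype.ext
      rw [hf]; exact hCnorm tC
    · rintro ⟨Q, hQ⟩
      apply Subtype.ext
      apply Subtype.ext
      show Q.1 = P
      have hQ' : f Q = Q := hQ
      have hQt : Q.1 ∈ MulAction.fixedBy (Sylow 11 G) (tC : G) := by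
        rw [MulAction.mem_fixedBy]
        have := congrArg (fun z : ↥X => (z : Sylow 11 G)) hQ'
        simp only [hf] at this
        exact this
      have := Subsingleton.elim (⟨Q.1, hQt⟩ : ↥(MulAction.fixedBy (Sylow 11 G) (tC : G)))
        ⟨P, hPt⟩
      exact congrArg Subtype.val this
  have hcf : Nat.card ↥(Function.fixedPoints f) = 1 := by
    rw [Nat.card_eq_fintype_card]; exact hcardfix
  rw [hcardX, Fintype.card_eq_nat_card, hcf] at hmodf
  exact absurd hmodf (by decide)

end Cfsg.Agent.Helper20
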