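-- helper20 library: PIECE E2p of CALL S2951 (helper11): normal four-subgroups of 2-groups.
import Mathlib

set_option autoImplicit false

namespace Cfsg.Agent.Helper20

variable {G : Type*} [Group G]

/-- A `p`-group `S` normalizing `Z ≤ A` with `p ∣ |A : Z|` fixes a nontrivial coset of `Z` in `A`. -/
theorem pgroup_fixed_coset [Finite G] (p : ℕ) [Fact p.Prime]
    (S A Z : Subgroup G) (hS : IsPGroup p S)
    (hSA : S ≤ Subgroup.normalizer (A : Set G)) (hSZ : S ≤ Subgroup.normalizer (Z : Set G))
    (hdvd : p ∣ Z.relIndex A) :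
    ∃ u ∈ A, u ∉ Z ∧ ∀ s ∈ S, u⁻¹ * (s * u * s⁻¹) ∈ Z := by
  classical
  have hconjA : ∀ s : S, ∀ a : A, (s : G) * a * (s : G)⁻¹ ∈ A :=
    fun s a => (Subgroup.mem_normalizer_iff.1 (hSA s.2) a).1 a.2
  letI act : MulAction S (A ⧸ Z.subgroupOf A) :=
    { smul := fun s q => Quotient.liftOn' q
        (fun a : A => (QuotientGroup.mk (⟨(s : G) * a * (s : G)⁻¹, hconjA s a⟩ : A) :
          A ⧸ Z.subgroupOf A)) (by
        intro a b hab
        have hab' : a⁻¹ * b ∈ Z.subgroupOf A := QuotientGroup.leftRel_apply.1 hab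
        apply QuotientGroup.eq.2
        rw [Subgroup.mem_subgroupOf] at hab' ⊢
        have h1 := (Subgroup.mem_normalizer_iff.1 (hSZ s.2) _).1 hab'
        have h2 : (((⟨(s : G) * a * (s : G)⁻¹, hconjA s a⟩ : A)⁻¹ *
            (⟨(s : G) * b * (s : G)⁻¹, hconjA s b⟩ : A) : A) : G)
            = (s : G) * ((a⁻¹ * b : A) : G) * (s : G)⁻¹ := by
          push_cast; group
        rw [h2]; exact h1)
      one_smul := by
        intro q
        induction q using QuotientGroup.induction_on with
        | H a =>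
          show (QuotientGroup.mk (⟨((1 : S) : G) * a * ((1 : S) : G)⁻¹, _⟩ : A) :
            A ⧸ Z.subgroupOf A) = QuotientGroup.mk a
          congr 1; apply Subtype.ext; simp
      mul_smul := by
        intro s t q
        induction q using QuotientGroup.induction_on with
        | H a =>
          show (QuotientGroup.mk (⟨((s * t : S) : G) * a * ((s * t : S) : G)⁻¹, _⟩ : A) :
            A ⧸ Z.subgroupOf A) = QuotientGroup.mk
              (⟨(s : G) * ((⟨(t : G) * a * (t : G)⁻¹, hconjA t a⟩ : A) : G) * (s : G)⁻¹, _⟩ : A)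
          congr 1; apply Subtype.ext; simp [mul_assoc] }
  have hcard : Nat.card (A ⧸ Z.subgroupOf A) = Z.relIndex A := rfl
  have hmod := hS.card_modEq_card_fixedPoints (A ⧸ Z.subgroupOf A)
  have hfix : p ∣ Nat.card (MulAction.fixedPoints S (A ⧸ Z.subgroupOf A)) := by
    rw [hcard] at hmod
    exact (Nat.modEq_zero_iff_dvd).1 (hmod.symm.trans ((Nat.modEq_zero_iff_dvd).2 hdvd))
  have h1 : (QuotientGroup.mk (1 : A) : A ⧸ Z.subgroupOf A) ∈
      MulAction.fixedPoints S (A ⧸ Z.subgroupOf A) := by
    intro s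
    show (QuotientGroup.mk (⟨(s : G) * ((1 : A) : G) * (s : G)⁻¹, _⟩ : A) :
      A ⧸ Z.subgroupOf A) = QuotientGroup.mk 1
    congr 1; apply Subtype.ext; simp
  have hlt : 1 < Nat.card (MulAction.fixedPoints S (A ⧸ Z.subgroupOf A)) := by
    have hpos : 0 < Nat.card (MulAction.fixedPoints S (A ⧸ Z.subgroupOf A)) :=
      Nat.card_pos_iff.2 ⟨⟨⟨_, h1⟩⟩, inferInstance⟩
    exact lt_of_lt_of_le (Fact.out : p.Prime).one_lt (Nat.le_of_dvd hpos hfix)
  haveI := Finite.one_lt_card_iff_nontrivial.1 hlt
  obtain ⟨⟨q, hq⟩, hne⟩ := exists_ne (⟨_, h1⟩ : MulAction.fixedPoints S (A ⧸ Z.subgroupOf A))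
  induction q using QuotientGroup.induction_on with
  | H u =>
    refine ⟨u, u.2, ?_, ?_⟩
    · intro huZ
      apply hne
      apply Subtype.ext
      show (QuotientGroup.mk u : A ⧸ Z.subgroupOf A) = QuotientGroup.mk 1
      apply QuotientGroup.eq.2
      rw [Subgroup.mem_subgroupOf]
      simpa using Z.inv_mem huZ
    · intro s hs
      have h2 : (QuotientGroup.mk (⟨s * u * s⁻¹, hconjA ⟨s, hs⟩ u⟩ : A) : A ⧸ Z.subgroupOf A)
          = QuotientGroup.mk u := hq ⟨s, hs⟩
      have h3 := QuotientGroup.eq.1 h2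
      rw [Subgroup.mem_subgroupOf] at h3
      have h4 := Z.inv_mem h3
      simpa [mul_assoc] using h4

theorem ncard_four_set {z v : G} (hzz : z * z = 1) (hz1 : z ≠ 1) (hv1 : v ≠ 1) (hvz : v ≠ z) :
    ({1, z, v, z * v} : Set G).ncard = 4 := by
  classical
  have hzv1 : z * v ≠ 1 := fun h => hvz (mul_left_cancel (h.trans hzz.symm))
  have hzvz : z * v ≠ z := fun h => hv1 (mul_left_cancel (h.trans (mul_one z).symm))
  have hzvv : z * v ≠ v := fun h => hz1 (mul_right_cancel (h.trans (one_mul v).symm))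
  rw [Set.ncard_insert_of_notMem, Set.ncard_insert_of_notMem, Set.ncard_pair]
  · exact fun h => hzvv h.symm
  · intro h
    rcases h with h | h
    · exact hvz h.symm
    · exact hzvz (Set.mem_singleton_iff.1 h).symm
  · intro h
    rcases h with h | h | h
    · exact hz1 h.symm
    · exact hv1 h.symm
    · exact hzv1 (Set.mem_singleton_iff.1 h).symm

/-- The elements of a group of order four containing `z ≠ 1` and `v ∉ {1, z}`. -/
theorem four_elems [Finite G] (V : Subgroup G) (hV : Nat.card V = 4) (hVe : ∀ v ∈ V, v * v = 1)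
    {z v : G} (hz : z ∈ V) (hz1 : z ≠ 1) (hv : v ∈ V) (hv1 : v ≠ 1) (hvz : v ≠ z) :
    ∀ g ∈ V, g = 1 ∨ g = z ∨ g = v ∨ g = z * v := by
  classical
  have hsub : ({1, z, v, z * v} : Set G) ⊆ (V : Set G) := by
    intro g hg
    rcases hg with rfl | rfl | rfl | hg
    · exact V.one_mem
    · exact hz
    · exact hv
    · rw [Set.mem_singleton_iff.1 hg]; exact V.mul_mem hz hv
  have hcard := ncard_four_set (hVe z hz) hz1 hv1 hvz
  have hVn : (V : Set G).ncard = 4 := by
    rw [← Nat.card_coe_set_eq]; exact hV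
  have heq : ({1, z, v, z * v} : Set G) = (V : Set G) :=
    Set.eq_of_subset_of_ncard_le hsub (by rw [hcard, hVn]) (Set.toFinite _)
  intro g hg
  have h1 : g ∈ ({1, z, v, z * v} : Set G) := by rw [heq]; exact hg
  rcases h1 with h | h | h | h
  · exact Or.inl h
  · exact Or.inr (Or.inl h)
  · exact Or.inr (Or.inr (Or.inl h))
  · exact Or.inr (Or.inr (Or.inr (Set.mem_singleton_iff.1 h)))

/-- If the `S`-conjugates of `x` lie in a two-element set, then `|S| ≤ 2 |C_S(x)|`. -/
theorem card_le_two_mul_centralizer [Finite G] (S : Subgroup G) (x x' : G)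
    (h : ∀ s ∈ S, s * x * s⁻¹ = x ∨ s * x * s⁻¹ = x') :
    Nat.card S ≤ 2 * Nat.card (S ⊓ Subgroup.centralizer ({x} : Set G) : Subgroup G) := by
  classical
  have hmemC : ∀ s ∈ S, s * x * s⁻¹ = x → s ∈ S ⊓ Subgroup.centralizer ({x} : Set G) := by
    intro s hs hsx
    refine ⟨hs, ?_⟩
    show s ∈ Subgroup.centralizer ({x} : Set G)
    rw [Subgroup.mem_centralizer_iff]
    intro y hy
    rw [Set.mem_singleton_iff.1 hy]
    calc x * s = s * x * s⁻¹ * s := by rw [hsx]
      _ = s * x := by group
  by_cases hex : ∃ s₀ ∈ S, s₀ * x * s₀⁻¹ = x'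
  · obtain ⟨s₀, hs₀, hs₀x⟩ := hex
    have hsub : (S : Set G) ⊆ ((S ⊓ Subgroup.centralizer ({x} : Set G) : Subgroup G) : Set G) ∪
        (fun c => s₀ * c) '' ((S ⊓ Subgroup.centralizer ({x} : Set G) : Subgroup G) : Set G) := by
      intro s hs
      rcases h s hs with h1 | h1
      · left; exact hmemC s hs h1
      · right
        refine ⟨s₀⁻¹ * s, hmemC _ (S.mul_mem (S.inv_mem hs₀) hs) ?_, by group⟩
        calc s₀⁻¹ * s * x * (s₀⁻¹ * s)⁻¹ = s₀⁻¹ * (s * x * s⁻¹) * s₀ := by group
          _ = s₀⁻¹ * (s₀ * x * s₀⁻¹) * s₀ := by rw [h1, hs₀x]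
          _ = x := by group
    have h1 : Nat.card S = (S : Set G).ncard := (Nat.card_coe_set_eq _)
    have h2 : Nat.card (S ⊓ Subgroup.centralizer ({x} : Set G) : Subgroup G)
        = ((S ⊓ Subgroup.centralizer ({x} : Set G) : Subgroup G) : Set G).ncard :=
      (Nat.card_coe_set_eq _)
    have h3 := Set.ncard_le_ncard hsub (Set.toFinite _)
    have h4 := Set.ncard_union_le ((S ⊓ Subgroup.centralizer ({x} : Set G) : Subgroup G) : Set G)
      ((fun c => s₀ * c) '' ((S ⊓ Subgroup.centralizer ({x} : Set G) : Subgroup G) : Set G))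
    rw [Set.ncard_image_of_injective _ (mul_right_injective s₀)] at h4
    omega
  · push Not at hex
    have hle : S ≤ S ⊓ Subgroup.centralizer ({x} : Set G) :=
      fun s hs => hmemC s hs ((h s hs).resolve_right (hex s hs))
    have := Subgroup.card_le_of_le hle
    omega

theorem normalizer_bot_le (S : Subgroup G) :
    S ≤ Subgroup.normalizer ((⊥ : Subgroup G) : Set G) := by
  intro s _
  rw [Subgroup.mem_normalizer_iff]
  intro h
  rw [Subgroup.mem_bot, Subgroup.mem_bot]
  constructor
  · intro hh; rw [hh]; group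
  · intro hh
    have : h = s⁻¹ * (s * h * s⁻¹) * s := by group
    rw [this, hh]; group

theorem exists_normal_four [Finite G] (S A : Subgroup G) (hS : IsPGroup 2 S) (hAS : A ≤ S) (hAn : S ≤ Subgroup.normalizer (A : Set G)) (hAe : ∀ a ∈ A, a * a = 1) (hA : 4 ≤ Nat.card A) : ∃ U : Subgroup G, U ≤ A ∧ S ≤ Subgroup.normalizer (U : Set G) ∧ Nat.card U = 4 := by
  classical
  haveI : Fact (Nat.Prime 2) := ⟨Nat.prime_two⟩
  have hApg : IsPGroup 2 A := hS.to_le hAS
  obtain ⟨n, hn⟩ := IsPGroup.iff_card.1 hApg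
  have hn2 : 2 ≤ n := by
    by_contra hlt
    have h1 : n ≤ 1 := by omega
    have h2 : 2 ^ n ≤ 2 ^ 1 := Nat.pow_le_pow_right (by norm_num) h1
    omega
  obtain ⟨z, hzA, hz1, hzc⟩ := pgroup_fixed_coset 2 S A ⊥ hS hAn (normalizer_bot_le S) (by
    rw [Subgroup.relIndex_bot_left, hn]; exact dvd_pow_self 2 (by omega))
  have hz1' : z ≠ 1 := fun h => hz1 (by rw [h]; exact Subgroup.one_mem _)
  have hzc' : ∀ s ∈ S, s * z * s⁻¹ = z := by
    intro s hs
    have h1 := hzc s hs
    rw [Subgroup.mem_bot] at h1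
    exact (inv_mul_eq_one.1 h1).symm
  have hzz : z * z = 1 := hAe z hzA
  obtain ⟨Z, hZ⟩ : ∃ Z : Subgroup G, ∀ g, g ∈ Z ↔ g = 1 ∨ g = z := by
    refine ⟨{ carrier := {g | g = 1 ∨ g = z}
              one_mem' := Or.inl rfl
              mul_mem' := ?_
              inv_mem' := ?_ }, fun g => Iff.rfl⟩
    · rintro a b (rfl | rfl) (rfl | rfl)
      · left; exact mul_one 1
      · right; exact one_mul _
      · right; exact mul_one _
      · left; exact hzz
    · rintro a (rfl | rfl)
      · left; exact inv_one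
      · right; exact inv_eq_of_mul_eq_one_left hzz
  have hZA : Z ≤ A := by
    intro g hg
    rcases (hZ g).1 hg with rfl | rfl
    · exact A.one_mem
    · exact hzA
  have hZcard : Nat.card Z = 2 := by
    have h1 : (Z : Set G) = {1, z} := by
      ext g; exact hZ g
    have h2 : Nat.card Z = (Z : Set G).ncard := (Nat.card_coe_set_eq _)
    rw [h2, h1, Set.ncard_pair hz1'.symm]
  have hSZ : S ≤ Subgroup.normalizer (Z : Set G) := by
    intro s hs
    rw [Subgroup.mem_normalizer_iff]
    intro g
    rw [hZ, hZ]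
    constructor
    · rintro (rfl | rfl)
      · left; group
      · right; exact hzc' s hs
    · rintro (h | h)
      · left
        have : g = s⁻¹ * (s * g * s⁻¹) * s := by group
        rw [this, h]; group
      · right
        have : g = s⁻¹ * (s * g * s⁻¹) * s := by group
        rw [this, h]
        have h5 := hzc' s⁻¹ (S.inv_mem hs)
        rwa [inv_inv] at h5
  have hrel : 2 ∣ Z.relIndex A := by
    have h1 := Subgroup.relIndex_mul_relIndex ⊥ Z A bot_le hZA
    rw [Subgroup.relIndex_bot_left, Subgroup.relIndex_bot_left, hZcard, hn] at h1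
    have h2 : 2 ^ n = 2 * 2 ^ (n - 1) := by
      rw [← pow_succ']; congr 1; omega
    rw [h2] at h1
    have h3 : Z.relIndex A = 2 ^ (n - 1) := Nat.eq_of_mul_eq_mul_left (by norm_num) h1
    rw [h3]; exact dvd_pow_self 2 (by omega)
  obtain ⟨u, huA, huZ, huc⟩ := pgroup_fixed_coset 2 S A Z hS hAn hSZ hrel
  have hu1 : u ≠ 1 := fun h => huZ ((hZ u).2 (Or.inl h))
  have huz : u ≠ z := fun h => huZ ((hZ u).2 (Or.inr h))
  have huu : u * u = 1 := hAe u huA
  have hcomm : u * z = z * u := by
    have h1 := hzc' u (hAS huA)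
    calc u * z = u * z * u⁻¹ * u := by group
      _ = z * u := by rw [h1]
  have hconj : ∀ s ∈ S, s * u * s⁻¹ = u ∨ s * u * s⁻¹ = z * u := by
    intro s hs
    rcases (hZ _).1 (huc s hs) with h | h
    · left; exact (inv_mul_eq_one.1 h).symm
    · right
      have h1 : s * u * s⁻¹ = u * z := by
        calc s * u * s⁻¹ = u * (u⁻¹ * (s * u * s⁻¹)) := by group
          _ = u * z := by rw [h]
      rw [h1, hcomm]
  have e1 : z * (z * u) = u := by rw [← mul_assoc, hzz, one_mul]
  have e2 : u * (z * u) = z := by rw [← mul_assoc, hcomm, mul_assoc, huu, mul_one]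
  have e3 : z * u * z = u := by rw [mul_assoc, hcomm, ← mul_assoc, hzz, one_mul]
  have e4 : z * u * u = z := by rw [mul_assoc, huu, mul_one]
  have e5 : z * u * (z * u) = 1 := by rw [mul_assoc, e2, hzz]
  obtain ⟨U, hU⟩ : ∃ U : Subgroup G, ∀ g, g ∈ U ↔ g = 1 ∨ g = z ∨ g = u ∨ g = z * u := by
    refine ⟨{ carrier := {g | g = 1 ∨ g = z ∨ g = u ∨ g = z * u}
              one_mem' := Or.inl rfl
              mul_mem' := ?_
              inv_mem' := ?_ }, fun g => Iff.rfl⟩
    · rintro a b (rfl | rfl | rfl | rfl) (rfl | rfl | rfl | rfl)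
      · left; exact mul_one 1
      · right; left; exact one_mul _
      · right; right; left; exact one_mul _
      · right; right; right; exact one_mul _
      · right; left; exact mul_one _
      · left; exact hzz
      · right; right; right; rfl
      · right; right; left; exact e1
      · right; right; left; exact mul_one _
      · right; right; right; exact hcomm
      · left; exact huu
      · right; left; exact e2
      · right; right; right; exact mul_one _
      · right; right; left; exact e3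
      · right; left; exact e4
      · left; exact e5
    · rintro a (rfl | rfl | rfl | rfl)
      · left; exact inv_one
      · right; left; exact inv_eq_of_mul_eq_one_left hzz
      · right; right; left; exact inv_eq_of_mul_eq_one_left huu
      · right; right; right; exact inv_eq_of_mul_eq_one_left e5
  have hkey : ∀ s ∈ S, ∀ g ∈ U, s * g * s⁻¹ ∈ U := by
    intro s hs g hg
    rw [hU] at hg ⊢
    rcases hg with rfl | rfl | rfl | rfl
    · left; group
    · right; left; exact hzc' s hs
    · rcases hconj s hs with h | h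
      · right; right; left; exact h
      · right; right; right; exact h
    · have h1 : s * (z * u) * s⁻¹ = (s * z * s⁻¹) * (s * u * s⁻¹) := by group
      rw [h1, hzc' s hs]
      rcases hconj s hs with h | h
      · right; right; right; rw [h]
      · right; right; left; rw [h, e1]
  refine ⟨U, ?_, ?_, ?_⟩
  · intro g hg
    rcases (hU g).1 hg with rfl | rfl | rfl | rfl
    · exact A.one_mem
    · exact hzA
    · exact huA
    · exact A.mul_mem hzA huA
  · intro s hs
    rw [Subgroup.mem_normalizer_iff]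
    intro g
    constructor
    · exact hkey s hs g
    · intro hg
      have h1 := hkey s⁻¹ (S.inv_mem hs) _ hg
      have h2 : s⁻¹ * (s * g * s⁻¹) * s⁻¹⁻¹ = g := by group
      rw [h2] at h1
      exact h1
  · have h1 : (U : Set G) = {1, z, u, z * u} := by
      ext g; exact hU g
    have h2 : Nat.card U = (U : Set G).ncard := (Nat.card_coe_set_eq _)
    rw [h2, h1]
    exact ncard_four_set hzz hz1' hu1 huz

end Cfsg.Agent.Helper20
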