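import Mathlib
import Cfsg.Agent.Helper8.Ord4032A
import Cfsg.Agent.Helper41.Ord4032B
import Cfsg.Agent.S0985
import Cfsg.Agent.Helper20.TwoGrpE2p
import Cfsg.Agent.Helper55.Ord5760N96b1

/-!
# CALL S0980, piece N96b2: the lines of the affine plane of order 4 (helper20 for helper8)

`ord5760_n96_lines_of` is the statement with the involution lemma (piece N96b1) as a hypothesis.
-/

open scoped Pointwise

namespace Cfsg.Agent.Helper20

variable {G : Type*} [Group G] [Finite G]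

omit [Finite G] in
theorem n96_conj_cases (s : G) (hs : orderOf s = 3) (h : G)
    (hh : h ∈ Subgroup.normalizer ((Subgroup.zpowers s : Subgroup G) : Set G)) :
    h * s * h⁻¹ = s ∨ h * s * h⁻¹ = s⁻¹ := by
  have h1 : h * s * h⁻¹ ∈ Subgroup.zpowers s :=
    (Subgroup.mem_normalizer_iff.1 hh s).1 (Subgroup.mem_zpowers s)
  have hs3 : s ^ 3 = 1 := by rw [← hs]; exact pow_orderOf_eq_one s
  have hs1 : s ≠ 1 := by
    intro h1; rw [h1, orderOf_one] at hs; omega
  obtain ⟨k, hk⟩ := Subgroup.mem_zpowers_iff.1 h1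
  rw [← zpow_mod_orderOf, hs] at hk
  have hk0 : 0 ≤ k % 3 := Int.emod_nonneg k (by norm_num)
  have hk3 : k % 3 < 3 := Int.emod_lt_of_pos k (by norm_num)
  obtain ⟨r, hr⟩ : ∃ r : ℕ, k % ((3 : ℕ) : ℤ) = r := ⟨(k % 3).toNat, (Int.toNat_of_nonneg hk0).symm⟩
  rw [hr, zpow_natCast] at hk
  have hr3 : r < 3 := by
    have : ((r : ℕ) : ℤ) < 3 := by rw [← hr]; exact hk3
    omega
  interval_cases r
  · exfalso
    apply hs1
    have e : s = h⁻¹ * (h * s * h⁻¹) * h := by group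
    rw [e, ← hk]
    group
  · left
    rw [← hk, pow_one]
  · right
    rw [← hk]
    apply eq_inv_of_mul_eq_one_left
    rw [← pow_succ]
    exact hs3

omit [Finite G] in
theorem n96_smul_one_iff (H : Subgroup G) (k : G) :
    k • ((1 : G) : G ⧸ H) = ((1 : G) : G ⧸ H) ↔ k ∈ H := by
  rw [MulAction.Quotient.smul_coe, smul_eq_mul, mul_one, QuotientGroup.eq, mul_one, inv_mem_iff]

omit [Finite G] in
theorem n96_conj_fix (H : Subgroup G) (s : G) (hsH : s ∈ H)
    (hfix : ∀ q : G ⧸ H, s • q = q → q = ((1 : G) : G ⧸ H)) (k : G) (q : G ⧸ H) :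
    (k * s * k⁻¹) • q = q ↔ q = k • ((1 : G) : G ⧸ H) := by
  constructor
  · intro h
    have h1 : s • (k⁻¹ • q) = k⁻¹ • q := by
      calc s • (k⁻¹ • q) = k⁻¹ • ((k * s * k⁻¹) • q) := by
            rw [smul_smul, smul_smul]; congr 1; group
        _ = k⁻¹ • q := by rw [h]
    have h2 := hfix _ h1
    rw [← h2, smul_smul, mul_inv_cancel, one_smul]
  · rintro rfl
    rw [smul_smul]
    have e : k * s * k⁻¹ * k = k * s := by group
    rw [e, mul_smul, (n96_smul_one_iff H s).2 hsH]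

theorem n96_ncard_four_le {Ω : Type*} (a b c d : Ω) : ({a, b, c, d} : Set Ω).ncard ≤ 4 := by
  have h1 := Set.ncard_insert_le a ({b, c, d} : Set Ω)
  have h2 := Set.ncard_insert_le b ({c, d} : Set Ω)
  have h3 := Set.ncard_insert_le c ({d} : Set Ω)
  rw [Set.ncard_singleton] at h3
  omega

theorem ord5760_n96_lines_of (s : G) (H : Subgroup G)
    (hs : orderOf s = 3)
    (hH : H = Subgroup.normalizer ((Subgroup.zpowers s : Subgroup G) : Set G))
    (hidx : H.index = 16) (h4 : 4 ∣ Nat.card (Subgroup.centralizer ({s} : Set G)))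
    (hfix : ∀ q : G ⧸ H, s • q = q → q = ((1 : G) : G ⧸ H))
    (htr : ∀ q q' : G ⧸ H, q ≠ ((1 : G) : G ⧸ H) → q' ≠ ((1 : G) : G ⧸ H) → ∃ h ∈ H, h • q = q')
    (hb1 : ∀ (s v : G) (γ : G ⧸ H), orderOf s = 3 → (∀ q : G ⧸ H, s • q = q ↔ q = γ) →
      orderOf v = 2 → v * s = s * v →
      ∃ δ : G ⧸ H, δ ≠ γ ∧ ∀ q : G ⧸ H, v • q = q ↔ (q = γ ∨ q = δ ∨ q = s • δ ∨ q = s⁻¹ • δ)) :
    ∃ L : Set (G ⧸ H), Nat.card L = 4 ∧
      (∀ a b : G ⧸ H, a ≠ b → ∃ g : G, a ∈ g • L ∧ b ∈ g • L) ∧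
      (∀ (g h : G) (a b : G ⧸ H), a ≠ b → a ∈ g • L → b ∈ g • L → a ∈ h • L → b ∈ h • L →
        g • L = h • L) := by
  classical
  haveI : Fact (Nat.Prime 2) := ⟨Nat.prime_two⟩
  have hsmul1 : ∀ k : G, k • ((1 : G) : G ⧸ H) = ((1 : G) : G ⧸ H) ↔ k ∈ H :=
    fun k => n96_smul_one_iff H k
  have hmk : ∀ g : G, (g : G ⧸ H) = g • ((1 : G) : G ⧸ H) := by
    intro g
    rw [MulAction.Quotient.smul_coe, smul_eq_mul, mul_one]
  have hcfix : ∀ (k : G) (q : G ⧸ H), s ∈ H →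
      ((k * s * k⁻¹) • q = q ↔ q = k • ((1 : G) : G ⧸ H)) :=
    fun k q hsH => n96_conj_fix H s hsH hfix k q
  obtain ⟨α, hα⟩ : ∃ α : G ⧸ H, α = ((1 : G) : G ⧸ H) := ⟨_, rfl⟩
  rw [← hα] at hfix htr hsmul1 hmk hcfix
  have hs3 : s ^ 3 = 1 := by rw [← hs]; exact pow_orderOf_eq_one s
  have hs1 : s ≠ 1 := by intro h1; rw [h1, orderOf_one] at hs; omega
  have hsinv : s⁻¹ = s * s := by
    apply inv_eq_of_mul_eq_one_right
    rw [← pow_three]; exact hs3
  -- the centralizer of `s` lies in `H`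
  have hCH : ∀ t : G, t * s = s * t → t ∈ H := by
    intro t ht
    rw [hH, Subgroup.mem_normalizer_iff]
    intro x
    have key : ∀ y ∈ Subgroup.zpowers s, t * y * t⁻¹ = y := by
      intro y hy
      obtain ⟨n, rfl⟩ := Subgroup.mem_zpowers_iff.1 hy
      have hc : Commute t (s ^ n) := (show Commute t s from ht).zpow_right n
      rw [hc.eq]; group
    constructor
    · intro hx; rw [key x hx]; exact hx
    · intro hx
      have h1 := key _ hx
      have e : t⁻¹ * (t * (t * x * t⁻¹) * t⁻¹) * t = t * x * t⁻¹ := by group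
      have e2 : t⁻¹ * (t * x * t⁻¹) * t = x := by group
      rw [h1, e2] at e
      rw [e]; exact hx
  have hsH : s ∈ H := hCH s rfl
  have hHα : ∀ h ∈ H, h • α = α := fun h hh => (hsmul1 h).2 hh
  -- a subgroup of order 4 of the centralizer
  obtain ⟨K, hK⟩ := Sylow.exists_subgroup_card_pow_prime
    (G := ↥(Subgroup.centralizer ({s} : Set G))) 2 (n := 2) (by norm_num; exact h4)
  obtain ⟨T, hT⟩ : ∃ T : Subgroup G, T = K.map (Subgroup.subtype _) := ⟨_, rfl⟩
  have hTcard : Nat.card T = 4 := by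
    rw [hT, Subgroup.card_map_of_injective (Subgroup.subtype_injective _), hK]; norm_num
  have hTs : ∀ t ∈ T, t * s = s * t := by
    intro t ht
    have h1 : t ∈ Subgroup.centralizer ({s} : Set G) := by
      rw [hT] at ht; exact Subgroup.map_subtype_le K ht
    rw [Subgroup.mem_centralizer_iff] at h1
    exact (h1 s rfl).symm
  have hTH : ∀ t ∈ T, t ∈ H := fun t ht => hCH t (hTs t ht)
  have hTpg : IsPGroup 2 T := IsPGroup.of_card (n := 2) (by rw [hTcard]; norm_num)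
  -- a second fixed point of `T`
  have hβ : ∃ β : G ⧸ H, β ≠ α ∧ ∀ t ∈ T, t • β = β := by
    by_contra hcon
    push Not at hcon
    have hfp : MulAction.fixedPoints T (G ⧸ H) = {α} := by
      ext q
      rw [MulAction.mem_fixedPoints, Set.mem_singleton_iff]
      constructor
      · intro hq
        by_contra hne
        obtain ⟨t, ht, hne'⟩ := hcon q hne
        exact hne' (hq ⟨t, ht⟩)
      · rintro rfl t
        exact hHα t.1 (hTH t.1 t.2)
    have hmod := hTpg.card_modEq_card_fixedPoints (G ⧸ H)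
    rw [hfp] at hmod
    have h16 : Nat.card (G ⧸ H) = 16 := hidx
    have h1 : Nat.card ↥({α} : Set (G ⧸ H)) = 1 := by
      rw [Nat.card_coe_set_eq, Set.ncard_singleton]
    rw [h16, h1] at hmod
    exact absurd hmod (by decide)
  obtain ⟨β, hβα, hTβ⟩ := hβ
  have hsβ : s • β ≠ β := fun h => hβα (hfix β h)
  have hsiβ : s⁻¹ • β ≠ β := by
    intro h
    apply hsβ
    conv_lhs => rw [← h]
    rw [smul_smul, mul_inv_cancel, one_smul]
  have hsα : s • α = α := hHα s hsH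
  have hsiα : s⁻¹ • α = α := hHα _ (H.inv_mem hsH)
  have hsβα : s • β ≠ α := by
    intro h
    apply hβα
    have e : β = s⁻¹ • (s • β) := by rw [smul_smul, inv_mul_cancel, one_smul]
    rw [e, h, hsiα]
  have hsiβα : s⁻¹ • β ≠ α := by
    intro h
    apply hβα
    have e : β = s • (s⁻¹ • β) := by rw [smul_smul, mul_inv_cancel, one_smul]
    rw [e, h, hsα]
  have hssi : s • β ≠ s⁻¹ • β := by
    intro h
    apply hsiβ
    have h2 : s • (s • β) = β := by rw [h, smul_smul, mul_inv_cancel, one_smul]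
    rw [hsinv, mul_smul, h2]
  obtain ⟨L, hL⟩ : ∃ L : Set (G ⧸ H), L = {α, β, s • β, s⁻¹ • β} := ⟨_, rfl⟩
  have hLmem : ∀ q : G ⧸ H, q ∈ L ↔ (q = α ∨ q = β ∨ q = s • β ∨ q = s⁻¹ • β) := by
    intro q; rw [hL]; rfl
  have hLcard : Nat.card L = 4 := by
    rw [Nat.card_coe_set_eq, hL, Set.ncard_insert_of_notMem, Set.ncard_insert_of_notMem,
      Set.ncard_pair hssi]
    · intro h
      rcases h with h | h
      · exact hsβ h.symm
      · exact hsiβ (Set.mem_singleton_iff.1 h).symm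
    · intro h
      rcases h with h | h | h
      · exact hβα h.symm
      · exact hsβα h.symm
      · exact hsiβα (Set.mem_singleton_iff.1 h).symm
  have hTL : ∀ t ∈ T, ∀ q ∈ L, t • q = q := by
    intro t ht q hq
    have hts := hTs t ht
    rcases (hLmem q).1 hq with rfl | rfl | rfl | rfl
    · exact hHα t (hTH t ht)
    · exact hTβ t ht
    · rw [smul_smul, hts, mul_smul, hTβ t ht]
    · rw [smul_smul]
      have e : t * s⁻¹ = s⁻¹ * t := by
        calc t * s⁻¹ = s⁻¹ * (s * t) * s⁻¹ := by group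
          _ = s⁻¹ * (t * s) * s⁻¹ := by rw [hts]
          _ = s⁻¹ * t := by group
      rw [e, mul_smul, hTβ t ht]
  -- an involution of `T` commuting with a conjugate of `s` whose fixed point is on `L`
  have hV : ∀ γ ∈ L, ∀ k : G, k • α = γ →
      ∃ v ∈ T, orderOf v = 2 ∧ v * (k * s * k⁻¹) = (k * s * k⁻¹) * v := by
    intro γ hγ k hk
    obtain ⟨u, hu⟩ : ∃ u : G, u = k * s * k⁻¹ := ⟨_, rfl⟩
    rw [← hu]
    have hconj : ∀ t ∈ T, t * u * t⁻¹ = u ∨ t * u * t⁻¹ = u⁻¹ := by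
      intro t ht
      have h1 : t • γ = γ := hTL t ht γ hγ
      rw [← hk, smul_smul] at h1
      have h2 : (k⁻¹ * t * k) • α = α := by
        calc (k⁻¹ * t * k) • α = k⁻¹ • ((t * k) • α) := by rw [smul_smul, mul_assoc]
          _ = k⁻¹ • (k • α) := by rw [h1]
          _ = α := by rw [smul_smul, inv_mul_cancel, one_smul]
      have h3 : k⁻¹ * t * k ∈ H := (hsmul1 _).1 h2
      rw [hH] at h3
      rcases n96_conj_cases s hs _ h3 with h5 | h5
      · left
        calc t * u * t⁻¹ = k * ((k⁻¹ * t * k) * s * (k⁻¹ * t * k)⁻¹) * k⁻¹ := by rw [hu]; group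
          _ = u := by rw [h5, hu]
      · right
        calc t * u * t⁻¹ = k * ((k⁻¹ * t * k) * s * (k⁻¹ * t * k)⁻¹) * k⁻¹ := by rw [hu]; group
          _ = u⁻¹ := by rw [h5, hu]; group
    have hle := card_le_two_mul_centralizer T u u⁻¹ hconj
    obtain ⟨C, hC⟩ : ∃ C : Subgroup G, C = T ⊓ Subgroup.centralizer ({u} : Set G) := ⟨_, rfl⟩
    rw [← hC] at hle
    have hCT : C ≤ T := by rw [hC]; exact inf_le_left
    have hC2 : 2 ≤ Nat.card C := by rw [hTcard] at hle; omega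
    have hCdvd : Nat.card C ∣ 4 := by rw [← hTcard]; exact Subgroup.card_dvd_of_le hCT
    have h2C : 2 ∣ Nat.card C := by
      have hle4 : Nat.card C ≤ 4 := Nat.le_of_dvd (by norm_num) hCdvd
      obtain ⟨n, hn⟩ : ∃ n : ℕ, Nat.card C = n := ⟨_, rfl⟩
      rw [hn] at hCdvd hC2 hle4 ⊢
      interval_cases n <;> omega
    obtain ⟨v, hv⟩ := exists_prime_orderOf_dvd_card' 2 h2C
    refine ⟨v.1, hCT v.2, ?_, ?_⟩
    · rw [← hv]; exact Subgroup.orderOf_coe v
    · have hCle : C ≤ Subgroup.centralizer ({u} : Set G) := by rw [hC]; exact inf_le_right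
      have h1 : (v : G) ∈ Subgroup.centralizer ({u} : Set G) := hCle v.2
      rw [Subgroup.mem_centralizer_iff] at h1
      exact (h1 u rfl).symm
  -- the fixed points of an involution of `T` are the points of `L`
  have hFixL : ∀ v ∈ T, orderOf v = 2 → ∀ q : G ⧸ H, v • q = q ↔ q ∈ L := by
    intro v hvT hv2 q
    obtain ⟨δ, hδ, hδfix⟩ := hb1 s v α hs
      (fun q => ⟨fun h => hfix q h, fun h => by rw [h]; exact hsα⟩) hv2 (hTs v hvT)
    have hsub : L ⊆ {α, δ, s • δ, s⁻¹ • δ} := by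
      intro x hx
      exact (hδfix x).1 (hTL v hvT x hx)
    have heq : L = {α, δ, s • δ, s⁻¹ • δ} := by
      apply Set.eq_of_subset_of_ncard_le hsub
      · rw [← Nat.card_coe_set_eq L, hLcard]
        exact n96_ncard_four_le _ _ _ _
    rw [hδfix q, heq]; rfl
  -- the key claim
  have hstar : ∀ γ ∈ L, ∀ k : G, k • α = γ → ∀ q ∈ L, q ≠ γ →
      L = {γ, q, (k * s * k⁻¹) • q, (k * s * k⁻¹)⁻¹ • q} := by
    intro γ hγ k hk q hq hqγ
    obtain ⟨v, hvT, hv2, hvu⟩ := hV γ hγ k hk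
    have hufix : ∀ x : G ⧸ H, (k * s * k⁻¹) • x = x ↔ x = γ := by
      intro x; rw [← hk]; exact hcfix k x hsH
    obtain ⟨u, hu⟩ : ∃ u : G, u = k * s * k⁻¹ := ⟨_, rfl⟩
    rw [← hu] at hvu hufix ⊢
    have hu3 : orderOf u = 3 := by
      rw [hu, ← hs]
      have := (MulAut.conj k).orderOf_eq s
      rw [MulAut.conj_apply] at this
      exact this
    have hu3' : u ^ 3 = 1 := by rw [← hu3]; exact pow_orderOf_eq_one u
    have huinv : u⁻¹ = u * u := by
      apply inv_eq_of_mul_eq_one_right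
      rw [← pow_three]; exact hu3'
    obtain ⟨δ, hδ, hδfix⟩ := hb1 u v γ hu3 hufix hv2 hvu
    have hLeq : L = {γ, δ, u • δ, u⁻¹ • δ} := by
      ext x
      rw [← hFixL v hvT hv2 x, hδfix x]; rfl
    have hq' : q = γ ∨ q = δ ∨ q = u • δ ∨ q = u⁻¹ • δ := by
      have h1 : q ∈ ({γ, δ, u • δ, u⁻¹ • δ} : Set (G ⧸ H)) := hLeq ▸ hq
      exact h1
    rcases hq' with h | rfl | rfl | rfl
    · exact absurd h hqγ
    · exact hLeq
    · rw [hLeq]
      have e1 : u • (u • δ) = u⁻¹ • δ := by rw [smul_smul, ← huinv]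
      have e2 : u⁻¹ • (u • δ) = δ := by rw [smul_smul, inv_mul_cancel, one_smul]
      rw [e1, e2]
      ext x; simp only [Set.mem_insert_iff, Set.mem_singleton_iff]; tauto
    · rw [hLeq]
      have e1 : u • (u⁻¹ • δ) = δ := by rw [smul_smul, mul_inv_cancel, one_smul]
      have e2 : u⁻¹ • (u⁻¹ • δ) = u • δ := by
        rw [smul_smul]; congr 1
        calc u⁻¹ * u⁻¹ = u⁻¹ * (u * u) := by rw [← huinv]
          _ = u := by group
      rw [e1, e2]
      ext x; simp only [Set.mem_insert_iff, Set.mem_singleton_iff]; tauto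
  have hss : ∀ (g : G), ∀ γ ∈ L, ∀ q ∈ L, q ≠ γ → ∀ k : G, k • α = g • γ →
      g • L = {g • γ, g • q, (k * s * k⁻¹) • (g • q), (k * s * k⁻¹)⁻¹ • (g • q)} := by
    intro g γ hγ q hq hqγ k hk
    have hk1 : (g⁻¹ * k) • α = γ := by rw [mul_smul, hk, smul_smul, inv_mul_cancel, one_smul]
    have h1 := hstar γ hγ (g⁻¹ * k) hk1 q hq hqγ
    conv_lhs => rw [h1]
    rw [Set.smul_set_insert, Set.smul_set_insert, Set.smul_set_insert, Set.smul_set_singleton]
    have e1 : g • ((g⁻¹ * k * s * (g⁻¹ * k)⁻¹) • q) = (k * s * k⁻¹) • (g • q) := by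
      rw [smul_smul, smul_smul]; congr 1; group
    have e2 : g • ((g⁻¹ * k * s * (g⁻¹ * k)⁻¹)⁻¹ • q) = (k * s * k⁻¹)⁻¹ • (g • q) := by
      rw [smul_smul, smul_smul]; congr 1; group
    rw [e1, e2]
  refine ⟨L, hLcard, ?_, ?_⟩
  · intro a b hab
    obtain ⟨g, rfl⟩ := QuotientGroup.mk_surjective a
    have hb' : g⁻¹ • b ≠ α := by
      intro h
      apply hab
      have e : b = g • α := by rw [← h, smul_smul, mul_inv_cancel, one_smul]
      rw [e]; exact hmk g
    obtain ⟨h, hh, hhβ⟩ := htr β (g⁻¹ • b) hβα hb'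
    refine ⟨g * h, ?_, ?_⟩
    · rw [Set.mem_smul_set]
      refine ⟨α, (hLmem α).2 (Or.inl rfl), ?_⟩
      rw [mul_smul, hHα h hh]; exact (hmk g).symm
    · rw [Set.mem_smul_set]
      refine ⟨β, (hLmem β).2 (Or.inr (Or.inl rfl)), ?_⟩
      rw [mul_smul, hhβ, smul_smul, mul_inv_cancel, one_smul]
  · intro g h a b hab hag hbg hah hbh
    obtain ⟨γ1, hγ1, rfl⟩ := Set.mem_smul_set.1 hag
    obtain ⟨q1, hq1, rfl⟩ := Set.mem_smul_set.1 hbg
    obtain ⟨γ2, hγ2, h2a⟩ := Set.mem_smul_set.1 hah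
    obtain ⟨q2, hq2, h2b⟩ := Set.mem_smul_set.1 hbh
    obtain ⟨k, hk⟩ := QuotientGroup.mk_surjective (g • γ1)
    have hkα : k • α = g • γ1 := by rw [← hk]; exact (hmk k).symm
    have hq1γ1 : q1 ≠ γ1 := fun e => hab (by rw [e])
    have hq2γ2 : q2 ≠ γ2 := fun e => hab (by rw [← h2a, ← h2b, e])
    rw [hss g γ1 hγ1 q1 hq1 hq1γ1 k hkα, hss h γ2 hγ2 q2 hq2 hq2γ2 k (hkα.trans h2a.symm),
      h2a, h2b]

theorem ord5760_n96_lines [IsSimpleGroup G] (hG : Nat.card G = 5760) (s : G) (H : Subgroup G)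
    (hs : orderOf s = 3)
    (hH : H = Subgroup.normalizer ((Subgroup.zpowers s : Subgroup G) : Set G))
    (hidx : H.index = 16) (h4 : 4 ∣ Nat.card (Subgroup.centralizer ({s} : Set G)))
    (hfix : ∀ q : G ⧸ H, s • q = q → q = ((1 : G) : G ⧸ H))
    (htr : ∀ q q' : G ⧸ H, q ≠ ((1 : G) : G ⧸ H) → q' ≠ ((1 : G) : G ⧸ H) → ∃ h ∈ H, h • q = q') :
    ∃ L : Set (G ⧸ H), Nat.card L = 4 ∧
      (∀ a b : G ⧸ H, a ≠ b → ∃ g : G, a ∈ g • L ∧ b ∈ g • L) ∧
      (∀ (g h : G) (a b : G ⧸ H), a ≠ b → a ∈ g • L → b ∈ g • L → a ∈ h • L → b ∈ h • L →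
        g • L = h • L) :=
  ord5760_n96_lines_of s H hs hH hidx h4 hfix htr
    (fun s' v γ hs' hfix' hv hcomm =>
      Cfsg.Agent.Helper55.ord5760_inv_fix hG H hidx s' v γ hs' hfix' hv hcomm)

end Cfsg.Agent.Helper20
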