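/-
Helper library of seat helper20: fixed points of a `p`-group acting coprimely (internal version:
`A` and `N` are subgroups of a finite group, `A` normalises `N`).  Sylow reduction for orders of
fixed-point subgroups.  Built on `Helper35.CoprimeSylow`.
-/
import Cfsg.Agent.Helper35.CoprimeSylow

set_option autoImplicit false

namespace Cfsg.Agent.Helper20

open Subgroup
open scoped Pointwise

universe u

section pefBasic

variable {G : Type u} [Group G]

/-- `|XK| * |X ∩ K| = |X| * |K|` when `X` normalises `K`. -/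
theorem pef_card_sup_mul_card_inf (X K : Subgroup G) (h : X ≤ normalizer (K : Set G)) :
    Nat.card (X ⊔ K : Subgroup G) * Nat.card (X ⊓ K : Subgroup G) = Nat.card X * Nat.card K := by
  have h1 : K.relIndex (X ⊔ K) = K.relIndex X := by
    have := Subgroup.normal_subgroupOf_of_le_normalizer h
    have := Subgroup.normal_subgroupOf_sup_of_le_normalizer h
    exact Nat.card_congr (QuotientGroup.quotientInfEquivProdNormalizerQuotient X K h).toEquiv.symm
  have h2 : (X ⊓ K).relIndex X = K.relIndex X := Subgroup.inf_relIndex_left X K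
  have h3 : (⊥ : Subgroup G).relIndex K * K.relIndex (X ⊔ K) = (⊥ : Subgroup G).relIndex (X ⊔ K) :=
    Subgroup.relIndex_mul_relIndex _ _ _ bot_le le_sup_right
  have h4 : (⊥ : Subgroup G).relIndex (X ⊓ K) * (X ⊓ K).relIndex X = (⊥ : Subgroup G).relIndex X :=
    Subgroup.relIndex_mul_relIndex _ _ _ bot_le inf_le_left
  rw [Subgroup.relIndex_bot_left, Subgroup.relIndex_bot_left] at h3 h4
  rw [← h3, ← h4, h1, h2]
  ring

theorem pef_le_normalizer {A S : Subgroup G} (h : ∀ a ∈ A, ∀ s ∈ S, a * s * a⁻¹ ∈ S) :
    A ≤ normalizer (S : Set G) := by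
  intro a ha
  rw [Subgroup.mem_normalizer_iff]
  intro s
  refine ⟨h a ha s, fun hs => ?_⟩
  have := h a⁻¹ (inv_mem ha) _ hs
  simpa [mul_assoc] using this

theorem pef_le_normalizer_sup {A H K : Subgroup G} (hH : A ≤ normalizer (H : Set G))
    (hK : A ≤ normalizer (K : Set G)) : A ≤ normalizer ((H ⊔ K : Subgroup G) : Set G) := by
  intro a ha
  rw [Helper35.mem_normalizer_iff_conj_smul_eq, Subgroup.smul_sup,
    Helper35.conj_smul_eq_self_of_mem_normalizer (hH ha),
    Helper35.conj_smul_eq_self_of_mem_normalizer (hK ha)]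

theorem pef_le_normalizer_inf {A H K : Subgroup G} (hH : A ≤ normalizer (H : Set G))
    (hK : A ≤ normalizer (K : Set G)) : A ≤ normalizer ((H ⊓ K : Subgroup G) : Set G) :=
  (le_inf hH hK).trans Subgroup.inf_normalizer_le_normalizer_inf

theorem pef_centralizer_zpowers (g : G) :
    centralizer ((zpowers g : Subgroup G) : Set G) = centralizer ({g} : Set G) := by
  apply le_antisymm
  · exact Subgroup.centralizer_le (by simp)
  · intro y hy
    rw [Subgroup.mem_centralizer_iff] at hy ⊢
    intro w hw
    obtain ⟨k, rfl⟩ := Subgroup.mem_zpowers_iff.mp hw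
    have h1 : Commute g y := hy g rfl
    exact (h1.zpow_left k).eq

theorem pef_centralizer_closure (S : Set G) :
    centralizer ((closure S : Subgroup G) : Set G) = centralizer S := by
  apply le_antisymm
  · exact Subgroup.centralizer_le subset_closure
  · intro y hy
    have h1 : S ⊆ (centralizer ({y} : Set G) : Subgroup G) := by
      intro s hs
      rw [SetLike.mem_coe, Subgroup.mem_centralizer_iff]
      intro w hw
      rw [Set.mem_singleton_iff] at hw
      subst hw
      exact ((Subgroup.mem_centralizer_iff.mp hy) s hs).symm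
    have h2 : closure S ≤ centralizer ({y} : Set G) := (Subgroup.closure_le _).mpr h1
    rw [Subgroup.mem_centralizer_iff]
    intro w hw
    have := h2 hw
    rw [Subgroup.mem_centralizer_iff] at this
    exact (this y rfl).symm

/-- a subgroup centralised by `A` is normalised by `A` -/
theorem pef_le_normalizer_of_le_centralizer {A T : Subgroup G}
    (h : T ≤ centralizer (A : Set G)) : A ≤ normalizer (T : Set G) :=
  (Subgroup.le_centralizer_iff.mp h).trans (Subgroup.centralizer_le_normalizer _)

end pefBasic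

section pefSylow

variable {G : Type u} [Group G] [Finite G]

theorem pef_coprime {p : ℕ} [Fact p.Prime] {A N : Subgroup G} (hA : IsPGroup p A)
    (hN : (Nat.card N).Coprime p) : (Nat.card A).Coprime (Nat.card N) := by
  obtain ⟨k, hk⟩ := IsPGroup.iff_card.mp hA
  rw [hk]
  exact Nat.Coprime.pow_left k hN.symm

theorem pef_solvable {p : ℕ} [Fact p.Prime] {A : Subgroup G} (hA : IsPGroup p A) :
    Group.IsSolvable A := by
  have := hA.isNilpotent
  infer_instance

/-- If `Q` is an `A`-invariant Sylow `q`-subgroup of `N` (coprime action of the `p`-group `A`),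
then `C_Q(A)` is a Sylow `q`-subgroup of `C_N(A)`. -/
theorem pef_fix_sylow {p q : ℕ} [Fact p.Prime] [Fact q.Prime] {A N Q : Subgroup G}
    (hAN : A ≤ normalizer (N : Set G)) (hA : IsPGroup p A) (hN : (Nat.card N).Coprime p)
    (hQ : Q ∈ Helper35.sylowSet q N) (hQA : A ≤ normalizer (Q : Set G)) :
    Q ⊓ centralizer (A : Set G) ∈ Helper35.sylowSet q (N ⊓ centralizer (A : Set G)) := by
  have hcop := pef_coprime hA hN
  have hsolv : Group.IsSolvable A ∨ Group.IsSolvable N := Or.inl (pef_solvable hA)
  obtain ⟨T, hT⟩ := Helper35.sylowSet_nonempty (p := q) (N ⊓ centralizer (A : Set G))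
  have hTN : T ≤ N := hT.1.trans inf_le_left
  have hTC : T ≤ centralizer (A : Set G) := hT.1.trans inf_le_right
  have hTq : IsPGroup q T := Helper35.isPGroup_of_mem_sylowSet hT
  have hTA : A ≤ normalizer (T : Set G) := pef_le_normalizer_of_le_centralizer hTC
  obtain ⟨Q', hQ', hTQ', hQ'A⟩ := Helper35.exists_invariant_sylow_ge hAN hcop hsolv hTN hTq hTA
  obtain ⟨c, hc, hcQ⟩ := Helper35.exists_conj_invariant_sylow hAN hcop hsolv hQ' hQ hQ'A hQA
  have hcnorm : c ∈ normalizer ((N ⊓ centralizer (A : Set G) : Subgroup G) : Set G) :=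
    le_normalizer hc
  have hT' := Helper35.conj_mem_sylowSet hcnorm hT
  have hle : MulAut.conj c • T ≤ Q ⊓ centralizer (A : Set G) := by
    refine le_inf ?_ (hT'.1.trans inf_le_right)
    rw [← hcQ]
    exact Helper35.conj_smul_le_conj_smul hTQ'
  have heq := Helper35.eq_of_mem_sylowSet_of_le hT' (inf_le_inf_right _ hQ.1)
    ((Helper35.isPGroup_of_mem_sylowSet hQ).to_le inf_le_left) hle
  rw [heq]
  exact hT'

/-- Sylow reduction for the order of a fixed-point subgroup. -/
theorem pef_card_fix_eq_prod {p : ℕ} [Fact p.Prime] {A N : Subgroup G}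
    (hAN : A ≤ normalizer (N : Set G)) (hA : IsPGroup p A) (hN : (Nat.card N).Coprime p)
    (Qs : ℕ → Subgroup G)
    (hQs : ∀ q, q.Prime → Qs q ∈ Helper35.sylowSet q N ∧
      A ≤ normalizer ((Qs q : Subgroup G) : Set G)) :
    Nat.card (N ⊓ centralizer (A : Set G) : Subgroup G) =
      ∏ q ∈ (Nat.card N).primeFactors,
        Nat.card (Qs q ⊓ centralizer (A : Set G) : Subgroup G) := by
  have hpos : Nat.card (N ⊓ centralizer (A : Set G) : Subgroup G) ≠ 0 := Nat.card_pos.ne'
  have hdvd : Nat.card (N ⊓ centralizer (A : Set G) : Subgroup G) ∣ Nat.card N :=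
    Subgroup.card_dvd_of_le inf_le_left
  have h1 : ∀ q ∈ (Nat.card N).primeFactors,
      Nat.card (Qs q ⊓ centralizer (A : Set G) : Subgroup G) =
        q ^ (Nat.card (N ⊓ centralizer (A : Set G) : Subgroup G)).factorization q := by
    intro q hq
    have hqp := Nat.prime_of_mem_primeFactors hq
    have : Fact q.Prime := ⟨hqp⟩
    exact (pef_fix_sylow hAN hA hN (hQs q hqp).1 (hQs q hqp).2).2
  rw [Finset.prod_congr rfl h1]
  conv_lhs => rw [← Nat.prod_factorization_pow_eq_self hpos]
  rw [Finsupp.prod_of_support_subset]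
  · rw [Nat.support_factorization]
    exact Nat.primeFactors_mono hdvd Nat.card_pos.ne'
  · intro i _
    exact pow_zero i

theorem pef_card_eq_prod {N : Subgroup G} (Qs : ℕ → Subgroup G)
    (hQs : ∀ q, q.Prime → Qs q ∈ Helper35.sylowSet q N) :
    Nat.card N = ∏ q ∈ (Nat.card N).primeFactors, Nat.card (Qs q) := by
  have h1 : ∀ q ∈ (Nat.card N).primeFactors,
      Nat.card (Qs q) = q ^ (Nat.card N).factorization q := by
    intro q hq
    exact (hQs q (Nat.prime_of_mem_primeFactors hq)).2
  rw [Finset.prod_congr rfl h1]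
  conv_lhs => rw [← Nat.prod_factorization_pow_eq_self (Nat.card_pos (α := N)).ne']
  rw [Finsupp.prod_of_support_subset]
  · rw [Nat.support_factorization]
  · intro i _
    exact pow_zero i

end pefSylow

end Cfsg.Agent.Helper20
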