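/-
Helper library of seat helper20: a Brauer–Wielandt type inequality for two commuting
automorphisms of `p`-power order of a `p'`-group (internal version), used for counting
`p`-elements.
-/
import Cfsg.Agent.Helper20.PEltFix
import Cfsg.Agent.Helper35.CoprimeGen

set_option autoImplicit false

namespace Cfsg.Agent.Helper20

open Subgroup
open scoped Pointwise

universe u

section pefCommDefs

variable {G : Type u} [Group G]

/-- elements of the normaliser of `N` whose action on `N` commutes with the action of `g` -/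
def pefComm (N : Subgroup G) (g : G) : Subgroup G where
  carrier := {a | a ∈ normalizer (N : Set G) ∧
    ∀ n ∈ N, a * g * n * g⁻¹ * a⁻¹ = g * a * n * a⁻¹ * g⁻¹}
  one_mem' := ⟨one_mem _, fun n _ => by simp⟩
  mul_mem' := by
    rintro a b ⟨ha, ha'⟩ ⟨hb, hb'⟩
    refine ⟨mul_mem ha hb, fun n hn => ?_⟩
    have hbn : b * n * b⁻¹ ∈ N := (Subgroup.mem_normalizer_iff.mp hb n).mp hn
    have e1 := hb' n hn
    have e2 := ha' _ hbn
    calc a * b * g * n * g⁻¹ * (a * b)⁻¹ = a * (b * g * n * g⁻¹ * b⁻¹) * a⁻¹ := by group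
      _ = a * (g * b * n * b⁻¹ * g⁻¹) * a⁻¹ := by rw [e1]
      _ = a * g * (b * n * b⁻¹) * g⁻¹ * a⁻¹ := by group
      _ = g * a * (b * n * b⁻¹) * a⁻¹ * g⁻¹ := e2
      _ = g * (a * b) * n * (a * b)⁻¹ * g⁻¹ := by group
  inv_mem' := by
    rintro a ⟨ha, ha'⟩
    refine ⟨inv_mem ha, fun n hn => ?_⟩
    have han : a⁻¹ * n * a ∈ N := by
      have := (Subgroup.mem_normalizer_iff.mp (inv_mem ha) n).mp hn
      simpa using this
    have e := ha' _ han
    have e' : g * (a⁻¹ * n * a) * g⁻¹ = a⁻¹ * (g * n * g⁻¹) * a := by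
      have h1 : a * g * (a⁻¹ * n * a) * g⁻¹ * a⁻¹ = g * n * g⁻¹ := by rw [e]; group
      calc g * (a⁻¹ * n * a) * g⁻¹ = a⁻¹ * (a * g * (a⁻¹ * n * a) * g⁻¹ * a⁻¹) * a := by group
        _ = a⁻¹ * (g * n * g⁻¹) * a := by rw [h1]
    calc a⁻¹ * g * n * g⁻¹ * a⁻¹⁻¹ = a⁻¹ * (g * n * g⁻¹) * a := by group
      _ = g * (a⁻¹ * n * a) * g⁻¹ := e'.symm
      _ = g * a⁻¹ * n * a⁻¹⁻¹ * g⁻¹ := by group

theorem pefComm_symm {N : Subgroup G} {a g : G} (ha : a ∈ pefComm N g)
    (hg : g ∈ normalizer (N : Set G)) : g ∈ pefComm N a :=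
  ⟨hg, fun n hn => (ha.2 n hn).symm⟩

theorem pefComm_of_comm_mem {N : Subgroup G} {a g : G} (ha : a ∈ normalizer (N : Set G))
    (hg : g ∈ normalizer (N : Set G)) (h : a * g * a⁻¹ * g⁻¹ ∈ centralizer (N : Set G)) :
    a ∈ pefComm N g := by
  refine ⟨ha, fun n hn => ?_⟩
  have h1 : a * n * a⁻¹ ∈ N := (Subgroup.mem_normalizer_iff.mp ha n).mp hn
  have h2 : g * (a * n * a⁻¹) * g⁻¹ ∈ N := (Subgroup.mem_normalizer_iff.mp hg _).mp h1
  have h3 := (Subgroup.mem_centralizer_iff.mp h) _ h2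
  calc a * g * n * g⁻¹ * a⁻¹
      = (a * g * a⁻¹ * g⁻¹) * (g * (a * n * a⁻¹) * g⁻¹) * (a * g * a⁻¹ * g⁻¹)⁻¹ := by group
    _ = (g * (a * n * a⁻¹) * g⁻¹) * (a * g * a⁻¹ * g⁻¹) * (a * g * a⁻¹ * g⁻¹)⁻¹ := by rw [← h3]
    _ = g * a * n * a⁻¹ * g⁻¹ := by group

/-- If the action of `B` on `N` commutes with that of `A`, then `C_Q(B)` is `A`-invariant for
every `A`-invariant `Q ≤ N`. -/
theorem pef_inv_fix {A Q B N : Subgroup G} (hQN : Q ≤ N) (hAQ : A ≤ normalizer (Q : Set G))
    (hB : ∀ a ∈ A, B ≤ pefComm N a) :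
    A ≤ normalizer ((Q ⊓ centralizer (B : Set G) : Subgroup G) : Set G) := by
  apply pef_le_normalizer
  intro a ha s hs
  obtain ⟨hsQ, hsB⟩ := Subgroup.mem_inf.mp hs
  refine Subgroup.mem_inf.mpr ⟨(Subgroup.mem_normalizer_iff.mp (hAQ ha) s).mp hsQ, ?_⟩
  rw [Subgroup.mem_centralizer_iff]
  intro b hb
  have h1 := (hB a ha hb).2 s (hQN hsQ)
  have h2 : b * s = s * b := (Subgroup.mem_centralizer_iff.mp hsB) b hb
  have h3 : b * s * b⁻¹ = s := by rw [h2]; group
  have h4 : b * (a * s * a⁻¹) * b⁻¹ = a * s * a⁻¹ := by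
    calc b * (a * s * a⁻¹) * b⁻¹ = b * a * s * a⁻¹ * b⁻¹ := by group
      _ = a * b * s * b⁻¹ * a⁻¹ := h1
      _ = a * (b * s * b⁻¹) * a⁻¹ := by group
      _ = a * s * a⁻¹ := by rw [h3]
  calc b * (a * s * a⁻¹) = b * (a * s * a⁻¹) * b⁻¹ * b := by group
    _ = a * s * a⁻¹ * b := by rw [h4]

/-- elements normalising `Q` and `M` and acting trivially on the cosets of `M` in `Q` -/
def pefTriv (Q M : Subgroup G) : Subgroup G where
  carrier := {g | g ∈ normalizer (Q : Set G) ∧ g ∈ normalizer (M : Set G) ∧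
    ∀ y ∈ Q, g * y * g⁻¹ * y⁻¹ ∈ M}
  one_mem' := ⟨one_mem _, one_mem _, fun y _ => by simp⟩
  mul_mem' := by
    rintro a b ⟨ha1, ha2, ha3⟩ ⟨hb1, hb2, hb3⟩
    refine ⟨mul_mem ha1 hb1, mul_mem ha2 hb2, fun y hy => ?_⟩
    have e : a * b * y * (a * b)⁻¹ * y⁻¹ =
        a * (b * y * b⁻¹ * y⁻¹) * a⁻¹ * (a * y * a⁻¹ * y⁻¹) := by group
    rw [e]
    exact mul_mem ((Subgroup.mem_normalizer_iff.mp ha2 _).mp (hb3 y hy)) (ha3 y hy)
  inv_mem' := by
    rintro a ⟨ha1, ha2, ha3⟩
    refine ⟨inv_mem ha1, inv_mem ha2, fun y hy => ?_⟩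
    have hy' : a⁻¹ * y * a ∈ Q := by
      have := (Subgroup.mem_normalizer_iff.mp (inv_mem ha1) y).mp hy
      simpa using this
    have h1 := inv_mem (ha3 _ hy')
    have e : (a * (a⁻¹ * y * a) * a⁻¹ * (a⁻¹ * y * a)⁻¹)⁻¹ = a⁻¹ * y * a⁻¹⁻¹ * y⁻¹ := by group
    rwa [e] at h1

end pefCommDefs

section pefK

variable {G : Type u} [Group G] [Finite G] {p : ℕ} [Fact p.Prime]

theorem pef_dich_triv {B Q M : Subgroup G} (hMQ : M ≤ Q) (hQM : Q ≤ normalizer (M : Set G))
    (hBp : IsPGroup p B) (hM : (Nat.card M).Coprime p) (hB : B ≤ pefTriv Q M) :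
    Nat.card (Q ⊓ centralizer (B : Set G) : Subgroup G) * Nat.card M =
      Nat.card (M ⊓ centralizer (B : Set G) : Subgroup G) * Nat.card Q := by
  have hBM : B ≤ normalizer (M : Set G) := fun b hb => (hB hb).2.1
  have hsup : (Q ⊓ centralizer (B : Set G)) ⊔ M = Q := by
    apply le_antisymm (sup_le inf_le_left hMQ)
    intro y hy
    obtain ⟨c, hc, hcM⟩ := Helper35.exists_fixed_in_coset hBM (pef_coprime hBp hM)
      (Or.inl (pef_solvable hBp)) y (by
        intro b hb
        have h1 := (hB hb).2.2 y⁻¹ (inv_mem hy)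
        have h2 := inv_mem h1
        have e : (b * y⁻¹ * b⁻¹ * y⁻¹⁻¹)⁻¹ = y⁻¹ * b * y * b⁻¹ := by group
        rwa [e] at h2)
    have hcQ : c ∈ Q := by
      have := Q.mul_mem hy (hMQ hcM)
      simpa using this
    have e : y = c * (y⁻¹ * c)⁻¹ := by group
    rw [e]
    exact Subgroup.mul_mem _ (Subgroup.mem_sup_left (Subgroup.mem_inf.mpr ⟨hcQ, hc⟩))
      (Subgroup.mem_sup_right (inv_mem hcM))
  have h1 := pef_card_sup_mul_card_inf (Q ⊓ centralizer (B : Set G)) M (inf_le_left.trans hQM)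
  rw [hsup, inf_right_comm, inf_of_le_right hMQ] at h1
  rw [← h1, mul_comm]

omit [Finite G] [Fact p.Prime] in
theorem pef_dich_nontriv {A B Q M : Subgroup G} (hMQ : M ≤ Q)
    (hQM : Q ≤ normalizer (M : Set G))
    (hAQ : A ≤ normalizer (Q : Set G)) (hAM : A ≤ normalizer (M : Set G)) (hBA : B ≤ A)
    (hinv : A ≤ normalizer ((Q ⊓ centralizer (B : Set G) : Subgroup G) : Set G))
    (hmax : ∀ S : Subgroup G, M ≤ S → S ≤ Q → A ≤ normalizer (S : Set G) → S = M ∨ S = Q)
    (hB : ¬ B ≤ pefTriv Q M) :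
    Q ⊓ centralizer (B : Set G) = M ⊓ centralizer (B : Set G) := by
  rcases hmax ((Q ⊓ centralizer (B : Set G)) ⊔ M) le_sup_right (sup_le inf_le_left hMQ)
    (pef_le_normalizer_sup hinv hAM) with h | h
  · have hle : Q ⊓ centralizer (B : Set G) ≤ M := by rw [← h]; exact le_sup_left
    exact le_antisymm (le_inf hle inf_le_right) (inf_le_inf_right _ hMQ)
  · exfalso
    apply hB
    intro b hb
    refine ⟨hAQ (hBA hb), hAM (hBA hb), fun y hy => ?_⟩
    rw [← h, sup_comm] at hy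
    obtain ⟨m, hm, c, hc, rfl⟩ := Helper35.exists_mul_of_mem_sup_of_le_normalizer
      (N := M) (A := Q ⊓ centralizer (B : Set G)) (inf_le_left.trans hQM) hy
    obtain ⟨_, hcB⟩ := Subgroup.mem_inf.mp hc
    have h2 : b * c = c * b := (Subgroup.mem_centralizer_iff.mp hcB) b hb
    have hbm : b * m * b⁻¹ ∈ M := (Subgroup.mem_normalizer_iff.mp (hAM (hBA hb)) m).mp hm
    have e : b * (m * c) * b⁻¹ * (m * c)⁻¹ = (b * m * b⁻¹) * m⁻¹ := by
      have h3 : b * c * b⁻¹ = c := by rw [h2]; group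
      calc b * (m * c) * b⁻¹ * (m * c)⁻¹ = (b * m * b⁻¹) * (b * c * b⁻¹) * c⁻¹ * m⁻¹ := by group
        _ = (b * m * b⁻¹) * c * c⁻¹ * m⁻¹ := by rw [h3]
        _ = (b * m * b⁻¹) * m⁻¹ := by group
    rw [e]
    exact M.mul_mem hbm (M.inv_mem hm)

omit [Fact p.Prime] in
theorem pef_arith {ι : Type*} (s : Finset ι) (P : ι → Prop) [DecidablePred P] (cQ cM : ι → ℕ)
    (m r dQ dM : ℕ) (hm : 0 < m) (hmr : m ≤ r)
    (h1 : ∀ i ∈ s, P i → cQ i * m = cM i * r) (h2 : ∀ i ∈ s, ¬ P i → cQ i = cM i)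
    (hIH : ∏ i ∈ s, cM i ≤ m * dM ^ p)
    (hcase : (dQ * m = dM * r ∧ (s.filter P).card = p + 1) ∨
      (dQ = dM ∧ (s.filter P).card ≤ 1)) :
    ∏ i ∈ s, cQ i ≤ r * dQ ^ p := by
  have key : (∏ i ∈ s, cQ i) * m ^ (s.filter P).card = (∏ i ∈ s, cM i) * r ^ (s.filter P).card := by
    have e1 : ∀ x : ℕ, ∏ i ∈ s, (if P i then x else 1) = x ^ (s.filter P).card := by
      intro x
      rw [Finset.prod_ite, Finset.prod_const, Finset.prod_const_one, mul_one]
    rw [← e1 m, ← e1 r, ← Finset.prod_mul_distrib, ← Finset.prod_mul_distrib]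
    apply Finset.prod_congr rfl
    intro i hi
    by_cases hP : P i
    · rw [if_pos hP, if_pos hP]; exact h1 i hi hP
    · rw [if_neg hP, if_neg hP, h2 i hi hP]
  rcases hcase with ⟨hd, ht⟩ | ⟨hd, ht⟩
  · rw [ht] at key
    have h3 : (∏ i ∈ s, cQ i) * m ^ (p + 1) ≤ (r * dQ ^ p) * m ^ (p + 1) := by
      rw [key]
      calc (∏ i ∈ s, cM i) * r ^ (p + 1) ≤ (m * dM ^ p) * r ^ (p + 1) :=
            Nat.mul_le_mul_right _ hIH
        _ = m * r * (dM * r) ^ p := by ring
        _ = m * r * (dQ * m) ^ p := by rw [hd]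
        _ = (r * dQ ^ p) * m ^ (p + 1) := by ring
    exact Nat.le_of_mul_le_mul_right h3 (pow_pos hm _)
  · subst hd
    interval_cases h : (s.filter P).card
    · rw [pow_zero, pow_zero, mul_one, mul_one] at key
      rw [key]
      exact hIH.trans (Nat.mul_le_mul_right _ hmr)
    · rw [pow_one, pow_one] at key
      have h3 : (∏ i ∈ s, cQ i) * m ≤ (r * dQ ^ p) * m := by
        rw [key]
        calc (∏ i ∈ s, cM i) * r ≤ (m * dQ ^ p) * r := Nat.mul_le_mul_right _ hIH
          _ = (r * dQ ^ p) * m := by ring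
      exact Nat.le_of_mul_le_mul_right h3 hm

/-- the list `x, x z, …, x z^(p-1), z` -/
def pefG (x z : G) (p : ℕ) (i : ℕ) : G := if i < p then x * z ^ i else z

omit [Finite G] [Fact p.Prime] in
theorem pefG_mem {A : Subgroup G} {x z : G} (hx : x ∈ A) (hz : z ∈ A) (i : ℕ) :
    pefG x z p i ∈ A := by
  unfold pefG
  split_ifs
  · exact A.mul_mem hx (A.pow_mem hz i)
  · exact hz

omit [Finite G] in
/-- two different members of the list acting trivially force `x` and `z` to act trivially -/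
theorem pef_two_triv {T : Subgroup G} {x z : G} (hzp : z ^ p ∈ T) {i j : ℕ}
    (hi : i < j) (hj : j < p + 1) (hgi : pefG x z p i ∈ T) (hgj : pefG x z p j ∈ T) :
    x ∈ T ∧ z ∈ T := by
  have hp : p.Prime := Fact.out
  have hip : i < p := by omega
  have hzT : z ∈ T := by
    by_cases hjp : j < p
    · have h1 : pefG x z p i = x * z ^ i := by unfold pefG; rw [if_pos hip]
      have h2 : pefG x z p j = x * z ^ j := by unfold pefG; rw [if_pos hjp]
      rw [h1] at hgi
      rw [h2] at hgj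
      obtain ⟨d, rfl⟩ := Nat.exists_eq_add_of_lt hi
      have h3 : z ^ (d + 1) ∈ T := by
        have := T.mul_mem (T.inv_mem hgi) hgj
        have e : (x * z ^ i)⁻¹ * (x * z ^ (i + d + 1)) = z ^ (d + 1) := by
          rw [add_assoc, pow_add]; group
        rwa [e] at this
      have hcop : Nat.Coprime (d + 1) p :=
        Nat.Coprime.symm ((Nat.Prime.coprime_iff_not_dvd hp).mpr
          (Nat.not_dvd_of_pos_of_lt (by omega) (by omega)))
      exact Helper35.mem_of_pow_mem_of_coprime hcop h3 hzp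
    · have h2 : pefG x z p j = z := by unfold pefG; rw [if_neg hjp]
      rwa [h2] at hgj
  refine ⟨?_, hzT⟩
  have h1 : pefG x z p i = x * z ^ i := by unfold pefG; rw [if_pos hip]
  rw [h1] at hgi
  have := T.mul_mem hgi (T.inv_mem (T.pow_mem hzT i))
  simpa using this

/-- the inequality for an `A`-invariant `q`-subgroup -/
theorem pef_K_qgroup {A N : Subgroup G} (hA : IsPGroup p A)
    (hN : (Nat.card N).Coprime p) {x z : G} (hx : x ∈ A) (hz : z ∈ A)
    (hxc : ∀ a ∈ A, x ∈ pefComm N a) (hzc : ∀ a ∈ A, z ∈ pefComm N a)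
    (hzp : z ^ p ∈ centralizer (N : Set G)) (q : ℕ) [Fact q.Prime] :
    ∀ (k : ℕ) (Q : Subgroup G), Nat.card Q = k → Q ≤ N → IsPGroup q Q →
      A ≤ normalizer (Q : Set G) →
      ∏ i ∈ Finset.range (p + 1),
          Nat.card (Q ⊓ centralizer ((zpowers (pefG x z p i) : Subgroup G) : Set G) : Subgroup G)
        ≤ Nat.card Q *
          Nat.card (Q ⊓ centralizer ((closure {x, z} : Subgroup G) : Set G) : Subgroup G) ^ p := by
  classical
  intro k
  induction k using Nat.strong_induction_on with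
  | _ k ih =>
    intro Q hk hQN hQq hAQ
    by_cases hQ1 : Q = ⊥
    · subst hQ1
      simp
    -- a maximal `A`-invariant proper subgroup
    have hbotn : A ≤ normalizer (((⊥ : Subgroup G) : Subgroup G) : Set G) := by
      apply pef_le_normalizer
      intro a _ s hs
      rw [Subgroup.mem_bot] at hs ⊢
      rw [hs]; group
    obtain ⟨M, ⟨hMQ, hMne, hAM⟩, hMmax⟩ := Set.exists_max_image
      {S : Subgroup G | S ≤ Q ∧ S ≠ Q ∧ A ≤ normalizer (S : Set G)}
      (fun S => Nat.card S) (Set.toFinite _) ⟨⊥, bot_le, Ne.symm hQ1, hbotn⟩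
    have hmax : ∀ S : Subgroup G, M ≤ S → S ≤ Q → A ≤ normalizer (S : Set G) →
        S = M ∨ S = Q := by
      intro S hMS hSQ hAS
      by_cases hSQ' : S = Q
      · exact Or.inr hSQ'
      · left
        exact (Subgroup.eq_of_le_of_card_ge hMS (hMmax S ⟨hSQ, hSQ', hAS⟩)).symm
    have hQM : Q ≤ normalizer (M : Set G) := by
      rcases hmax (Q ⊓ normalizer (M : Set G)) (le_inf hMQ le_normalizer) inf_le_left
        (pef_le_normalizer_inf hAQ (hAM.trans le_normalizer)) with h | h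
      · exfalso
        obtain ⟨y, hyQ, hyN, hyM⟩ :=
          Helper35.exists_mem_normalizer_not_mem_of_isPGroup hQq hMQ hMne
        apply hyM
        rw [← h]
        exact ⟨hyQ, hyN⟩
      · rw [← h]; exact inf_le_right
    have hcardlt : Nat.card M < Nat.card Q := by
      by_contra hcon
      exact hMne (Subgroup.eq_of_le_of_card_ge hMQ (not_lt.mp hcon))
    have hIH := ih (Nat.card M) (by omega) M rfl (hMQ.trans hQN) (hQq.to_le hMQ) hAM
    have hMcop : (Nat.card M).Coprime p :=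
      Nat.Coprime.coprime_dvd_left (Subgroup.card_dvd_of_le (hMQ.trans hQN)) hN
    have hANx : x ∈ normalizer (N : Set G) := (hxc 1 (one_mem _)).1
    -- the trivially acting elements
    have hzpT : z ^ p ∈ pefTriv Q M := by
      refine ⟨hAQ (A.pow_mem hz p), hAM (A.pow_mem hz p), fun y hy => ?_⟩
      have h1 := (Subgroup.mem_centralizer_iff.mp hzp) y (hQN hy)
      have e : z ^ p * y * (z ^ p)⁻¹ * y⁻¹ = 1 := by
        rw [← h1]; group
      rw [e]; exact one_mem _
    have hBiA : ∀ i, zpowers (pefG x z p i) ≤ A := fun i =>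
      (Subgroup.zpowers_le).mpr (pefG_mem hx hz i)
    have hBic : ∀ i, ∀ a ∈ A, zpowers (pefG x z p i) ≤ pefComm N a := fun i a ha =>
      (Subgroup.zpowers_le).mpr (pefG_mem (hxc a ha) (hzc a ha) i)
    have hBDA : closure {x, z} ≤ A := by
      rw [Subgroup.closure_le]
      intro w hw
      rcases hw with rfl | rfl
      · exact hx
      · exact hz
    have hBDc : ∀ a ∈ A, closure {x, z} ≤ pefComm N a := by
      intro a ha
      rw [Subgroup.closure_le]
      intro w hw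
      rcases hw with rfl | rfl
      · exact hxc a ha
      · exact hzc a ha
    refine pef_arith (Finset.range (p + 1))
      (fun i => zpowers (pefG x z p i) ≤ pefTriv Q M) _ _ (Nat.card M) (Nat.card Q) _ _
      Nat.card_pos (Subgroup.card_le_of_le hMQ) ?_ ?_ hIH ?_
    · intro i _ hP
      exact pef_dich_triv hMQ hQM (hA.to_le (hBiA i)) hMcop hP
    · intro i _ hP
      rw [pef_dich_nontriv hMQ hQM hAQ hAM (hBiA i) (pef_inv_fix hQN hAQ (hBic i)) hmax hP]
    · by_cases hD : closure {x, z} ≤ pefTriv Q M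
      · left
        refine ⟨pef_dich_triv hMQ hQM (hA.to_le hBDA) hMcop hD, ?_⟩
        rw [Finset.filter_true_of_mem, Finset.card_range]
        intro i _
        refine (Subgroup.zpowers_le).mpr (hD ?_)
        exact pefG_mem (subset_closure (by simp)) (subset_closure (by simp)) i
      · right
        refine ⟨by rw [pef_dich_nontriv hMQ hQM hAQ hAM hBDA (pef_inv_fix hQN hAQ hBDc) hmax hD],
          ?_⟩
        rw [Finset.card_le_one]
        intro i hi j hj
        rw [Finset.mem_filter, Finset.mem_range] at hi hj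
        by_contra hij
        apply hD
        have hgi : pefG x z p i ∈ pefTriv Q M := hi.2 (Subgroup.mem_zpowers _)
        have hgj : pefG x z p j ∈ pefTriv Q M := hj.2 (Subgroup.mem_zpowers _)
        have hxz : x ∈ pefTriv Q M ∧ z ∈ pefTriv Q M := by
          rcases lt_or_gt_of_ne hij with h | h
          · exact pef_two_triv hzpT h hj.1 hgi hgj
          · exact pef_two_triv hzpT h hi.1 hgj hgi
        rw [Subgroup.closure_le]
        intro w hw
        rcases hw with rfl | rfl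
        · exact hxz.1
        · exact hxz.2

end pefK

end Cfsg.Agent.Helper20
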