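/-
Helper library of seat helper20: for a `p`-group `P` acting coprimely on `N`,
`(∏_{x ∈ P} |C_N(x)|)^p ≤ |N|^|P| * |C_N(P)|^((p-1)|P|)` (internal version).
-/
import Cfsg.Agent.Helper20.PEltK

set_option autoImplicit false

namespace Cfsg.Agent.Helper20

open Subgroup
open scoped Pointwise

universe u

section pefGM

variable {G : Type u} [Group G] [Finite G] {p : ℕ} [Fact p.Prime]

/-- the Brauer–Wielandt type inequality for a `p'`-subgroup `N` -/
theorem pef_K {A N : Subgroup G} (hA : IsPGroup p A) (hAN : A ≤ normalizer (N : Set G))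
    (hN : (Nat.card N).Coprime p) {x z : G} (hx : x ∈ A) (hz : z ∈ A)
    (hxc : ∀ a ∈ A, x ∈ pefComm N a) (hzc : ∀ a ∈ A, z ∈ pefComm N a)
    (hzp : z ^ p ∈ centralizer (N : Set G)) :
    ∏ i ∈ Finset.range (p + 1),
        Nat.card (N ⊓ centralizer ((zpowers (pefG x z p i) : Subgroup G) : Set G) : Subgroup G)
      ≤ Nat.card N *
        Nat.card (N ⊓ centralizer ((closure {x, z} : Subgroup G) : Set G) : Subgroup G) ^ p := by
  classical
  have hcop := pef_coprime hA hN
  have hsolv : Group.IsSolvable A ∨ Group.IsSolvable N := Or.inl (pef_solvable hA)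
  have hex : ∀ q : ℕ, ∃ Q : Subgroup G, q.Prime →
      (Q ∈ Helper35.sylowSet q N ∧ A ≤ normalizer (Q : Set G)) := by
    intro q
    by_cases hq : q.Prime
    · have : Fact q.Prime := ⟨hq⟩
      obtain ⟨Q, h1, h2⟩ := Helper35.exists_invariant_sylow hAN hcop hsolv q
      exact ⟨Q, fun _ => ⟨h1, h2⟩⟩
    · exact ⟨⊥, fun h => absurd h hq⟩
  choose Qs hQs using hex
  have hfix : ∀ B : Subgroup G, B ≤ A →
      Nat.card (N ⊓ centralizer (B : Set G) : Subgroup G) =
        ∏ q ∈ (Nat.card N).primeFactors,
          Nat.card (Qs q ⊓ centralizer (B : Set G) : Subgroup G) := by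
    intro B hBA
    exact pef_card_fix_eq_prod (hBA.trans hAN) (hA.to_le hBA) hN Qs
      (fun q hq => ⟨(hQs q hq).1, hBA.trans (hQs q hq).2⟩)
  have hcard : Nat.card N = ∏ q ∈ (Nat.card N).primeFactors, Nat.card (Qs q) :=
    pef_card_eq_prod Qs (fun q hq => (hQs q hq).1)
  have hBiA : ∀ i, zpowers (pefG x z p i) ≤ A := fun i =>
    (Subgroup.zpowers_le).mpr (pefG_mem hx hz i)
  have hBDA : closure {x, z} ≤ A := by
    rw [Subgroup.closure_le]
    intro w hw
    rcases hw with rfl | rfl
    · exact hx
    · exact hz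
  have e1 : ∏ i ∈ Finset.range (p + 1),
      Nat.card (N ⊓ centralizer ((zpowers (pefG x z p i) : Subgroup G) : Set G) : Subgroup G) =
      ∏ q ∈ (Nat.card N).primeFactors, ∏ i ∈ Finset.range (p + 1),
        Nat.card (Qs q ⊓ centralizer ((zpowers (pefG x z p i) : Subgroup G) : Set G) :
          Subgroup G) := by
    rw [Finset.prod_comm]
    exact Finset.prod_congr rfl (fun i _ => hfix _ (hBiA i))
  have e2 : Nat.card N *
      Nat.card (N ⊓ centralizer ((closure {x, z} : Subgroup G) : Set G) : Subgroup G) ^ p =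
      ∏ q ∈ (Nat.card N).primeFactors, (Nat.card (Qs q) *
        Nat.card (Qs q ⊓ centralizer ((closure {x, z} : Subgroup G) : Set G) : Subgroup G) ^ p) := by
    rw [Finset.prod_mul_distrib, Finset.prod_pow, ← hcard, ← hfix _ hBDA]
  rw [e1, e2]
  apply Finset.prod_le_prod'
  intro q hq
  have hqp := Nat.prime_of_mem_primeFactors hq
  have : Fact q.Prime := ⟨hqp⟩
  exact pef_K_qgroup hA hN hx hz hxc hzc hzp q _ (Qs q) rfl (hQs q hqp).1.1
    (Helper35.isPGroup_of_mem_sylowSet (hQs q hqp).1) (hQs q hqp).2

omit [Finite G] [Fact p.Prime] in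
theorem pef_conj_mem_centralizer {N : Subgroup G} {a c : G} (ha : a ∈ normalizer (N : Set G))
    (hc : c ∈ centralizer (N : Set G)) : a * c * a⁻¹ ∈ centralizer (N : Set G) := by
  rw [Subgroup.mem_centralizer_iff]
  intro n hn
  have hn' : a⁻¹ * n * a ∈ N := by
    have := (Subgroup.mem_normalizer_iff.mp (inv_mem ha) n).mp hn
    simpa using this
  have h1 := (Subgroup.mem_centralizer_iff.mp hc) _ hn'
  calc n * (a * c * a⁻¹) = a * ((a⁻¹ * n * a) * c) * a⁻¹ := by group
    _ = a * (c * (a⁻¹ * n * a)) * a⁻¹ := by rw [h1]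
    _ = a * c * a⁻¹ * n := by group

omit [Finite G] [Fact p.Prime] in
theorem pef_centralizer_pair (x z : G) :
    centralizer ({x, z} : Set G) = centralizer ({x} : Set G) ⊓ centralizer ({z} : Set G) := by
  ext g
  simp [Subgroup.mem_centralizer_iff]

/-- an element of `P` of order `p` in the centre of `P / C_P(N)` -/
theorem pef_exists_central {P N : Subgroup G} (hP : IsPGroup p P)
    (hPN : P ≤ normalizer (N : Set G)) (hcent : ¬ P ≤ centralizer (N : Set G)) :
    ∃ z ∈ P, z ∉ centralizer (N : Set G) ∧ z ^ p ∈ centralizer (N : Set G) ∧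
      ∀ a ∈ P, a * z * a⁻¹ * z⁻¹ ∈ centralizer (N : Set G) := by
  have hnorm : ((centralizer (N : Set G)).subgroupOf P).Normal := by
    constructor
    intro c hc a
    rw [Subgroup.mem_subgroupOf] at hc ⊢
    have := pef_conj_mem_centralizer (hPN a.2) hc
    simpa using this
  obtain ⟨a0, ha0P, ha0⟩ := SetLike.not_le_iff_exists.mp hcent
  have hnt : Nontrivial (↥P ⧸ (centralizer (N : Set G)).subgroupOf P) := by
    refine ⟨⟨QuotientGroup.mk ⟨a0, ha0P⟩, 1, ?_⟩⟩
    intro h
    rw [QuotientGroup.eq_one_iff, Subgroup.mem_subgroupOf] at h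
    exact ha0 h
  have hQp : IsPGroup p (↥P ⧸ (centralizer (N : Set G)).subgroupOf P) := hP.to_quotient _
  have hZnt := hQp.center_nontrivial
  have hZp : IsPGroup p (center (↥P ⧸ (centralizer (N : Set G)).subgroupOf P)) :=
    hQp.to_subgroup _
  obtain ⟨k, hk⟩ := IsPGroup.iff_card.mp hZp
  have hk0 : k ≠ 0 := by
    rintro rfl
    rw [pow_zero] at hk
    have := Finite.one_lt_card (α := center (↥P ⧸ (centralizer (N : Set G)).subgroupOf P))
    omega
  have hdvd : p ∣ Nat.card (center (↥P ⧸ (centralizer (N : Set G)).subgroupOf P)) := by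
    rw [hk]; exact dvd_pow_self p hk0
  obtain ⟨w, hw⟩ := exists_prime_orderOf_dvd_card' p hdvd
  obtain ⟨z', hz'⟩ := QuotientGroup.mk_surjective (w : ↥P ⧸ (centralizer (N : Set G)).subgroupOf P)
  have hp : p.Prime := Fact.out
  refine ⟨(z' : G), z'.2, ?_, ?_, ?_⟩
  · intro hzc
    have h1 : (QuotientGroup.mk z' : ↥P ⧸ (centralizer (N : Set G)).subgroupOf P) = 1 := by
      rw [QuotientGroup.eq_one_iff, Subgroup.mem_subgroupOf]; exact hzc
    rw [hz'] at h1
    have h2 : w = 1 := Subtype.ext h1
    rw [h2, orderOf_one] at hw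
    exact hp.one_lt.ne hw
  · have h1 : w ^ p = 1 := by rw [← hw]; exact pow_orderOf_eq_one w
    have h2 : ((w : ↥P ⧸ (centralizer (N : Set G)).subgroupOf P)) ^ p = 1 := by
      have := congrArg Subtype.val h1
      simpa using this
    rw [← hz', ← QuotientGroup.mk_pow, QuotientGroup.eq_one_iff, Subgroup.mem_subgroupOf] at h2
    simpa using h2
  · intro a ha
    have hwc := Subgroup.mem_center_iff.mp w.2
    have h1 : (QuotientGroup.mk (⟨a, ha⟩ * z' * ⟨a, ha⟩⁻¹ * z'⁻¹ : ↥P) :
        ↥P ⧸ (centralizer (N : Set G)).subgroupOf P) = 1 := by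
      rw [QuotientGroup.mk_mul, QuotientGroup.mk_mul, QuotientGroup.mk_mul, QuotientGroup.mk_inv,
        QuotientGroup.mk_inv, hz', hwc]
      group
    rw [QuotientGroup.eq_one_iff, Subgroup.mem_subgroupOf] at h1
    simpa using h1

/-- `(∏_{x ∈ P} |C_N(x)|)^p ≤ |N|^|P| * |C_N(P)|^((p-1)|P|)` for a `p`-group `P` normalising the
`p'`-subgroup `N`. -/
theorem pef_GM {P : Subgroup G} (hP : IsPGroup p P) :
    ∀ (k : ℕ) (N : Subgroup G), Nat.card N = k → P ≤ normalizer (N : Set G) →
      (Nat.card N).Coprime p →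
      (∏ᶠ x : P, Nat.card (N ⊓ centralizer ({(x : G)} : Set G) : Subgroup G)) ^ p ≤
        Nat.card N ^ Nat.card P *
          Nat.card (N ⊓ centralizer (P : Set G) : Subgroup G) ^ ((p - 1) * Nat.card P) := by
  classical
  let _ : Fintype P := Fintype.ofFinite P
  have hp : p.Prime := Fact.out
  intro k
  induction k using Nat.strong_induction_on with
  | _ k ih =>
    intro N hk hPN hN
    rw [finprod_eq_prod_of_fintype]
    by_cases hcent : P ≤ centralizer (N : Set G)
    · have h1 : ∀ x : P, N ⊓ centralizer ({(x : G)} : Set G) = N := by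
        intro x
        apply inf_of_le_left
        intro n hn
        rw [Subgroup.mem_centralizer_iff]
        intro w hw
        rw [Set.mem_singleton_iff] at hw
        subst hw
        exact ((Subgroup.mem_centralizer_iff.mp (hcent x.2)) n hn).symm
      have h2 : N ⊓ centralizer (P : Set G) = N :=
        inf_of_le_left (Subgroup.le_centralizer_iff.mp hcent)
      simp only [h1, h2, Finset.prod_const, Finset.card_univ]
      rw [← Nat.card_eq_fintype_card (α := P), ← pow_mul, ← pow_add]
      apply le_of_eq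
      congr 1
      calc Nat.card P * p = Nat.card P * ((p - 1) + 1) := by
            rw [Nat.sub_add_cancel hp.one_lt.le]
        _ = Nat.card P + (p - 1) * Nat.card P := by ring
    · obtain ⟨z, hzP, hznc, hzp, hzcomm⟩ := pef_exists_central hP hPN hcent
      have hzN : z ∈ normalizer (N : Set G) := hPN hzP
      have hzc : ∀ a ∈ P, z ∈ pefComm N a := fun a ha =>
        pefComm_symm (pefComm_of_comm_mem (hPN ha) hzN (hzcomm a ha)) hzN
      have hPN0 : P ≤ normalizer ((N ⊓ centralizer ({z} : Set G) : Subgroup G) : Set G) := by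
        rw [← pef_centralizer_zpowers]
        exact pef_inv_fix le_rfl hPN (fun a ha => (Subgroup.zpowers_le).mpr (hzc a ha))
      have hN0lt : Nat.card (N ⊓ centralizer ({z} : Set G) : Subgroup G) < Nat.card N := by
        by_contra hcon
        have heq : N ⊓ centralizer ({z} : Set G) = N :=
          Subgroup.eq_of_le_of_card_ge inf_le_left (not_lt.mp hcon)
        apply hznc
        rw [Subgroup.mem_centralizer_iff]
        intro n hn
        have hn' : n ∈ N ⊓ centralizer ({z} : Set G) := by rw [heq]; exact hn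
        exact ((Subgroup.mem_centralizer_iff.mp hn'.2) z rfl).symm
      have hN0cop : (Nat.card (N ⊓ centralizer ({z} : Set G) : Subgroup G)).Coprime p :=
        Nat.Coprime.coprime_dvd_left (Subgroup.card_dvd_of_le inf_le_left) hN
      have hIH := ih _ (hk ▸ hN0lt) (N ⊓ centralizer ({z} : Set G)) rfl hPN0 hN0cop
      rw [finprod_eq_prod_of_fintype] at hIH
      have hcP : N ⊓ centralizer ({z} : Set G) ⊓ centralizer (P : Set G) =
          N ⊓ centralizer (P : Set G) := by
        rw [inf_assoc]
        congr 1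
        exact inf_of_le_right (Subgroup.centralizer_le (by simpa using hzP))
      rw [hcP] at hIH
      -- the key inequality for each `x`
      have hK : ∀ x : P, Nat.card (N ⊓ centralizer ({z} : Set G) : Subgroup G) *
          ∏ i ∈ Finset.range p, Nat.card (N ⊓ centralizer ({(x : G) * z ^ i} : Set G) : Subgroup G)
          ≤ Nat.card N *
            Nat.card (N ⊓ centralizer ({z} : Set G) ⊓ centralizer ({(x : G)} : Set G) :
              Subgroup G) ^ p := by
        intro x
        have hxx : (x : G) ∈ pefComm N (x : G) := ⟨hPN x.2, fun n _ => rfl⟩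
        have h := pef_K (A := P ⊓ pefComm N (x : G)) (N := N) (x := (x : G)) (z := z)
          (hP.to_le inf_le_left) (inf_le_left.trans hPN) hN ⟨x.2, hxx⟩ ⟨hzP, hzc x x.2⟩
          (fun a ha => pefComm_symm ha.2 (hPN x.2)) (fun a ha => hzc a ha.1) hzp
        rw [Finset.prod_range_succ] at h
        have e1 : pefG (x : G) z p p = z := by unfold pefG; rw [if_neg (lt_irrefl p)]
        have e2 : ∀ i ∈ Finset.range p,
            Nat.card (N ⊓ centralizer ((zpowers (pefG (x : G) z p i) : Subgroup G) : Set G) :
              Subgroup G) =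
            Nat.card (N ⊓ centralizer ({(x : G) * z ^ i} : Set G) : Subgroup G) := by
          intro i hi
          have : pefG (x : G) z p i = (x : G) * z ^ i := by
            unfold pefG; rw [if_pos (Finset.mem_range.mp hi)]
          rw [this, pef_centralizer_zpowers]
        have e3 : N ⊓ centralizer ((closure {(x : G), z} : Subgroup G) : Set G) =
            N ⊓ centralizer ({z} : Set G) ⊓ centralizer ({(x : G)} : Set G) := by
          rw [pef_centralizer_closure, pef_centralizer_pair,
            inf_comm (centralizer ({(x : G)} : Set G)), ← inf_assoc]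
        rw [Finset.prod_congr rfl e2, e1, pef_centralizer_zpowers, e3] at h
        rw [mul_comm]
        exact h
      -- multiply over `x ∈ P`
      have hprod := Finset.prod_le_prod' (s := (Finset.univ : Finset P)) (fun x _ => hK x)
      rw [Finset.prod_mul_distrib, Finset.prod_mul_distrib, Finset.prod_const, Finset.prod_const,
        Finset.prod_pow, Finset.card_univ, Finset.prod_comm] at hprod
      have hre : ∀ i ∈ Finset.range p,
          ∏ x : P, Nat.card (N ⊓ centralizer ({(x : G) * z ^ i} : Set G) : Subgroup G) =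
          ∏ x : P, Nat.card (N ⊓ centralizer ({(x : G)} : Set G) : Subgroup G) := by
        intro i _
        exact Fintype.prod_equiv (Equiv.mulRight (⟨z ^ i, P.pow_mem hzP i⟩ : P))
          (fun x : P => Nat.card (N ⊓ centralizer ({(x : G) * z ^ i} : Set G) : Subgroup G))
          (fun x : P => Nat.card (N ⊓ centralizer ({(x : G)} : Set G) : Subgroup G))
          (fun x => rfl)
      rw [Finset.prod_congr rfl hre, Finset.prod_const, Finset.card_range] at hprod
      rw [← Nat.card_eq_fintype_card] at hprod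
      have hfin : Nat.card (N ⊓ centralizer ({z} : Set G) : Subgroup G) ^ Nat.card P *
          (∏ x : P, Nat.card (N ⊓ centralizer ({(x : G)} : Set G) : Subgroup G)) ^ p ≤
          Nat.card (N ⊓ centralizer ({z} : Set G) : Subgroup G) ^ Nat.card P *
          (Nat.card N ^ Nat.card P *
            Nat.card (N ⊓ centralizer (P : Set G) : Subgroup G) ^ ((p - 1) * Nat.card P)) := by
        calc _ ≤ Nat.card N ^ Nat.card P *
              (∏ x : P, Nat.card (N ⊓ centralizer ({z} : Set G) ⊓
                centralizer ({(x : G)} : Set G) : Subgroup G)) ^ p := hprod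
          _ ≤ Nat.card N ^ Nat.card P *
              (Nat.card (N ⊓ centralizer ({z} : Set G) : Subgroup G) ^ Nat.card P *
                Nat.card (N ⊓ centralizer (P : Set G) : Subgroup G) ^ ((p - 1) * Nat.card P)) :=
            Nat.mul_le_mul_left _ hIH
          _ = _ := by ring
      exact Nat.le_of_mul_le_mul_left hfin (pow_pos Nat.card_pos _)

end pefGM

end Cfsg.Agent.Helper20
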