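/-
Helper library of seat helper20: the number `ν(x)` of Sylow `p`-subgroups containing an element,
its behaviour under quotients by normal `p`- and `p'`-subgroups, and the inequality
`(∏_{x ∈ P} ν(x))^p ≤ n^|P|` for `p`-solvable groups.
-/
import Cfsg.Agent.Helper20.PEltGM
import Cfsg.Agent.Helper76.PSolvable

set_option autoImplicit false

namespace Cfsg.Agent.Helper20

open Subgroup
open scoped Pointwise

universe u

section pefCount

/-- fibre counting -/
theorem pef_card_of_fibers {α β : Type*} [Finite α] [Finite β] (f : α → β) (c d : ℕ)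
    (h : ∀ b : β, Nat.card {a : α // f a = b} * c = d) : Nat.card α * c = Nat.card β * d := by
  classical
  let _ : Fintype β := Fintype.ofFinite β
  rw [← Nat.card_congr (Equiv.sigmaFiberEquiv f), Nat.card_sigma, Finset.sum_mul,
    Finset.sum_congr rfl (fun b _ => h b), Finset.sum_const, Finset.card_univ, smul_eq_mul,
    Nat.card_eq_fintype_card]

/-- a surjective homomorphism splits the source as target times kernel -/
noncomputable def pefSurjEquiv {A B : Type*} [Group A] [Group B] (φ : A →* B)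
    (hφ : Function.Surjective φ) : A ≃ B × φ.ker where
  toFun a := (φ a, ⟨(Function.surjInv hφ (φ a))⁻¹ * a, by
    rw [MonoidHom.mem_ker, map_mul, map_inv, Function.surjInv_eq hφ, inv_mul_cancel]⟩)
  invFun bk := Function.surjInv hφ bk.1 * bk.2.1
  left_inv a := by simp
  right_inv bk := by
    have h1 : φ (bk.2 : A) = 1 := MonoidHom.mem_ker.mp bk.2.2
    have h2 : φ (Function.surjInv hφ bk.1 * bk.2.1) = bk.1 := by
      rw [map_mul, h1, mul_one, Function.surjInv_eq hφ]
    apply Prod.ext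
    · exact h2
    · apply Subtype.ext
      simp only [h2]
      group

theorem pefSurjEquiv_fst {A B : Type*} [Group A] [Group B] (φ : A →* B)
    (hφ : Function.Surjective φ) (a : A) : (pefSurjEquiv φ hφ a).1 = φ a := rfl

theorem pef_card_surj {A B : Type*} [Group A] [Group B] (φ : A →* B)
    (hφ : Function.Surjective φ) : Nat.card A = Nat.card B * Nat.card φ.ker := by
  rw [Nat.card_congr (pefSurjEquiv φ hφ), Nat.card_prod]

theorem pef_finprod_comp_surj {A B : Type*} [Group A] [Group B] [Finite A] (φ : A →* B)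
    (hφ : Function.Surjective φ) (g : B → ℕ) :
    ∏ᶠ a : A, g (φ a) = (∏ᶠ b : B, g b) ^ Nat.card φ.ker := by
  classical
  have : Finite B := Finite.of_surjective φ hφ
  let _ : Fintype A := Fintype.ofFinite A
  let _ : Fintype B := Fintype.ofFinite B
  let _ : Fintype φ.ker := Fintype.ofFinite _
  rw [finprod_eq_prod_of_fintype, finprod_eq_prod_of_fintype, Nat.card_eq_fintype_card,
    Fintype.prod_equiv (pefSurjEquiv φ hφ) (fun a => g (φ a)) (fun bk => g bk.1) (fun a => rfl),
    Fintype.prod_prod_type]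
  simp only [Finset.prod_const, Finset.card_univ, Finset.prod_pow]

end pefCount

section pefNu

variable {G : Type u} [Group G] [Finite G] {p : ℕ} [Fact p.Prime]

/-- the number of Sylow `p`-subgroups containing `x` -/
noncomputable def pefNu (p : ℕ) {G : Type*} [Group G] (x : G) : ℕ :=
  Nat.card {Q : Sylow p G // x ∈ Q}

/-- the inequality `(∏_{x ∈ P} ν(x))^p ≤ n^|P|` for all Sylow `p`-subgroups `P` -/
def PefE (p : ℕ) (G : Type*) [Group G] : Prop :=
  ∀ P : Sylow p G, (∏ᶠ x : (P : Subgroup G), pefNu p (x : G)) ^ p ≤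
    Nat.card (Sylow p G) ^ Nat.card (P : Subgroup G)

omit [Finite G] [Fact p.Prime] in
theorem pefNu_one : pefNu p (1 : G) = Nat.card (Sylow p G) :=
  Nat.card_congr (Equiv.subtypeUnivEquiv (fun _ => one_mem _))

/-- Sylow subgroups of `G` and of `G ⧸ Y` correspond, for a normal `p`-subgroup `Y` -/
noncomputable def pefSylowEquiv (Y : Subgroup G) [Y.Normal] (hY : IsPGroup p Y) :
    Sylow p G ≃ Sylow p (G ⧸ Y) :=
  Equiv.ofBijective (fun Q => Q.mapSurjective (QuotientGroup.mk'_surjective Y)) ⟨by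
    intro Q1 Q2 h
    have h' : (Q1 : Subgroup G).map (QuotientGroup.mk' Y) =
        (Q2 : Subgroup G).map (QuotientGroup.mk' Y) :=
      congrArg (fun Q : Sylow p (G ⧸ Y) => (Q : Subgroup (G ⧸ Y))) h
    apply Sylow.ext
    have h1 := congrArg (Subgroup.comap (QuotientGroup.mk' Y)) h'
    rw [Subgroup.comap_map_eq, Subgroup.comap_map_eq, QuotientGroup.ker_mk',
      sup_eq_left.mpr (hY.le_sylow_of_normal Q1), sup_eq_left.mpr (hY.le_sylow_of_normal Q2)] at h1
    exact h1, Sylow.mapSurjective_surjective _ p⟩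

theorem pef_mem_iff_quot_pgroup (Y : Subgroup G) [Y.Normal] (hY : IsPGroup p Y) (x : G)
    (Q : Sylow p G) : x ∈ Q ↔ QuotientGroup.mk' Y x ∈ pefSylowEquiv Y hY Q := by
  constructor
  · intro h
    exact Subgroup.mem_map_of_mem _ h
  · intro h
    obtain ⟨q, hq, hqx⟩ := Subgroup.mem_map.mp h
    have h1 : q⁻¹ * x ∈ Y := by
      have := hqx
      rw [QuotientGroup.mk'_apply, QuotientGroup.mk'_apply, QuotientGroup.eq] at this
      exact this
    have h2 : x = q * (q⁻¹ * x) := by group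
    rw [h2]
    exact mul_mem hq (hY.le_sylow_of_normal Q h1)

theorem pef_nu_quot_pgroup (Y : Subgroup G) [Y.Normal] (hY : IsPGroup p Y) (x : G) :
    pefNu p (QuotientGroup.mk' Y x) = pefNu p x :=
  (Nat.card_congr ((pefSylowEquiv Y hY).subtypeEquiv
    (fun Q => pef_mem_iff_quot_pgroup Y hY x Q))).symm

theorem pef_card_sylow_quot_pgroup (Y : Subgroup G) [Y.Normal] (hY : IsPGroup p Y) :
    Nat.card (Sylow p (G ⧸ Y)) = Nat.card (Sylow p G) :=
  (Nat.card_congr (pefSylowEquiv Y hY)).symm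

theorem pef_E_of_quot_pgroup (Y : Subgroup G) [Y.Normal] (hY : IsPGroup p Y)
    (hE : PefE p (G ⧸ Y)) : PefE p G := by
  intro P
  have hπ : Function.Surjective (QuotientGroup.mk' Y) := QuotientGroup.mk'_surjective Y
  have h1 := hE (P.mapSurjective hπ)
  rw [Sylow.coe_mapSurjective] at h1
  have hφ : Function.Surjective ((QuotientGroup.mk' Y).subgroupMap (P : Subgroup G)) :=
    (QuotientGroup.mk' Y).subgroupMap_surjective _
  have h2 := pef_finprod_comp_surj _ hφ (fun y => pefNu p (y : G ⧸ Y))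
  have h3 := pef_card_surj _ hφ
  have h4 : ∏ᶠ x : (P : Subgroup G), pefNu p (x : G) =
      ∏ᶠ x : (P : Subgroup G),
        pefNu p (((QuotientGroup.mk' Y).subgroupMap (P : Subgroup G) x : _) : G ⧸ Y) := by
    apply finprod_congr
    intro x
    exact (pef_nu_quot_pgroup Y hY x).symm
  rw [h4, h2, ← pef_card_sylow_quot_pgroup Y hY, h3]
  calc ((∏ᶠ y : ((P : Subgroup G).map (QuotientGroup.mk' Y) : Subgroup (G ⧸ Y)),
          pefNu p (y : G ⧸ Y)) ^ Nat.card ((QuotientGroup.mk' Y).subgroupMap (P : Subgroup G)).ker) ^ p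
      = ((∏ᶠ y : ((P : Subgroup G).map (QuotientGroup.mk' Y) : Subgroup (G ⧸ Y)),
          pefNu p (y : G ⧸ Y)) ^ p) ^
            Nat.card ((QuotientGroup.mk' Y).subgroupMap (P : Subgroup G)).ker := by
        rw [← pow_mul, ← pow_mul, mul_comm]
    _ ≤ (Nat.card (Sylow p (G ⧸ Y)) ^
          Nat.card ((P : Subgroup G).map (QuotientGroup.mk' Y) : Subgroup (G ⧸ Y))) ^
            Nat.card ((QuotientGroup.mk' Y).subgroupMap (P : Subgroup G)).ker :=
        Nat.pow_le_pow_left h1 _
    _ = _ := (pow_mul _ _ _).symm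

/-! ### quotient by a normal `p'`-subgroup -/

omit [Finite G] [Fact p.Prime] in
theorem pef_le_normalizer_normal (Y : Subgroup G) [hYn : Y.Normal] (R : Subgroup G) :
    R ≤ normalizer (Y : Set G) := by
  intro g _
  rw [Subgroup.mem_normalizer_iff]
  intro y
  exact ⟨fun hy => hYn.conj_mem y hy g, fun hy => by
    have := hYn.conj_mem _ hy g⁻¹
    simpa [mul_assoc] using this⟩

omit [Finite G] [Fact p.Prime] in
theorem pef_mem_sup_of_map_mem (Y : Subgroup G) [Y.Normal] (R : Subgroup G) {x : G}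
    (hx : QuotientGroup.mk' Y x ∈ R.map (QuotientGroup.mk' Y)) : x ∈ R ⊔ Y := by
  obtain ⟨q, hq, hqx⟩ := Subgroup.mem_map.mp hx
  have h1 : q⁻¹ * x ∈ Y := by
    have := hqx
    rw [QuotientGroup.mk'_apply, QuotientGroup.mk'_apply, QuotientGroup.eq] at this
    exact this
  have h2 : x = q * (q⁻¹ * x) := by group
  rw [h2]
  exact mul_mem (le_sup_left (a := R) (b := Y) hq) (le_sup_right (a := R) (b := Y) h1)

omit [Finite G] [Fact p.Prime] in
theorem pef_map_sup_normal (Y : Subgroup G) [Y.Normal] (R : Subgroup G) :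
    (R ⊔ Y).map (QuotientGroup.mk' Y) = R.map (QuotientGroup.mk' Y) := by
  rw [Subgroup.map_sup, QuotientGroup.map_mk'_self, sup_bot_eq]

/-- Sylow subgroups of the quotient containing the image of `x` lift to Sylow subgroups
containing `x`. -/
theorem pef_exists_sylow_map (Y : Subgroup G) [Y.Normal] (P R0 : Sylow p G) {x : G} (hx : x ∈ P)
    (hxR : QuotientGroup.mk' Y x ∈ (R0 : Subgroup G).map (QuotientGroup.mk' Y)) :
    ∃ R : Sylow p G, x ∈ R ∧ (R : Subgroup G).map (QuotientGroup.mk' Y) =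
      (R0 : Subgroup G).map (QuotientGroup.mk' Y) := by
  have hxH : x ∈ (R0 : Subgroup G) ⊔ Y := pef_mem_sup_of_map_mem Y _ hxR
  have hle : (R0 : Subgroup G) ≤ (R0 : Subgroup G) ⊔ Y := le_sup_left
  have hR0 : (R0 : Subgroup G) ∈ Helper35.sylowSet p ((R0 : Subgroup G) ⊔ Y) := by
    have := Helper35.sylow_map_mem_sylowSet (R0.subtype hle)
    rwa [Sylow.coe_subtype, Subgroup.map_subgroupOf_eq_of_le hle] at this
  have hU : IsPGroup p (((P : Subgroup G) ⊓ ((R0 : Subgroup G) ⊔ Y)).subgroupOf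
      ((R0 : Subgroup G) ⊔ Y)) := (P.2.to_le inf_le_left).comap_subtype
  obtain ⟨Q, hQ⟩ := hU.exists_le_sylow
  have hT := Helper35.sylow_map_mem_sylowSet Q
  have hxT : x ∈ (Q : Subgroup ((R0 : Subgroup G) ⊔ Y : Subgroup G)).map
      ((R0 : Subgroup G) ⊔ Y : Subgroup G).subtype := by
    refine Subgroup.mem_map.mpr ⟨⟨x, hxH⟩, hQ ?_, rfl⟩
    rw [Subgroup.mem_subgroupOf]
    exact ⟨hx, hxH⟩
  obtain ⟨k, hk, hkT⟩ := Helper35.sylowSet_trans hR0 hT
  refine ⟨k • R0, ?_, ?_⟩
  · have h1 : ((k • R0 : Sylow p G) : Subgroup G) = MulAut.conj k • (R0 : Subgroup G) :=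
      Sylow.coe_subgroup_smul
    have h2 : x ∈ ((k • R0 : Sylow p G) : Subgroup G) := by
      rw [h1, hkT]
      exact hxT
    exact h2
  · rw [Sylow.coe_subgroup_smul, Helper35.map_conj_smul]
    apply Helper35.conj_smul_eq_self_of_mem
    rw [← pef_map_sup_normal Y]
    exact Subgroup.mem_map_of_mem _ hk

omit [Finite G] [Fact p.Prime] in
theorem pef_inf_centralizer_conj (Y : Subgroup G) [hYn : Y.Normal] (g : G) (P : Subgroup G) :
    (Y ⊓ centralizer ((MulAut.conj g • P : Subgroup G) : Set G) : Subgroup G) =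
      MulAut.conj g • (Y ⊓ centralizer (P : Set G) : Subgroup G) := by
  ext z
  rw [Helper35.mem_conj_smul, Subgroup.mem_inf, Subgroup.mem_inf, Subgroup.mem_centralizer_iff,
    Subgroup.mem_centralizer_iff]
  constructor
  · rintro ⟨h1, h2⟩
    refine ⟨by simpa using hYn.conj_mem z h1 g⁻¹, fun w hw => ?_⟩
    have h3 := h2 (g * w * g⁻¹) (Helper35.conj_mem_conj_smul hw)
    calc w * (g⁻¹ * z * g) = g⁻¹ * ((g * w * g⁻¹) * z) * g := by group
      _ = g⁻¹ * (z * (g * w * g⁻¹)) * g := by rw [h3]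
      _ = g⁻¹ * z * g * w := by group
  · rintro ⟨h1, h2⟩
    refine ⟨by simpa [mul_assoc] using hYn.conj_mem _ h1 g, fun w hw => ?_⟩
    have hw' : g⁻¹ * w * g ∈ P := Helper35.mem_conj_smul.mp hw
    have h3 := h2 _ hw'
    calc w * z = g * ((g⁻¹ * w * g) * (g⁻¹ * z * g)) * g⁻¹ := by group
      _ = g * ((g⁻¹ * z * g) * (g⁻¹ * w * g)) * g⁻¹ := by rw [h3]
      _ = z * w := by group

theorem pef_card_inf_centralizer_sylow (Y : Subgroup G) [Y.Normal] (P R : Sylow p G) :
    Nat.card (Y ⊓ centralizer ((R : Subgroup G) : Set G) : Subgroup G) =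
      Nat.card (Y ⊓ centralizer ((P : Subgroup G) : Set G) : Subgroup G) := by
  obtain ⟨g, hg⟩ := MulAction.exists_smul_eq G P R
  rw [← hg, Sylow.coe_subgroup_smul, pef_inf_centralizer_conj, Helper35.card_conj_smul]

theorem pef_sylow_inf_eq_bot (Y : Subgroup G) (hY : (Nat.card Y).Coprime p) (R : Sylow p G) :
    (R : Subgroup G) ⊓ Y = ⊥ :=
  (Subgroup.disjoint_of_coprime_natCard (pef_coprime R.2 hY)).eq_bot

/-- the fibre of `Q ↦ Q Y / Y` through `R`, among the Sylow subgroups containing `x`, is the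
orbit of `R` under `C_Y(x)` -/
theorem pef_fiber_iff (Y : Subgroup G) [hYn : Y.Normal] (hY : (Nat.card Y).Coprime p)
    (R : Sylow p G) {x : G} (hxR : x ∈ R) (Q : Sylow p G) :
    (x ∈ Q ∧ (Q : Subgroup G).map (QuotientGroup.mk' Y) =
        (R : Subgroup G).map (QuotientGroup.mk' Y)) ↔
      ∃ k ∈ (Y ⊓ centralizer ({x} : Set G) : Subgroup G), k • R = Q := by
  constructor
  · rintro ⟨hxQ, hmap⟩
    have hbot := pef_sylow_inf_eq_bot Y hY R
    have hQle : (Q : Subgroup G) ≤ (R : Subgroup G) ⊔ Y := by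
      intro q hq
      apply pef_mem_sup_of_map_mem Y
      rw [← hmap]
      exact Subgroup.mem_map_of_mem _ hq
    have hcard : Nat.card (Q : Subgroup G) = Nat.card (R : Subgroup G) := by
      rw [Sylow.card_eq_multiplicity, Sylow.card_eq_multiplicity]
    have hM := pef_card_sup_mul_card_inf (R : Subgroup G) Y (pef_le_normalizer_normal Y _)
    rw [hbot, Subgroup.card_bot, mul_one] at hM
    have hidx : ¬ p ∣ Nat.card ((R : Subgroup G) ⊔ Y : Subgroup G) /
        Nat.card (R : Subgroup G) := by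
      rw [hM, Nat.mul_div_cancel_left _ Nat.card_pos]
      intro h
      have h1 : p ∣ Nat.gcd (Nat.card Y) p := Nat.dvd_gcd h dvd_rfl
      rw [hY] at h1
      exact (Fact.out : p.Prime).one_lt.ne' (Nat.eq_one_of_dvd_one h1)
    obtain ⟨m, hm, hmQ⟩ := Helper35.exists_conj_of_sylow (le_sup_left) hQle R.2 hcard hidx
    have hm' : m ∈ Y ⊔ (R : Subgroup G) := by rwa [sup_comm]
    obtain ⟨k, hk, r, hr, rfl⟩ :=
      Helper35.exists_mul_of_mem_sup_of_le_normalizer (pef_le_normalizer_normal Y _) hm'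
    have hkQ : MulAut.conj k • (R : Subgroup G) = Q := by
      rw [← hmQ, ← Helper35.conj_smul_conj_smul, Helper35.conj_smul_eq_self_of_mem hr]
    have hkx : k⁻¹ * x * k ∈ (R : Subgroup G) := by
      rw [← Helper35.mem_conj_smul, hkQ]
      exact hxQ
    have h1 : x⁻¹ * (k⁻¹ * x * k) ∈ (R : Subgroup G) ⊓ Y := by
      refine Subgroup.mem_inf.mpr ⟨mul_mem (inv_mem hxR) hkx, ?_⟩
      have h : x⁻¹ * (k⁻¹ * x * k) = (x⁻¹ * k⁻¹ * x⁻¹⁻¹) * k := by group
      rw [h]
      exact mul_mem (hYn.conj_mem _ (inv_mem hk) _) hk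
    rw [hbot, Subgroup.mem_bot] at h1
    have h2 : x * k = k * x := by
      have h3 : k⁻¹ * x * k = x := by
        have := congrArg (fun t => x * t) h1
        simpa [mul_assoc] using this
      calc x * k = k * (k⁻¹ * x * k) := by group
        _ = k * x := by rw [h3]
    refine ⟨k, Subgroup.mem_inf.mpr ⟨hk, ?_⟩, ?_⟩
    · rw [Subgroup.mem_centralizer_iff]
      intro w hw
      rw [Set.mem_singleton_iff] at hw
      subst hw
      exact h2
    · exact Sylow.ext hkQ
  · rintro ⟨k, hk, rfl⟩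
    obtain ⟨hkY, hkc⟩ := Subgroup.mem_inf.mp hk
    have hkx : x * k = k * x := Subgroup.mem_centralizer_iff.mp hkc x rfl
    constructor
    · have h1 : x ∈ MulAut.conj k • (R : Subgroup G) := by
        rw [Helper35.mem_conj_smul]
        have h2 : k⁻¹ * x * k = x := by rw [mul_assoc, hkx, inv_mul_cancel_left]
        rw [h2]
        exact hxR
      exact h1
    · rw [Sylow.coe_subgroup_smul, Helper35.map_conj_smul]
      have h1 : QuotientGroup.mk' Y k = 1 := (QuotientGroup.eq_one_iff k).mpr hkY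
      rw [h1, map_one, one_smul]

theorem pef_fiber_card (Y : Subgroup G) [Y.Normal] (hY : (Nat.card Y).Coprime p)
    (P R : Sylow p G) {x : G} (hxR : x ∈ R) :
    Nat.card {Q : Sylow p G // x ∈ Q ∧ (Q : Subgroup G).map (QuotientGroup.mk' Y) =
        (R : Subgroup G).map (QuotientGroup.mk' Y)} *
      Nat.card (Y ⊓ centralizer ((P : Subgroup G) : Set G) : Subgroup G) =
    Nat.card (Y ⊓ centralizer ({x} : Set G) : Subgroup G) := by
  have h1 : Nat.card {Q : Sylow p G // x ∈ Q ∧ (Q : Subgroup G).map (QuotientGroup.mk' Y) =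
        (R : Subgroup G).map (QuotientGroup.mk' Y)} =
      Nat.card (MulAction.orbit (Y ⊓ centralizer ({x} : Set G) : Subgroup G) R) := by
    apply Nat.card_congr
    apply Equiv.subtypeEquivRight
    intro Q
    rw [pef_fiber_iff Y hY R hxR Q, MulAction.mem_orbit_iff]
    constructor
    · rintro ⟨k, hk, hkQ⟩
      exact ⟨⟨k, hk⟩, hkQ⟩
    · rintro ⟨k, hkQ⟩
      exact ⟨k.1, k.2, hkQ⟩
  have hbot := pef_sylow_inf_eq_bot Y hY R
  have h2 : Nat.card (MulAction.stabilizer (Y ⊓ centralizer ({x} : Set G) : Subgroup G) R) =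
      Nat.card (Y ⊓ centralizer ((R : Subgroup G) : Set G) : Subgroup G) := by
    apply Nat.card_congr
    refine
      { toFun := fun k => ⟨(k.1 : G), ?_⟩
        invFun := fun z => ⟨⟨z.1, ?_⟩, ?_⟩
        left_inv := fun k => rfl
        right_inv := fun z => rfl }
    · have hk1 : ((k.1 : G)) • R = R := MulAction.mem_stabilizer_iff.mp k.2
      have hk2 : (k.1 : G) ∈ normalizer ((R : Subgroup G) : Set G) :=
        Sylow.smul_eq_iff_mem_normalizer.mp hk1
      have hk3 : (k.1 : G) ∈ Y := (Subgroup.mem_inf.mp k.1.2).1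
      exact Subgroup.mem_inf.mpr ⟨hk3, Helper35.mem_centralizer_of_mem_normalizer
        (pef_le_normalizer_normal Y _) hbot hk3 hk2⟩
    · obtain ⟨hz1, hz2⟩ := Subgroup.mem_inf.mp z.2
      exact Subgroup.mem_inf.mpr ⟨hz1,
        Subgroup.centralizer_le (Set.singleton_subset_iff.mpr hxR) hz2⟩
    · obtain ⟨hz1, hz2⟩ := Subgroup.mem_inf.mp z.2
      rw [MulAction.mem_stabilizer_iff]
      exact Sylow.smul_eq_iff_mem_normalizer.mpr (Subgroup.centralizer_le_normalizer _ hz2)
  rw [h1, ← pef_card_inf_centralizer_sylow Y P R, ← h2, ← Nat.card_prod]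
  exact Nat.card_congr (MulAction.orbitProdStabilizerEquivGroup _ R)

/-- `ν_G(x) |C_Y(P)| = ν_{G/Y}(xY) |C_Y(x)|` for a normal `p'`-subgroup `Y` and `x ∈ P`. -/
theorem pef_nu_quot (Y : Subgroup G) [Y.Normal] (hY : (Nat.card Y).Coprime p) (P : Sylow p G)
    {x : G} (hx : x ∈ P) :
    pefNu p x * Nat.card (Y ⊓ centralizer ((P : Subgroup G) : Set G) : Subgroup G) =
      pefNu p (QuotientGroup.mk' Y x) *
        Nat.card (Y ⊓ centralizer ({x} : Set G) : Subgroup G) := by
  have hπ : Function.Surjective (QuotientGroup.mk' Y) := QuotientGroup.mk'_surjective Y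
  let f : {Q : Sylow p G // x ∈ Q} → {Q' : Sylow p (G ⧸ Y) // QuotientGroup.mk' Y x ∈ Q'} :=
    fun Q => ⟨Q.1.mapSurjective hπ, Subgroup.mem_map_of_mem _ Q.2⟩
  apply pef_card_of_fibers f
  intro b
  obtain ⟨R0, hR0⟩ := Sylow.mapSurjective_surjective hπ p b.1
  have hR0' : (R0 : Subgroup G).map (QuotientGroup.mk' Y) = (b.1 : Subgroup (G ⧸ Y)) := by
    rw [← hR0]
    rfl
  have hb : QuotientGroup.mk' Y x ∈ (R0 : Subgroup G).map (QuotientGroup.mk' Y) := by
    rw [hR0']
    exact b.2
  obtain ⟨R, hxR, hRmap⟩ := pef_exists_sylow_map Y P R0 hx hb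
  rw [← pef_fiber_card Y hY P R hxR]
  congr 1
  apply Nat.card_congr
  refine
    { toFun := fun a => ⟨a.1.1, a.1.2, ?_⟩
      invFun := fun Q => ⟨⟨Q.1, Q.2.1⟩, ?_⟩
      left_inv := fun a => rfl
      right_inv := fun Q => rfl }
  · have h1 : (f a.1).1 = b.1 := congrArg Subtype.val a.2
    have h2 : (a.1.1 : Subgroup G).map (QuotientGroup.mk' Y) = (b.1 : Subgroup (G ⧸ Y)) := by
      rw [← h1]
      rfl
    rw [h2, hRmap, hR0']
  · apply Subtype.ext
    apply Sylow.ext
    show (Q.1 : Subgroup G).map (QuotientGroup.mk' Y) = (b.1 : Subgroup (G ⧸ Y))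
    rw [Q.2.2, hRmap, hR0']

theorem pef_E_of_quot_pprime (Y : Subgroup G) [Y.Normal] (hY : (Nat.card Y).Coprime p)
    (hE : PefE p (G ⧸ Y)) : PefE p G := by
  classical
  intro P
  have hπ : Function.Surjective (QuotientGroup.mk' Y) := QuotientGroup.mk'_surjective Y
  have h1 := hE (P.mapSurjective hπ)
  rw [Sylow.coe_mapSurjective] at h1
  have hφ : Function.Surjective ((QuotientGroup.mk' Y).subgroupMap (P : Subgroup G)) :=
    (QuotientGroup.mk' Y).subgroupMap_surjective _
  have hker : ((QuotientGroup.mk' Y).subgroupMap (P : Subgroup G)).ker = ⊥ := by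
    rw [eq_bot_iff]
    intro a ha
    rw [MonoidHom.mem_ker] at ha
    have h2 : QuotientGroup.mk' Y (a : G) = 1 := congrArg Subtype.val ha
    have h3 : (a : G) ∈ Y := (QuotientGroup.eq_one_iff _).mp h2
    have h4 : (a : G) ∈ (P : Subgroup G) ⊓ Y := Subgroup.mem_inf.mpr ⟨a.2, h3⟩
    rw [pef_sylow_inf_eq_bot Y hY P, Subgroup.mem_bot] at h4
    rw [Subgroup.mem_bot]
    exact Subtype.ext h4
  have hc1 : Nat.card ((QuotientGroup.mk' Y).subgroupMap (P : Subgroup G)).ker = 1 := by
    rw [hker, Subgroup.card_bot]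
  have h2 := pef_finprod_comp_surj _ hφ (fun y => pefNu p (y : G ⧸ Y))
  rw [hc1, pow_one] at h2
  have h3 := pef_card_surj _ hφ
  rw [hc1, mul_one] at h3
  rw [← h2, ← h3] at h1
  have hGM := pef_GM P.2 (Nat.card Y) Y rfl (pef_le_normalizer_normal Y _) hY
  have hb := pef_nu_quot Y hY P (one_mem _)
  rw [pefNu_one, map_one, pefNu_one] at hb
  have hY1 : (Y ⊓ centralizer ({(1 : G)} : Set G) : Subgroup G) = Y := by
    apply inf_eq_left.mpr
    intro y _
    rw [Subgroup.mem_centralizer_iff]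
    intro w hw
    rw [Set.mem_singleton_iff] at hw
    subst hw
    simp
  rw [hY1] at hb
  have hcYpos : 0 < Nat.card (Y ⊓ centralizer ((P : Subgroup G) : Set G) : Subgroup G) :=
    Nat.card_pos
  let _ : Fintype (P : Subgroup G) := Fintype.ofFinite _
  rw [finprod_eq_prod_of_fintype] at h1 hGM ⊢
  have hABC : (∏ x : (P : Subgroup G), pefNu p (x : G)) *
      Nat.card (Y ⊓ centralizer ((P : Subgroup G) : Set G) : Subgroup G) ^
        Nat.card (P : Subgroup G) =
      (∏ x : (P : Subgroup G),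
        pefNu p (((QuotientGroup.mk' Y).subgroupMap (P : Subgroup G) x : _) : G ⧸ Y)) *
      ∏ x : (P : Subgroup G), Nat.card (Y ⊓ centralizer ({(x : G)} : Set G) : Subgroup G) := by
    rw [Nat.card_eq_fintype_card (α := (P : Subgroup G)), ← Finset.card_univ, ← Finset.prod_const,
      ← Finset.prod_mul_distrib, ← Finset.prod_mul_distrib]
    apply Finset.prod_congr rfl
    intro x _
    exact pef_nu_quot Y hY P x.2
  have hp1 : ∀ c : ℕ, c + (p - 1) * c = p * c := by
    intro c
    obtain ⟨q, hq⟩ : ∃ q, p = q + 1 :=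
      Nat.exists_eq_succ_of_ne_zero (Fact.out : p.Prime).ne_zero
    rw [hq, Nat.add_sub_cancel]
    ring
  have key : (∏ x : (P : Subgroup G), pefNu p (x : G)) ^ p *
      Nat.card (Y ⊓ centralizer ((P : Subgroup G) : Set G) : Subgroup G) ^
        (p * Nat.card (P : Subgroup G)) ≤
      Nat.card (Sylow p G) ^ Nat.card (P : Subgroup G) *
      Nat.card (Y ⊓ centralizer ((P : Subgroup G) : Set G) : Subgroup G) ^
        (p * Nat.card (P : Subgroup G)) := by
    calc (∏ x : (P : Subgroup G), pefNu p (x : G)) ^ p *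
        Nat.card (Y ⊓ centralizer ((P : Subgroup G) : Set G) : Subgroup G) ^
          (p * Nat.card (P : Subgroup G))
        = ((∏ x : (P : Subgroup G), pefNu p (x : G)) *
          Nat.card (Y ⊓ centralizer ((P : Subgroup G) : Set G) : Subgroup G) ^
            Nat.card (P : Subgroup G)) ^ p := by
          rw [mul_pow, ← pow_mul, mul_comm p]
      _ = ((∏ x : (P : Subgroup G),
            pefNu p (((QuotientGroup.mk' Y).subgroupMap (P : Subgroup G) x : _) : G ⧸ Y)) *
          ∏ x : (P : Subgroup G),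
            Nat.card (Y ⊓ centralizer ({(x : G)} : Set G) : Subgroup G)) ^ p := by rw [hABC]
      _ = (∏ x : (P : Subgroup G),
            pefNu p (((QuotientGroup.mk' Y).subgroupMap (P : Subgroup G) x : _) : G ⧸ Y)) ^ p *
          (∏ x : (P : Subgroup G),
            Nat.card (Y ⊓ centralizer ({(x : G)} : Set G) : Subgroup G)) ^ p := mul_pow _ _ _
      _ ≤ Nat.card (Sylow p (G ⧸ Y)) ^ Nat.card (P : Subgroup G) *
          (Nat.card Y ^ Nat.card (P : Subgroup G) *
            Nat.card (Y ⊓ centralizer ((P : Subgroup G) : Set G) : Subgroup G) ^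
              ((p - 1) * Nat.card (P : Subgroup G))) := Nat.mul_le_mul h1 hGM
      _ = (Nat.card (Sylow p (G ⧸ Y)) * Nat.card Y) ^ Nat.card (P : Subgroup G) *
            Nat.card (Y ⊓ centralizer ((P : Subgroup G) : Set G) : Subgroup G) ^
              ((p - 1) * Nat.card (P : Subgroup G)) := by rw [mul_pow, mul_assoc]
      _ = (Nat.card (Sylow p G) *
            Nat.card (Y ⊓ centralizer ((P : Subgroup G) : Set G) : Subgroup G)) ^
              Nat.card (P : Subgroup G) *
            Nat.card (Y ⊓ centralizer ((P : Subgroup G) : Set G) : Subgroup G) ^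
              ((p - 1) * Nat.card (P : Subgroup G)) := by rw [hb]
      _ = _ := by rw [mul_pow, mul_assoc, ← pow_add, hp1]
  exact Nat.le_of_mul_le_mul_right key (pow_pos hcYpos _)

omit [Fact p.Prime] in
theorem pef_E_of_subsingleton [Subsingleton G] : PefE p G := by
  intro P
  have h1 : Nat.card (Sylow p G) = 1 := by
    rw [Nat.card_eq_one_iff_unique]
    exact ⟨⟨fun Q1 Q2 => Sylow.ext (Subgroup.ext (fun x => by
      rw [Subsingleton.elim x 1]
      simp))⟩, ⟨P⟩⟩
  have h2 : ∀ x : G, pefNu p x ≤ 1 := by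
    intro x
    rw [← h1]
    exact Finite.card_subtype_le _
  rw [h1, one_pow]
  have h3 : ∏ᶠ x : (P : Subgroup G), pefNu p (x : G) ≤ 1 := by
    let _ : Fintype (P : Subgroup G) := Fintype.ofFinite _
    rw [finprod_eq_prod_of_fintype]
    exact Finset.prod_le_one (fun _ _ => Nat.zero_le _) (fun x _ => h2 x)
  calc (∏ᶠ x : (P : Subgroup G), pefNu p (x : G)) ^ p ≤ 1 ^ p := Nat.pow_le_pow_left h3 p
    _ = 1 := one_pow p

theorem pef_E_aux (p : ℕ) [Fact p.Prime] : ∀ n : ℕ, ∀ (G : Type u) [Group G] [Finite G],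
    Nat.card G = n → Helper76.IsPSolvableElt p G → PefE p G := by
  intro n
  induction n using Nat.strong_induction_on with
  | _ n ih =>
    intro G _ _ hn hG
    by_cases hsub : Subsingleton G
    · exact pef_E_of_subsingleton
    · have hne : ¬ (⊤ : Subgroup G) ≤ ⊥ := by
        intro h
        apply hsub
        exact ⟨fun a b => by
          have ha : a ∈ (⊥ : Subgroup G) := h (Subgroup.mem_top a)
          have hb : b ∈ (⊥ : Subgroup G) := h (Subgroup.mem_top b)
          rw [Subgroup.mem_bot] at ha hb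
          rw [ha, hb]⟩
      obtain ⟨Y, hYn, -, hYne, hY⟩ := hG.exists_step ⊤ inferInstance ⊥ hne
      have hY1 : 1 < Nat.card Y := by
        rw [Subgroup.one_lt_card_iff_ne_bot]
        exact fun h => hYne (le_of_eq h)
      have hcard : Nat.card (G ⧸ Y) < n := by
        rw [← hn, Subgroup.card_eq_card_quotient_mul_card_subgroup Y]
        have : 0 < Nat.card (G ⧸ Y) := Nat.card_pos
        nlinarith
      have hEq := ih _ hcard (G ⧸ Y) rfl (hG.quotient Y)
      rcases hY with hY | hY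
      · refine pef_E_of_quot_pgroup Y ?_ hEq
        intro y
        obtain ⟨k, hk⟩ := hY y.1 y.2
        rw [Subgroup.mem_bot] at hk
        exact ⟨k, Subtype.ext (by simpa using hk)⟩
      · refine pef_E_of_quot_pprime Y ?_ hEq
        rw [Helper76.card_coprime_iff_forall_orderOf]
        intro y hy
        obtain ⟨m, hm, hk⟩ := hY y hy
        rw [Subgroup.mem_bot] at hk
        exact Nat.Coprime.coprime_dvd_left (orderOf_dvd_of_pow_eq_one hk) hm

theorem pef_E (hG : Helper76.IsPSolvableElt p G) : PefE p G := pef_E_aux p _ G rfl hG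

end pefNu

end Cfsg.Agent.Helper20
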