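/-
Helper library of seat helper20: Gheri's inequality `|P|^p n^(p-1) ≤ u^p` for `p`-solvable
groups (`n` the number of Sylow `p`-subgroups, `u` the number of `p`-elements).
-/
import Cfsg.Agent.Helper20.PEltNu
import Mathlib.Analysis.MeanInequalities

set_option autoImplicit false

namespace Cfsg.Agent.Helper20

open Subgroup
open scoped Pointwise

universe u

section pefMain

/-- a weighted AM-GM inequality for natural numbers -/
theorem pef_wamgm {ι : Type*} (V : Finset ι) (a : ι → ℕ) (ha : ∀ i ∈ V, 1 ≤ a i) :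
    (∑ i ∈ V, a i) ^ (∑ i ∈ V, a i) ≤ V.card ^ (∑ i ∈ V, a i) * ∏ i ∈ V, a i ^ a i := by
  have hprod : 0 < ∏ i ∈ V, a i ^ a i := Finset.prod_pos (fun i hi => pow_pos (ha i hi) _)
  rcases Nat.eq_zero_or_pos (∑ i ∈ V, a i) with h0 | hpos
  · rw [h0, pow_zero, pow_zero, one_mul]
    exact hprod
  · have hS : (0 : ℝ) < ∑ i ∈ V, (a i : ℝ) := by
      have : (0 : ℝ) < ((∑ i ∈ V, a i : ℕ) : ℝ) := by exact_mod_cast hpos
      rwa [Nat.cast_sum] at this
    have h1 := Real.geom_mean_le_arith_mean V (fun i => (a i : ℝ)) (fun i => ((a i : ℝ))⁻¹)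
      (fun i _ => Nat.cast_nonneg _) hS (fun i _ => inv_nonneg.mpr (Nat.cast_nonneg _))
    have h2 : ∑ i ∈ V, (a i : ℝ) * ((a i : ℝ))⁻¹ = (V.card : ℝ) := by
      rw [Finset.sum_congr rfl (fun i hi => mul_inv_cancel₀ (by
        have := ha i hi
        have h : (0 : ℝ) < (a i : ℝ) := by exact_mod_cast this
        exact h.ne'))]
      simp
    have h3 : ∏ i ∈ V, ((a i : ℝ))⁻¹ ^ ((a i : ℝ)) = (((∏ i ∈ V, a i ^ a i : ℕ) : ℝ))⁻¹ := by
      rw [Nat.cast_prod, ← Finset.prod_inv_distrib]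
      apply Finset.prod_congr rfl
      intro i _
      rw [Real.rpow_natCast, inv_pow, Nat.cast_pow]
    beta_reduce at h1
    rw [h2, h3, ← Nat.cast_sum] at h1
    have h4 := pow_le_pow_left₀ (Real.rpow_nonneg (inv_nonneg.mpr (Nat.cast_nonneg _)) _) h1
      (∑ i ∈ V, a i)
    rw [Real.rpow_inv_natCast_pow (inv_nonneg.mpr (Nat.cast_nonneg _)) hpos.ne', div_pow,
      inv_eq_one_div, div_le_div_iff₀ (by exact_mod_cast hprod)
        (pow_pos (by exact_mod_cast hpos) _), one_mul] at h4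
    exact_mod_cast h4

/-- the double counting behind Gheri's inequality -/
theorem pef_count {X 𝒬 : Type*} [Fintype X] [Fintype 𝒬] (mem : X → 𝒬 → Prop)
    [∀ x Q, Decidable (mem x Q)] (p m u : ℕ) (hp : 0 < p) (hm : 0 < m)
    (hn : 0 < Fintype.card 𝒬)
    (hsize : ∀ Q, (Finset.univ.filter (fun x => mem x Q)).card = m)
    (hE : ∀ Q, (∏ x ∈ Finset.univ.filter (fun x => mem x Q),
      (Finset.univ.filter (fun Q' => mem x Q')).card) ^ p ≤ Fintype.card 𝒬 ^ m)
    (hu : (Finset.univ.filter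
      (fun x => 0 < (Finset.univ.filter (fun Q' => mem x Q')).card)).card ≤ u) :
    m ^ p * Fintype.card 𝒬 ^ (p - 1) ≤ u ^ p := by
  classical
  set ν : X → ℕ := fun x => (Finset.univ.filter (fun Q' => mem x Q')).card with hν
  set V : Finset X := Finset.univ.filter (fun x => 0 < ν x) with hV
  set n := Fintype.card 𝒬 with hn'
  have hS : ∑ x ∈ V, ν x = n * m := by
    have h1 : ∑ x ∈ V, ν x = ∑ x, ν x := by
      rw [hV, Finset.sum_filter]
      apply Finset.sum_congr rfl
      intro x _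
      split_ifs with h
      · rfl
      · omega
    rw [h1]
    have h2 : ∀ x, ν x = ∑ Q, if mem x Q then 1 else 0 := by
      intro x
      rw [hν]
      simp only [Finset.card_filter]
    simp_rw [h2]
    rw [Finset.sum_comm]
    have h3 : ∀ Q, ∑ x, (if mem x Q then 1 else 0) = m := by
      intro Q
      rw [← Finset.card_filter]
      exact hsize Q
    simp_rw [h3]
    rw [Finset.sum_const, Finset.card_univ, smul_eq_mul]
  have hA : ∏ x ∈ V, ν x ^ ν x =
      ∏ Q, ∏ x ∈ Finset.univ.filter (fun x => mem x Q), ν x := by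
    have h1 : ∏ x ∈ V, ν x ^ ν x = ∏ x, ν x ^ ν x := by
      rw [hV, Finset.prod_filter]
      apply Finset.prod_congr rfl
      intro x _
      split_ifs with h
      · rfl
      · have h0 : ν x = 0 := by omega
        rw [h0, pow_zero]
    rw [h1]
    have h2 : ∀ x, ν x ^ ν x = ∏ Q, if mem x Q then ν x else 1 := by
      intro x
      rw [← Finset.prod_filter, Finset.prod_const]
    simp_rw [h2]
    rw [Finset.prod_comm]
    apply Finset.prod_congr rfl
    intro Q _
    rw [Finset.prod_filter]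
  have hAp : (∏ x ∈ V, ν x ^ ν x) ^ p ≤ n ^ (n * m) := by
    rw [hA, ← Finset.prod_pow]
    calc ∏ Q, (∏ x ∈ Finset.univ.filter (fun x => mem x Q), ν x) ^ p
        ≤ ∏ _Q : 𝒬, n ^ m :=
          Finset.prod_le_prod (fun _ _ => Nat.zero_le _) (fun Q _ => hE Q)
      _ = n ^ (n * m) := by rw [Finset.prod_const, Finset.card_univ, ← pow_mul, mul_comm]
  have hamgm := pef_wamgm V ν (fun x hx => (Finset.mem_filter.mp hx).2)
  rw [hS] at hamgm
  have hSpos : 0 < n * m := Nat.mul_pos hn hm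
  have key : ((n * m) ^ p) ^ (n * m) ≤ (u ^ p * n) ^ (n * m) := by
    calc ((n * m) ^ p) ^ (n * m) = ((n * m) ^ (n * m)) ^ p := by ring
      _ ≤ (V.card ^ (n * m) * ∏ x ∈ V, ν x ^ ν x) ^ p := Nat.pow_le_pow_left hamgm p
      _ = (V.card ^ p) ^ (n * m) * (∏ x ∈ V, ν x ^ ν x) ^ p := by ring
      _ ≤ (u ^ p) ^ (n * m) * n ^ (n * m) :=
          Nat.mul_le_mul (Nat.pow_le_pow_left (Nat.pow_le_pow_left hu p) _) hAp
      _ = (u ^ p * n) ^ (n * m) := (mul_pow _ _ _).symm
  have key2 : (n * m) ^ p ≤ u ^ p * n := (Nat.pow_le_pow_iff_left hSpos.ne').mp key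
  obtain ⟨q, rfl⟩ : ∃ q, p = q + 1 := Nat.exists_eq_succ_of_ne_zero hp.ne'
  rw [Nat.add_sub_cancel]
  have h5 : (n * m) ^ (q + 1) = (m ^ (q + 1) * n ^ q) * n := by ring
  rw [h5] at key2
  exact Nat.le_of_mul_le_mul_right key2 hn

/-- **Gheri's inequality** for `p`-solvable groups. -/
theorem pef_main {G : Type u} [Group G] [Finite G] (p : ℕ) [Fact p.Prime]
    (hG : Cfsg.IsPSolvable p G) (P : Sylow p G) :
    Nat.card (P : Subgroup G) ^ p * Nat.card (Sylow p G) ^ (p - 1) ≤
      Nat.card {g : G // ∃ k : ℕ, orderOf g = p ^ k} ^ p := by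
  classical
  have hE := pef_E (Helper76.isPSolvableElt_of_isPSolvable hG)
  let _ : Fintype G := Fintype.ofFinite G
  let _ : Fintype (Sylow p G) := Fintype.ofFinite _
  have hmain := pef_count (X := G) (𝒬 := Sylow p G) (fun x Q => x ∈ Q) p
    (Nat.card (P : Subgroup G)) (Nat.card {g : G // ∃ k : ℕ, orderOf g = p ^ k})
    (Fact.out : p.Prime).pos Nat.card_pos Fintype.card_pos ?_ ?_ ?_
  · rwa [← Nat.card_eq_fintype_card] at hmain
  · intro Q
    have h1 : (Finset.univ.filter (fun x : G => x ∈ Q)).card = Nat.card (Q : Subgroup G) := by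
      rw [Nat.card_eq_fintype_card, ← Fintype.card_subtype]
      rfl
    rw [h1, Sylow.card_eq_multiplicity, Sylow.card_eq_multiplicity]
  · intro Q
    have h := hE Q
    have hc : Nat.card (Q : Subgroup G) = Nat.card (P : Subgroup G) := by
      rw [Sylow.card_eq_multiplicity, Sylow.card_eq_multiplicity]
    rw [hc, finprod_eq_prod_of_fintype] at h
    have h2 : ∏ x ∈ Finset.univ.filter (fun x : G => x ∈ Q),
        (Finset.univ.filter (fun Q' : Sylow p G => x ∈ Q')).card =
        ∏ x : (Q : Subgroup G), pefNu p (x : G) := by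
      rw [Finset.prod_subtype (Finset.univ.filter (fun x : G => x ∈ Q))
        (p := fun x => x ∈ (Q : Subgroup G)) (by
          intro x
          rw [Finset.mem_filter]
          exact ⟨fun h => h.2, fun h => ⟨Finset.mem_univ _, h⟩⟩)]
      apply Finset.prod_congr rfl
      intro x _
      unfold pefNu
      rw [Nat.card_eq_fintype_card, Fintype.card_subtype]
    rw [h2, ← Nat.card_eq_fintype_card]
    exact h
  · rw [Nat.card_eq_fintype_card, Fintype.card_subtype]
    apply Finset.card_le_card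
    intro x hx
    rw [Finset.mem_filter] at hx ⊢
    refine ⟨Finset.mem_univ _, ?_⟩
    obtain ⟨Q, hQ⟩ := Finset.card_pos.mp hx.2
    have hxQ : x ∈ Q := (Finset.mem_filter.mp hQ).2
    obtain ⟨k, hk⟩ := (IsPGroup.iff_orderOf.mp Q.2) ⟨x, hxQ⟩
    exact ⟨k, by rw [← hk, Subgroup.orderOf_mk]⟩

end pefMain

end Cfsg.Agent.Helper20
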