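import Cfsg.Agent.Helper85.PiDefs

set_option autoImplicit false

namespace Cfsg.Agent.Helper20.PiBASE

open Cfsg Cfsg.FusionSystem Cfsg.Agent.Helper85 Cfsg.Agent.Helper88

variable {Ω : Type*} [Group Ω] {S : Subgroup Ω}

theorem pib_le {F : FusionSystem S} {p : ℕ} {T : Subgroup Ω} {P : Subgroup Ω} {f : Ω → Ω}
    (h : PiGen F p T P f) : P ≤ T := by
  induction h with
  | base hQT hα hP => exact hP.trans hQT
  | conj hP ht => exact hP
  | comp hf hg h ihf ihg => exact ihf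
  | congr hf h ih => exact ih

theorem pib_autFun_conj {T : Subgroup Ω} {u : Ω} (hu : u ∈ T) {x : Ω} (hx : x ∈ T) :
    autFun (MulAut.conj (⟨u, hu⟩ : T)) x = u * x * u⁻¹ := by
  rw [autFun_apply' _ hx]; simp [MulAut.conj_apply]

/-- conjugation by `u ∈ T` is an element of `Aut_F(T)` -/
theorem pib_conj_mem {F : FusionSystem S} {T : Subgroup Ω} (hTS : T ≤ S) {u : Ω} (hu : u ∈ T) :
    (MulAut.conj (⟨u, hu⟩ : T)) ∈ F.autGroup T := by
  rw [Helper88.mem_autGroup_iff F hTS]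
  exact (isMap_conj F hTS (hTS hu)).congr (fun x hx => pib_autFun_conj hu hx)

theorem pib_key {F : FusionSystem S} {p : ℕ} {T : Subgroup Ω} (hTS : T ≤ S)
    {P : Subgroup Ω} {f : Ω → Ω} (h : PiGen F p T P f) : P = T →
    ∃ a ∈ pResidual p (F.autGroup T), ∃ t ∈ T, ∀ x ∈ T,
      f x = autFun ((a : F.autGroup T) : MulAut T) (t * x * t⁻¹) := by
  induction h with
  | @base P Q α hQT hα hP =>
    intro hPT
    have hQ : Q = T := le_antisymm hQT (hPT.ge.trans hP)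
    subst hQ
    obtain ⟨a, ha, rfl⟩ := Subgroup.mem_map.1 hα
    exact ⟨a, ha, 1, Subgroup.one_mem _, fun x hx => by simp⟩
  | @conj P t hP ht =>
    intro hPT
    refine ⟨1, Subgroup.one_mem _, t, ht, fun x hx => ?_⟩
    have h1 : t * x * t⁻¹ ∈ T := T.mul_mem (T.mul_mem ht hx) (T.inv_mem ht)
    show t * x * t⁻¹ = autFun (1 : MulAut T) (t * x * t⁻¹)
    rw [autFun_one h1]
  | @comp P Q f g hf hg h ihf ihg =>
    intro hPT
    obtain ⟨a, ha, t, ht, hfa⟩ := ihf hPT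
    have hTQ : T ≤ Q := by
      intro y hy
      have hy' : autFun ((a : F.autGroup T) : MulAut T)⁻¹ y ∈ T := autFun_mem _ hy
      have hx : t⁻¹ * autFun ((a : F.autGroup T) : MulAut T)⁻¹ y * t ∈ T :=
        T.mul_mem (T.mul_mem (T.inv_mem ht) hy') ht
      have h2 := h _ (hPT.ge hx)
      rw [hfa _ hx] at h2
      have e : t * (t⁻¹ * autFun ((a : F.autGroup T) : MulAut T)⁻¹ y * t) * t⁻¹
          = autFun ((a : F.autGroup T) : MulAut T)⁻¹ y := by group
      rw [e, autFun_apply_inv _ hy] at h2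
      exact h2
    have hQT : Q = T := le_antisymm (pib_le hg) hTQ
    obtain ⟨b, hb, u, hu, hgb⟩ := ihg hQT
    obtain ⟨k, hk⟩ : ∃ k : F.autGroup T, (k : MulAut T) = MulAut.conj (⟨u, hu⟩ : T) :=
      ⟨⟨_, pib_conj_mem hTS hu⟩, rfl⟩
    refine ⟨b * (k * a * k⁻¹), (pResidual p _).mul_mem hb (pResidual_conj_mem p ha k), u * t,
      T.mul_mem hu ht, fun x hx => ?_⟩
    have hw : t * x * t⁻¹ ∈ T := T.mul_mem (T.mul_mem ht hx) (T.inv_mem ht)
    have hy : autFun ((a : F.autGroup T) : MulAut T) (t * x * t⁻¹) ∈ T := autFun_mem _ hw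
    have hz : u * t * x * (u * t)⁻¹ ∈ T :=
      T.mul_mem (T.mul_mem (T.mul_mem hu ht) hx) (T.inv_mem (T.mul_mem hu ht))
    have e1 : u * t * x * (u * t)⁻¹ = autFun (k : MulAut T) (t * x * t⁻¹) := by
      rw [hk, pib_autFun_conj hu hw]; group
    have e2 : ((b * (k * a * k⁻¹) : F.autGroup T) : MulAut T)
        = (b : MulAut T) * ((k : MulAut T) * (a : MulAut T) * (k : MulAut T)⁻¹) := rfl
    rw [e2, autFun_mul _ _ hz, autFun_mul _ _ hz, e1, autFun_inv_apply _ hw, autFun_mul _ _ hw,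
      hk, pib_autFun_conj hu hy]
    show g (f x) = _
    rw [hfa x hx, hgb _ hy]
  | @congr P f g hf h ih =>
    intro hPT
    obtain ⟨a, ha, t, ht, hfa⟩ := ih hPT
    exact ⟨a, ha, t, ht, fun x hx => by rw [h x (hPT.ge hx), hfa x hx]⟩

theorem pi_base [Finite S] {p : ℕ} [Fact p.Prime] (hS : IsPGroup p S) {F : FusionSystem S}
    {T : Subgroup Ω} (hh : PiHyp F p T) (hhfa : PiHfa F p) (hC : centralizerIn S T ≤ T) :
    PiDeg F p T T := by
  intro s hs hgen
  obtain ⟨a, ha, t, ht, hfa⟩ := pib_key hh.le hgen rfl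
  have hnorm : S ≤ Subgroup.normalizer (T : Set Ω) := by
    intro g hg
    rw [Subgroup.mem_normalizer_iff]
    intro x
    constructor
    · intro hx; exact hh.norm g hg x hx
    · intro hx
      have h1 := hh.norm g⁻¹ (S.inv_mem hg) _ hx
      have e : g⁻¹ * (g * x * g⁻¹) * g⁻¹⁻¹ = x := by group
      rw [e] at h1; exact h1
  have hfn : F.IsFullyNormalized T := by
    refine ⟨hh.le, fun Q _ => ?_⟩
    have h1 : normalizerIn S T = S := inf_eq_left.2 hnorm
    rw [h1]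
    exact Subgroup.card_le_of_le inf_le_left
  have hwS : s * t⁻¹ ∈ S := S.mul_mem hs (S.inv_mem (hh.le ht))
  have hw : s * t⁻¹ ∈ normalizerIn S T := mem_normalizerIn_iff.2 ⟨hwS, hnorm hwS⟩
  have hβ : ((a : F.autGroup T) : MulAut T) ∈ PiO F p T := Subgroup.mem_map.2 ⟨a, ha, rfl⟩
  have hact : ∀ x ∈ T, autFun ((a : F.autGroup T) : MulAut T) x
      = s * t⁻¹ * x * (s * t⁻¹)⁻¹ := by
    intro x hx
    have hx' : t⁻¹ * x * t ∈ T := T.mul_mem (T.mul_mem (T.inv_mem ht) hx) ht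
    have h1 := hfa _ hx'
    have e : t * (t⁻¹ * x * t) * t⁻¹ = x := by group
    rw [e] at h1
    rw [← h1]; group
  have hmem := hhfa T (s * t⁻¹) _ hfn hw hβ hact
  have hwT : s * t⁻¹ ∈ T := (sup_le hh.hyp hC) hmem
  have e : s = s * t⁻¹ * t := by group
  rw [e]; exact T.mul_mem hwT ht

end Cfsg.Agent.Helper20.PiBASE
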