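import Cfsg.Agent.Helper85.PiGen

set_option autoImplicit false

namespace Cfsg.Agent.Helper20.PiFRAT

open Cfsg Cfsg.FusionSystem Cfsg.Agent.Helper85 Cfsg.Agent.Helper88

variable {Ω : Type*} [Group Ω] {S : Subgroup Ω}

theorem pi_frattini [Finite S] {p : ℕ} [Fact p.Prime] (hS : IsPGroup p S) {F : FusionSystem S}
    {T : Subgroup Ω} (hh : PiHyp F p T) (hc : PiConjS F p T) : PiFrat F p T := by
  intro P f hf hPT
  have key : ∃ s ∈ S, PiGen F p T (P ⊓ T) (fun x => s⁻¹ * f x * s) := by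
    refine alperin_induction hS hh.sat
      (fun P f => ∃ s ∈ S, PiGen F p T (P ⊓ T) (fun x => s⁻¹ * f x * s)) ?_ ?_ ?_ hf
    · -- automorphisms
      intro R hRa _ _ _ α hα P hPR
      have hRS : R ≤ S := hRa.1
      have : Finite R := Helper88.finite_of_le hRS
      obtain ⟨P₀, hP₀⟩ := hRa.2
      obtain ⟨σ, hσ, β, hβ, hαeq⟩ := exists_sylow_mul_pResidual P₀ ⟨α, hα⟩
      have hαeq' : α = (σ : MulAut R) * (β : MulAut R) := congrArg Subtype.val hαeq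
      rw [hP₀, Subgroup.mem_subgroupOf] at hσ
      obtain ⟨s, hs, hsc⟩ := (Helper88.mem_autInducedBy_iff S R _).1 hσ
      -- restriction to `R ⊓ T`
      have hinv : ∀ γ ∈ F.autGroup R, ∀ x ∈ R ⊓ T, autFun γ x ∈ R ⊓ T := by
        intro γ hγ x hx
        exact ⟨autFun_mem γ hx.1,
          pi_mapsTo hS hh (IsMap.of_mem_autGroup hRS hγ) x hx.1 hx.2⟩
      obtain ⟨Ψ, hΨ⟩ := exists_restrictHom (F.autGroup R) (inf_le_left : R ⊓ T ≤ R) hinv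
      have hRTS : R ⊓ T ≤ S := inf_le_left.trans hRS
      have hΨmem : ∀ γ : F.autGroup R, Ψ γ ∈ F.autGroup (R ⊓ T) := by
        intro γ
        rw [Helper88.mem_autGroup_iff F hRTS]
        exact ((IsMap.of_mem_autGroup hRS γ.2).restrict inf_le_left).congr
          (fun x hx => hΨ γ x hx)
      obtain ⟨Ψ', hΨ'⟩ : ∃ Ψ' : F.autGroup R →* F.autGroup (R ⊓ T),
          ∀ γ, ((Ψ' γ : F.autGroup (R ⊓ T)) : MulAut (R ⊓ T : Subgroup Ω)) = Ψ γ :=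
        ⟨Ψ.codRestrict _ hΨmem, fun γ => rfl⟩
      have hres : Ψ' β ∈ pResidual p (F.autGroup (R ⊓ T)) := map_pResidual_le p Ψ' hβ
      have hO : Ψ β ∈ PiO F p (R ⊓ T) := by
        rw [← hΨ' β]
        exact Subgroup.mem_map.2 ⟨Ψ' β, hres, rfl⟩
      have hgen : PiGen F p T (P ⊓ T) (autFun (Ψ β)) :=
        PiGen.base inf_le_right hO (inf_le_inf_right T hPR)
      refine ⟨s, hs, hgen.congr (fun x hx => ?_)⟩
      have hxR : x ∈ R := hPR hx.1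
      have hxRT : x ∈ R ⊓ T := ⟨hxR, hx.2⟩
      have hβR : autFun (β : MulAut R) x ∈ R := autFun_mem _ hxR
      show s⁻¹ * autFun α x * s = autFun (Ψ β) x
      rw [hΨ β x hxRT, hαeq', autFun_mul _ _ hxR, autFun_apply' _ hβR, hsc]
      group
    · -- composition
      rintro P Q f g hf hg ⟨s₁, hs₁, h₁⟩ ⟨s₂, hs₂, h₂⟩ hPQ
      have h₂' := hc _ _ s₁⁻¹ h₂ (S.inv_mem hs₁)
      have hmaps : ∀ x ∈ P ⊓ T, s₁⁻¹ * f x * s₁ ∈
          img (Q ⊓ T) (fun x => s₁⁻¹ * x * s₁⁻¹⁻¹) := by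
        intro x hx
        have hfx : f x ∈ Q ⊓ T := ⟨hPQ x hx.1, pi_mapsTo hS hh hf x hx.1 hx.2⟩
        apply Subgroup.subset_closure
        exact ⟨f x, hfx, by simp⟩
      have h3 := PiGen.comp h₁ h₂' hmaps
      refine ⟨s₂ * s₁, S.mul_mem hs₂ hs₁, h3.congr (fun x hx => ?_)⟩
      have e : s₁⁻¹⁻¹ * (s₁⁻¹ * f x * s₁) * s₁⁻¹ = f x := by group
      show (s₂ * s₁)⁻¹ * g (f x) * (s₂ * s₁)
        = s₁⁻¹ * (s₂⁻¹ * g (s₁⁻¹⁻¹ * (s₁⁻¹ * f x * s₁) * s₁⁻¹) * s₂) * s₁⁻¹⁻¹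
      rw [e]; group
    · -- congruence
      rintro P f g hf ⟨s, hs, h⟩ hfg
      refine ⟨s, hs, h.congr (fun x hx => ?_)⟩
      show s⁻¹ * g x * s = s⁻¹ * f x * s
      rw [hfg x hx.1]
  obtain ⟨s, hs, h⟩ := key
  exact ⟨s, hs, by rwa [inf_eq_left.2 hPT] at h⟩

end Cfsg.Agent.Helper20.PiFRAT
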