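import Mathlib

set_option autoImplicit false

namespace Cfsg.Agent.Helper20

/-- PIECE ARI357 -/
theorem ree_order_arith (q : ℕ) (hq : 27 ≤ q) :
    (∀ x φ : ℕ, x * (2 * (q - 1)) = (q ^ 3 * (q - 1) * (q ^ 3 + 1)) * φ →
      2 * x = φ * q ^ 3 * (q ^ 3 + 1)) ∧
    (∀ x φ : ℕ, x * (6 * (q + 1)) = (q ^ 3 * (q - 1) * (q ^ 3 + 1)) * φ →
      6 * x = φ * q ^ 3 * (q - 1) * (q ^ 2 - q + 1)) ∧
    (∀ x φ : ℕ, x * (6 * (q + 1)) = (q ^ 3 * (q - 1) * (q ^ 3 + 1)) * (3 * φ) →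
      2 * x = φ * q ^ 3 * (q - 1) * (q ^ 2 - q + 1)) ∧
    (∀ x φ t t' : ℕ, t * t' = q ^ 2 - q + 1 →
      x * (6 * t) = (q ^ 3 * (q - 1) * (q ^ 3 + 1)) * φ →
      6 * x = φ * q ^ 3 * (q ^ 2 - 1) * t') ∧
    (∀ x : ℕ, x * (q ^ 3 * (q - 1)) = (q ^ 3 * (q - 1) * (q ^ 3 + 1)) * (q ^ 2 - 1) →
      x = (q ^ 2 - 1) * (q ^ 3 + 1)) ∧
    (∀ x : ℕ, x * (q ^ 3 * (q - 1)) = (q ^ 3 * (q - 1) * (q ^ 3 + 1)) * ((q - 1) * q ^ 2) →
      x = q ^ 2 * (q - 1) * (q ^ 3 + 1)) ∧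
    (q ^ 2 * (q ^ 2 - q + 1)) * (q ^ 2 - 1) = q ^ 2 * (q - 1) * (q ^ 3 + 1) := by
  obtain ⟨m, hm⟩ : ∃ m, q = m + 1 := ⟨q - 1, by omega⟩
  have hm0 : 0 < m := by omega
  have e1 : q - 1 = m := by omega
  have e2 : q ^ 2 - q + 1 = m ^ 2 + m + 1 := by
    subst hm
    have : (m + 1) ^ 2 = m ^ 2 + m + (m + 1) := by ring
    omega
  have e3 : q ^ 2 - 1 = m ^ 2 + 2 * m := by
    subst hm
    have : (m + 1) ^ 2 = m ^ 2 + 2 * m + 1 := by ring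
    omega
  rw [e1, e2, e3]
  subst hm
  have hT : 0 < m ^ 2 + m + 1 := by positivity
  have hq3 : (m + 1) ^ 3 + 1 = (m + 2) * (m ^ 2 + m + 1) := by ring
  refine ⟨?_, ?_, ?_, ?_, ?_, ?_, ?_⟩
  · intro x φ h
    apply Nat.eq_of_mul_eq_mul_right hm0
    calc 2 * x * m = x * (2 * m) := by ring
      _ = (m + 1) ^ 3 * m * ((m + 1) ^ 3 + 1) * φ := h
      _ = φ * (m + 1) ^ 3 * ((m + 1) ^ 3 + 1) * m := by ring
  · intro x φ h
    apply Nat.eq_of_mul_eq_mul_right (by omega : 0 < m + 1 + 1)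
    calc 6 * x * (m + 1 + 1) = x * (6 * (m + 1 + 1)) := by ring
      _ = (m + 1) ^ 3 * m * ((m + 1) ^ 3 + 1) * φ := h
      _ = φ * (m + 1) ^ 3 * m * (m ^ 2 + m + 1) * (m + 1 + 1) := by rw [hq3]; ring
  · intro x φ h
    apply Nat.eq_of_mul_eq_mul_right (by omega : 0 < 3 * (m + 1 + 1))
    calc 2 * x * (3 * (m + 1 + 1)) = x * (6 * (m + 1 + 1)) := by ring
      _ = (m + 1) ^ 3 * m * ((m + 1) ^ 3 + 1) * (3 * φ) := h
      _ = φ * (m + 1) ^ 3 * m * (m ^ 2 + m + 1) * (3 * (m + 1 + 1)) := by rw [hq3]; ring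
  · intro x φ t t' htt h
    have ht0 : 0 < t := by
      rcases Nat.eq_zero_or_pos t with h0 | h0
      · rw [h0, zero_mul] at htt; omega
      · exact h0
    apply Nat.eq_of_mul_eq_mul_right ht0
    calc 6 * x * t = x * (6 * t) := by ring
      _ = (m + 1) ^ 3 * m * ((m + 1) ^ 3 + 1) * φ := h
      _ = φ * (m + 1) ^ 3 * (m ^ 2 + 2 * m) * t' * t := by rw [hq3, ← htt]; ring
  · intro x h
    have hpos : 0 < (m + 1) ^ 3 * m := by positivity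
    apply Nat.eq_of_mul_eq_mul_right hpos
    rw [h]; ring
  · intro x h
    have hpos : 0 < (m + 1) ^ 3 * m := by positivity
    apply Nat.eq_of_mul_eq_mul_right hpos
    rw [h]; ring
  · rw [hq3]; ring

end Cfsg.Agent.Helper20
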