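import Mathlib
import Cfsg.Agent.Helper83.Ree1158UNI

set_option autoImplicit false

namespace Cfsg.Agent.Helper20

/-- PIECE UNIC -/
theorem card_orderOf_mul_card_normalizer {G : Type*} [Group G] [Finite G] (M : Subgroup G)
    (i : ℕ) (hconj : ∀ g : G, orderOf g = i → ∃ y : G, y * g * y⁻¹ ∈ M)
    (hN : ∀ g ∈ M, orderOf g = i → ∀ y : G, y * g * y⁻¹ ∈ M →
      y ∈ Subgroup.normalizer (M : Set G)) :
    Nat.card {g : G // orderOf g = i} * Nat.card (Subgroup.normalizer (M : Set G)) =
      Nat.card G * Nat.card {g : G // g ∈ M ∧ orderOf g = i} := by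
  have hP : ∀ g y : G, orderOf g = i → orderOf (y * g * y⁻¹) = i := by
    intro g y hg
    have h := orderOf_injective (MulAut.conj y).toMonoidHom (MulAut.conj y).injective g
    have h2 : (MulAut.conj y).toMonoidHom g = y * g * y⁻¹ := by simp [MulAut.conj_apply]
    rw [h2] at h
    rw [h, hg]
  have key := Cfsg.Agent.Helper83.card_conj_union M (fun g => orderOf g = i) hP hN
  rw [← key]
  congr 1
  apply Nat.card_congr
  exact Equiv.subtypeEquivRight (fun g => ⟨fun h => ⟨h, hconj g h⟩, fun h => h.1⟩)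

end Cfsg.Agent.Helper20
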