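-- helper20 library: PIECE C2 of CALL S4441 (helper75): the principal block for |P| = p, e = p - 1.
import Mathlib
import Cfsg.Prelude.Def_Characters
import Cfsg.Prelude.Def_Blocks
import Cfsg.Agent.Helper75.LatDefs
import Cfsg.Agent.Helper75.Galois
import Cfsg.Agent.Helper82.ExcBlock
import Cfsg.Agent.Helper81.KleinFour
import Cfsg.Agent.Helper76.PSolvable

set_option autoImplicit false
open Cfsg

namespace Cfsg.Agent.Helper20

universe u

/-- A Sylow subgroup of prime order is generated by each of its nonidentity elements. -/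
theorem c2_zpowers {G : Type*} [Group G] [Finite G] {p : ℕ} [Fact p.Prime] (P : Sylow p G)
    (hP : Nat.card (P : Subgroup G) = p) {y : G} (hy : y ∈ (P : Subgroup G)) (hy1 : y ≠ 1) :
    Subgroup.zpowers y = (P : Subgroup G) := by
  have hp : p.Prime := Fact.out
  have hle : Subgroup.zpowers y ≤ (P : Subgroup G) := (Subgroup.zpowers_le).2 hy
  apply Subgroup.eq_of_le_of_card_ge hle
  rw [Nat.card_zpowers, hP]
  have hdvd : orderOf y ∣ p := by
    have h1 : orderOf (⟨y, hy⟩ : (P : Subgroup G)) ∣ Nat.card (P : Subgroup G) :=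
      orderOf_dvd_natCard _
    rw [hP, ← Subgroup.orderOf_coe] at h1
    exact h1
  rcases (Nat.dvd_prime hp).1 hdvd with h | h
  · exact absurd (orderOf_eq_one_iff.1 h) hy1
  · exact h.ge

theorem c2_orderOf {G : Type*} [Group G] [Finite G] {p : ℕ} [Fact p.Prime] (P : Sylow p G)
    (hP : Nat.card (P : Subgroup G) = p) {y : G} (hy : y ∈ (P : Subgroup G)) (hy1 : y ≠ 1) :
    orderOf y = p := by
  rw [← Nat.card_zpowers, c2_zpowers P hP hy hy1, hP]

/-- Centralizing a nonidentity element of `P` means centralizing `P`. -/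
theorem c2_cent {G : Type*} [Group G] [Finite G] {p : ℕ} [Fact p.Prime] (P : Sylow p G)
    (hP : Nat.card (P : Subgroup G) = p) {y : G} (hy : y ∈ (P : Subgroup G)) (hy1 : y ≠ 1)
    (g : G) (hg : g * y = y * g) : g ∈ Subgroup.centralizer ((P : Subgroup G) : Set G) := by
  rw [Subgroup.mem_centralizer_iff]
  intro h hh
  have hh' : h ∈ Subgroup.zpowers y := by
    rw [c2_zpowers P hP hy hy1]; exact hh
  obtain ⟨k, rfl⟩ := Subgroup.mem_zpowers_iff.1 hh'
  have hc : Commute g y := hg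
  exact (hc.zpow_right k).eq.symm

/-- If `|N_G(P) : C_G(P)| = p - 1` then all nonidentity elements of `P` are conjugate. -/
theorem c2_conj {G : Type*} [Group G] [Finite G] {p : ℕ} [Fact p.Prime] (P : Sylow p G)
    (hP : Nat.card (P : Subgroup G) = p)
    (he : (Subgroup.centralizer ((P : Subgroup G) : Set G)).relIndex
      (Subgroup.normalizer ((P : Subgroup G) : Set G)) = p - 1)
    {y y' : G} (hy : y ∈ (P : Subgroup G)) (hy1 : y ≠ 1) (hy' : y' ∈ (P : Subgroup G))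
    (hy1' : y' ≠ 1) : ∃ g : G, g * y * g⁻¹ = y' := by
  classical
  have hp : p.Prime := Fact.out
  let N := Subgroup.normalizer ((P : Subgroup G) : Set G)
  let C := Subgroup.centralizer ((P : Subgroup G) : Set G)
  let T := {z : G // z ∈ (P : Subgroup G) ∧ z ≠ 1}
  have hmem : ∀ g : N, (g : G) * y * (g : G)⁻¹ ∈ (P : Subgroup G) ∧ (g : G) * y * (g : G)⁻¹ ≠ 1 := by
    intro g
    refine ⟨(Subgroup.mem_normalizer_iff.1 g.2 y).1 hy, ?_⟩
    intro h
    apply hy1
    have : y = (g : G)⁻¹ * ((g : G) * y * (g : G)⁻¹) * (g : G) := by group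
    rw [this, h]; group
  let f : N ⧸ C.subgroupOf N → T := fun q => Quotient.liftOn' q
    (fun g : N => (⟨(g : G) * y * (g : G)⁻¹, hmem g⟩ : T)) (by
      intro a b hab
      have hab' : a⁻¹ * b ∈ C.subgroupOf N := QuotientGroup.leftRel_apply.1 hab
      rw [Subgroup.mem_subgroupOf] at hab'
      have hc : ((a⁻¹ * b : N) : G) * y = y * ((a⁻¹ * b : N) : G) :=
        (Subgroup.mem_centralizer_iff.1 hab' y hy).symm
      apply Subtype.ext
      show (a : G) * y * (a : G)⁻¹ = (b : G) * y * (b : G)⁻¹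
      have hb : (b : G) = (a : G) * ((a⁻¹ * b : N) : G) := by
        push_cast; group
      rw [hb]
      calc (a : G) * y * (a : G)⁻¹
          = (a : G) * (y * ((a⁻¹ * b : N) : G)) * ((a⁻¹ * b : N) : G)⁻¹ * (a : G)⁻¹ := by group
        _ = (a : G) * (((a⁻¹ * b : N) : G) * y) * ((a⁻¹ * b : N) : G)⁻¹ * (a : G)⁻¹ := by rw [hc]
        _ = (a : G) * ((a⁻¹ * b : N) : G) * y * ((a : G) * ((a⁻¹ * b : N) : G))⁻¹ := by group)
  have hinj : Function.Injective f := by
    intro q1 q2 h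
    induction q1 using QuotientGroup.induction_on with
    | H a =>
      induction q2 using QuotientGroup.induction_on with
      | H b =>
        have h1 : (a : G) * y * (a : G)⁻¹ = (b : G) * y * (b : G)⁻¹ := congrArg Subtype.val h
        apply QuotientGroup.eq.2
        rw [Subgroup.mem_subgroupOf]
        apply c2_cent P hP hy hy1
        push_cast
        calc (a : G)⁻¹ * (b : G) * y = (a : G)⁻¹ * ((b : G) * y * (b : G)⁻¹) * (b : G) := by group
          _ = (a : G)⁻¹ * ((a : G) * y * (a : G)⁻¹) * (b : G) := by rw [h1]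
          _ = y * ((a : G)⁻¹ * (b : G)) := by group
  have hcardQ : Nat.card (N ⧸ C.subgroupOf N) = p - 1 := he
  have hcardT : Nat.card T = p - 1 := by
    have h1 : {z : G | z ∈ (P : Subgroup G) ∧ z ≠ 1} = ((P : Subgroup G) : Set G) \ {1} := by
      ext z
      constructor
      · rintro ⟨h1, h2⟩
        exact ⟨h1, h2⟩
      · rintro ⟨h1, h2⟩
        exact ⟨h1, h2⟩
    show Nat.card {z : G | z ∈ (P : Subgroup G) ∧ z ≠ 1} = p - 1
    rw [Nat.card_coe_set_eq, h1, Set.ncard_sdiff_singleton_of_mem (Subgroup.one_mem _),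
      ← Nat.card_coe_set_eq]
    show Nat.card (P : Subgroup G) - 1 = p - 1
    rw [hP]
  have hbij : Function.Bijective f :=
    hinj.bijective_of_nat_card_le (by rw [hcardQ, hcardT])
  obtain ⟨q, hq⟩ := hbij.2 ⟨y', hy', hy1'⟩
  induction q using QuotientGroup.induction_on with
  | H g => exact ⟨(g : G), congrArg Subtype.val hq⟩

/-- The values of an irreducible character on `P \ {1}` are rational integers, congruent to the
degree modulo `p`. -/
theorem c2_int {G : Type u} [Group G] [Fintype G] {p : ℕ} [Fact p.Prime] (P : Sylow p G)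
    (hP : Nat.card (P : Subgroup G) = p)
    (hconj : ∀ y y' : G, y ∈ (P : Subgroup G) → y ≠ 1 → y' ∈ (P : Subgroup G) → y' ≠ 1 →
      ∃ g : G, g * y * g⁻¹ = y')
    (χ : Cfsg.IrrCharacter G) {y : G} (hy : y ∈ (P : Subgroup G)) (hy1 : y ≠ 1) :
    ∃ a : ℤ, (χ : G → ℂ) y = (a : ℂ) ∧ (Cfsg.charDegree (χ : G → ℂ) : ℤ) ≡ a [ZMOD p] := by
  classical
  have hp : p.Prime := Fact.out
  have : Fintype (P : Subgroup G) := Fintype.ofFinite _
  obtain ⟨m, hm⟩ := Helper81.exists_nat_sum_subgroup χ (P : Subgroup G)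
  have hsum : ∑ x : (P : Subgroup G), (χ : G → ℂ) x
      = (χ : G → ℂ) 1 + ((p : ℂ) - 1) * (χ : G → ℂ) y := by
    rw [← Finset.add_sum_erase Finset.univ _ (Finset.mem_univ (1 : (P : Subgroup G)))]
    congr 1
    rw [Finset.sum_congr rfl (g := fun _ => (χ : G → ℂ) y)]
    · rw [Finset.sum_const, Finset.card_erase_of_mem (Finset.mem_univ _), Finset.card_univ,
        ← Nat.card_eq_fintype_card, hP, nsmul_eq_mul, Nat.cast_sub hp.one_le, Nat.cast_one]
    · intro x hx
      have hx1 : (x : G) ≠ 1 := by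
        intro h; exact (Finset.ne_of_mem_erase hx) (Subtype.ext h)
      obtain ⟨g, hg⟩ := hconj y x hy hy1 x.2 hx1
      rw [← hg]; exact Helper81.irr_conj χ y g
  rw [hsum, hP, Helper81.irr_one_eq_charDegree] at hm
  have hp1 : ((p : ℂ) - 1) ≠ 0 := by
    intro h
    have h2 : (p : ℂ) = 1 := by linear_combination h
    have h3 : p = 1 := by exact_mod_cast h2
    exact hp.one_lt.ne' h3
  obtain ⟨q, hq⟩ : ∃ q : ℚ, (χ : G → ℂ) y = (q : ℂ) := by
    refine ⟨((p : ℚ) * m - Cfsg.charDegree (χ : G → ℂ)) / ((p : ℚ) - 1), ?_⟩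
    push_cast
    rw [eq_div_iff hp1]
    linear_combination hm
  have hint : IsIntegral ℤ ((χ : G → ℂ) y) := Helper81.irr_isIntegral χ y
  rw [hq] at hint
  have h1 : IsIntegral ℤ q := by
    have : ((q : ℂ)) = algebraMap ℚ ℂ q := rfl
    rw [this] at hint
    exact (isIntegral_algebraMap_iff (algebraMap ℚ ℂ).injective).mp hint
  obtain ⟨a, ha⟩ := IsIntegrallyClosed.isIntegral_iff.mp h1
  have hya : (χ : G → ℂ) y = (a : ℂ) := by
    rw [hq, ← ha]; simp
  refine ⟨a, hya, ?_⟩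
  rw [hya] at hm
  have hm' : (Cfsg.charDegree (χ : G → ℂ) : ℤ) + ((p : ℤ) - 1) * a = p * m := by
    exact_mod_cast hm
  rw [Int.modEq_iff_dvd]
  exact ⟨a - m, by linear_combination (-1 : ℤ) * hm'⟩

/-- The centralizer of a nonidentity element `y` of `P` is `⟨y⟩ × K` for a `p'`-subgroup `K`. -/
theorem c2_K {G : Type u} [Group G] [Fintype G] {p : ℕ} [Fact p.Prime] (P : Sylow p G)
    (hP : Nat.card (P : Subgroup G) = p) (hab : IsMulCommutative P)
    (hfrob : ∀ y : G, y ∈ (P : Subgroup G) → y ≠ 1 → Subgroup.centralizer ({y} : Set G)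
      ⊓ Subgroup.normalizer ((P : Subgroup G) : Set G)
        = Subgroup.centralizer ((P : Subgroup G) : Set G))
    {y : G} (hy : y ∈ (P : Subgroup G)) (hy1 : y ≠ 1) :
    ∃ K : Subgroup G, ¬ p ∣ Nat.card K ∧
      ∀ g : G, g * y = y * g ↔ ∃ i : ℕ, ∃ k ∈ K, g = y ^ i * k := by
  classical
  have hp : p.Prime := Fact.out
  obtain ⟨k, hk⟩ := Helper82.excBlock_pPrimeCore P hab hfrob y hy hy1
  have hord : orderOf y = p := c2_orderOf P hP hy hy1
  have hyH : y ∈ Subgroup.centralizer ({y} : Set G) := by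
    rw [Subgroup.mem_centralizer_iff]
    intro h hh
    rw [Set.mem_singleton_iff.1 hh]
  have hcop : (Nat.card (Cfsg.pPrimeCore p (Subgroup.centralizer ({y} : Set G)))).Coprime p :=
    Helper76.pPrimeCore_coprime
  have hHcard : Nat.card (Subgroup.centralizer ({y} : Set G)) =
      Nat.card (Cfsg.pPrimeCore p (Subgroup.centralizer ({y} : Set G))) * p ^ k := by
    rw [← hk]; exact (Subgroup.card_mul_index _).symm
  have hordH : orderOf (⟨y, hyH⟩ : Subgroup.centralizer ({y} : Set G)) = p := by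
    rw [← Subgroup.orderOf_coe]; exact hord
  have hk1 : k = 1 := by
    have hpdvd : p ∣ Nat.card (Subgroup.centralizer ({y} : Set G)) := by
      rw [← hordH]; exact orderOf_dvd_natCard _
    have hk0 : k ≠ 0 := by
      rintro rfl
      rw [hHcard, pow_zero, mul_one] at hpdvd
      exact (Nat.Prime.coprime_iff_not_dvd hp).1 hcop.symm hpdvd
    have hle : k ≤ 1 := by
      have h1 : p ^ k ∣ Nat.card G := by
        have : p ^ k ∣ Nat.card (Subgroup.centralizer ({y} : Set G)) := by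
          rw [hHcard]; exact dvd_mul_left _ _
        exact this.trans (Subgroup.card_subgroup_dvd_card _)
      have h2 := P.card_eq_multiplicity
      rw [hP] at h2
      have h3 : (Nat.card G).factorization p = 1 := by
        have : p ^ 1 = p ^ (Nat.card G).factorization p := by rw [pow_one]; exact h2
        exact (Nat.pow_right_injective hp.two_le this).symm
      have h4 := (hp.pow_dvd_iff_le_factorization Nat.card_pos.ne').1 h1
      omega
    omega
  have hZcard : Nat.card (Subgroup.zpowers (⟨y, hyH⟩ : Subgroup.centralizer ({y} : Set G))) = p := by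
    rw [Nat.card_zpowers, hordH]
  have hcompl : Subgroup.IsComplement'
      (Subgroup.zpowers (⟨y, hyH⟩ : Subgroup.centralizer ({y} : Set G)))
      (Cfsg.pPrimeCore p (Subgroup.centralizer ({y} : Set G))) := by
    apply Subgroup.isComplement'_of_coprime
    · rw [hZcard, hHcard, hk1, pow_one, mul_comm]
    · rw [hZcard]; exact hcop.symm
  refine ⟨(Cfsg.pPrimeCore p (Subgroup.centralizer ({y} : Set G))).map
    (Subgroup.centralizer ({y} : Set G)).subtype, ?_, ?_⟩
  · rw [Subgroup.card_subtype]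
    exact (Nat.Prime.coprime_iff_not_dvd hp).1 hcop.symm
  · intro g
    constructor
    · intro hg
      have hgH : g ∈ Subgroup.centralizer ({y} : Set G) := by
        rw [Subgroup.mem_centralizer_iff]
        intro h hh
        rw [Set.mem_singleton_iff.1 hh]
        exact hg.symm
      obtain ⟨⟨⟨z, hz⟩, ⟨k', hk'⟩⟩, hzk, -⟩ := hcompl.existsUnique ⟨g, hgH⟩
      obtain ⟨i, hi⟩ := (Submonoid.mem_powers_iff _ _).1 ((mem_powers_iff_mem_zpowers).2 hz)
      refine ⟨i, (k' : G), Subgroup.mem_map.2 ⟨k', hk', rfl⟩, ?_⟩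
      have h1 : (z : G) * (k' : G) = g := congrArg Subtype.val hzk
      have h2 : (z : G) = y ^ i := by
        rw [← hi]; rfl
      rw [← h1, h2]
    · rintro ⟨i, k', hk', rfl⟩
      obtain ⟨k0, -, rfl⟩ := Subgroup.mem_map.1 hk'
      have hc : y * (k0 : G) = (k0 : G) * y := Subgroup.mem_centralizer_iff.1 k0.2 y rfl
      show y ^ i * (k0 : G) * y = y * (y ^ i * (k0 : G))
      rw [mul_assoc, ← hc, ← mul_assoc, ← mul_assoc, ← pow_succ, ← pow_succ']

/-- The lattice bound gives `|a| ≤ 1` for the constant value `a` of `χ` on `y K`. -/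
theorem c2_abs_le {G : Type u} [Group G] [Fintype G] (p : ℕ) [Fact p.Prime]
    (hLB : Helper75.LatticeBoundStmt G p) (P : Sylow p G) (hP : Nat.card (P : Subgroup G) = p)
    {y : G} (hy : y ∈ (P : Subgroup G)) (hy1 : y ≠ 1) (K : Subgroup G) (hK : ¬ p ∣ Nat.card K)
    (hKc : ∀ g : G, g * y = y * g ↔ ∃ i : ℕ, ∃ k ∈ K, g = y ^ i * k)
    (χ : Cfsg.IrrCharacter G) (a : ℤ) (ha : ∀ k ∈ K, (χ : G → ℂ) (y * k) = (a : ℂ)) :
    |a| ≤ 1 := by
  classical
  have hp : p.Prime := Fact.out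
  have hdpos : 0 < Cfsg.charDegree (χ : G → ℂ) := Helper81.charDegree_pos χ
  have hχ1 : (χ : G → ℂ) 1 = (Cfsg.charDegree (χ : G → ℂ) : ℂ) := Helper81.irr_one_eq_charDegree χ
  let S : Set (Cfsg.IrrCharacter G) :=
    {χ' | ∃ σ : ℂ ≃+* ℂ, ∀ g, (χ' : G → ℂ) g = σ ((χ : G → ℂ) g)}
  let 𝒪 : Finset (Cfsg.IrrCharacter G) := (Set.toFinite S).toFinset
  have hmem : ∀ χ' : Cfsg.IrrCharacter G, χ' ∈ 𝒪 ↔
      ∃ σ : ℂ ≃+* ℂ, ∀ g, (χ' : G → ℂ) g = σ ((χ : G → ℂ) g) := by
    intro χ'; exact (Set.Finite.mem_toFinset _)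
  have hχO : χ ∈ 𝒪 := (hmem χ).2 ⟨RingEquiv.refl ℂ, fun g => rfl⟩
  have hGcard : Nat.card G = p * (P : Subgroup G).index := by
    have h1 := Subgroup.card_mul_index (P : Subgroup G)
    rw [hP] at h1
    exact h1.symm
  have hpm : ¬ p ∣ (P : Subgroup G).index := P.not_dvd_index
  have key := hLB y K 𝒪 𝒪 ((P : Subgroup G).index * (p + 1)) (c2_orderOf P hP hy hy1) hK hKc
    (by
      intro χ' hχ' σ
      obtain ⟨τ, hτ⟩ := (hmem χ').1 hχ'
      refine ⟨⟨fun g => σ ((χ' : G → ℂ) g), Helper75.isIrrCharacter_ringEquiv σ χ'.2⟩,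
        (hmem _).2 ⟨τ.trans σ, fun g => ?_⟩, fun g => rfl⟩
      show σ ((χ' : G → ℂ) g) = σ (τ ((χ : G → ℂ) g))
      rw [hτ g])
    (by
      intro h
      rcases (Nat.Prime.dvd_mul hp).1 h with h | h
      · exact hpm h
      · have h1 : p ∣ 1 := (Nat.dvd_add_right (dvd_refl p)).1 h
        exact hp.one_lt.ne' (Nat.dvd_one.1 h1))
    (by rw [hGcard]; exact ⟨p + 1, by ring⟩)
    (by rw [hGcard]; nlinarith [hp.pos])
    (by
      intro χ' hχ'
      exact ⟨χ', hχ', RingEquiv.refl ℂ, fun w _ => rfl, fun g => rfl⟩)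
  have hval : ∀ χ' ∈ 𝒪, (χ' : G → ℂ) 1 = (Cfsg.charDegree (χ : G → ℂ) : ℂ) ∧
      ∀ k ∈ K, (χ' : G → ℂ) (y * k) = (a : ℂ) := by
    intro χ' hχ'
    obtain ⟨τ, hτ⟩ := (hmem χ').1 hχ'
    refine ⟨?_, fun k hk => ?_⟩
    · rw [hτ 1, hχ1, map_natCast]
    · rw [hτ (y * k), ha k hk, map_intCast]
  have hdeg : ∀ χ' ∈ 𝒪, Cfsg.charDegree (χ' : G → ℂ) = Cfsg.charDegree (χ : G → ℂ) := by
    intro χ' hχ'
    have h1 := Helper81.irr_one_eq_charDegree χ'
    rw [(hval χ' hχ').1] at h1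
    exact_mod_cast h1.symm
  have hsum : ∑ χ' ∈ 𝒪, ∑ k : K, (χ' : G → ℂ) 1 * (χ' : G → ℂ) (y * (k : G))
      = (((𝒪.card : ℤ) * (Nat.card K : ℤ) * (Cfsg.charDegree (χ : G → ℂ) : ℤ) * a : ℤ) : ℂ) := by
    rw [Finset.sum_congr rfl (g := fun _ => (Nat.card K : ℂ) *
      ((Cfsg.charDegree (χ : G → ℂ) : ℂ) * (a : ℂ)))]
    · rw [Finset.sum_const, nsmul_eq_mul]
      push_cast
      ring
    · intro χ' hχ'
      rw [Finset.sum_congr rfl (g := fun _ => (Cfsg.charDegree (χ : G → ℂ) : ℂ) * (a : ℂ))]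
      · rw [Finset.sum_const, Finset.card_univ, ← Nat.card_eq_fintype_card, nsmul_eq_mul]
      · intro k _
        rw [(hval χ' hχ').1, (hval χ' hχ').2 k k.2]
  have hsum2 : ∑ χ' ∈ 𝒪, (Cfsg.charDegree (χ' : G → ℂ) : ℝ)
      = (𝒪.card : ℝ) * (Cfsg.charDegree (χ : G → ℂ) : ℝ) := by
    rw [Finset.sum_congr rfl (g := fun _ => (Cfsg.charDegree (χ : G → ℂ) : ℝ))]
    · rw [Finset.sum_const, nsmul_eq_mul]
    · intro χ' hχ'
      rw [hdeg χ' hχ']
  rw [hsum, hsum2, Complex.norm_intCast] at key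
  have hc : (0 : ℝ) < (𝒪.card : ℝ) * (Nat.card K : ℝ) * (Cfsg.charDegree (χ : G → ℂ) : ℝ) := by
    have h1 : (0 : ℝ) < (𝒪.card : ℝ) := by exact_mod_cast Finset.card_pos.2 ⟨χ, hχO⟩
    have h2 : (0 : ℝ) < (Nat.card K : ℝ) := by exact_mod_cast Nat.card_pos
    have h3 : (0 : ℝ) < (Cfsg.charDegree (χ : G → ℂ) : ℝ) := by exact_mod_cast hdpos
    exact mul_pos (mul_pos h1 h2) h3
  have h2 : (𝒪.card : ℝ) * (Nat.card K : ℝ) * (Cfsg.charDegree (χ : G → ℂ) : ℝ) * |(a : ℝ)|
      ≤ (𝒪.card : ℝ) * (Nat.card K : ℝ) * (Cfsg.charDegree (χ : G → ℂ) : ℝ) * 1 := by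
    push_cast at key
    rw [abs_mul, abs_of_pos hc] at key
    linarith
  have h3 : |(a : ℝ)| ≤ 1 := le_of_mul_le_mul_left h2 hc
  exact_mod_cast h3

theorem s4441_case_full {G : Type*} [Group G] [Fintype G] (p : ℕ) [Fact p.Prime] (M : Ideal Cfsg.AlgInt) (hM : Cfsg.IsPModular p M) (hodd : p ≠ 2) (P : Sylow p G) (hP : Nat.card P = p) (e : ℕ) (he : (Subgroup.centralizer ((P : Subgroup G) : Set G)).relIndex (Subgroup.normalizer ((P : Subgroup G) : Set G)) = e) (hLB : Cfsg.Agent.Helper75.LatticeBoundStmt G p) (hep : e = p - 1) : ∃ X Y : Set (Cfsg.IrrCharacter G), Cfsg.principalBlock M G = X ∪ Y ∧ Disjoint X Y ∧ Nat.card X = e ∧ Nat.card Y = (p - 1) / e ∧ ∃ (εX : Cfsg.IrrCharacter G → ℤ) (ε : ℤ), (∀ χ ∈ X, (εX χ = 1 ∨ εX χ = -1) ∧ (Cfsg.charDegree (χ : G → ℂ) : ℤ) ≡ εX χ [ZMOD p] ∧ ∀ x : G, x ∈ (P : Subgroup G) → x ≠ 1 → ∀ y : G, y ∈ Subgroup.centralizer ((P : Subgroup G) : Set G) → ¬ p ∣ orderOf y → (χ : G → ℂ) (x * y) = (εX χ : ℂ)) ∧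 (ε = 1 ∨ ε = -1) ∧ (∀ θ ∈ Y, (Cfsg.charDegree (θ : G → ℂ) : ℤ) ≡ ε * (e : ℤ) [ZMOD p]) ∧ (∀ θ ∈ Y, ∀ θ' ∈ Y, ∀ g : G, ¬ p ∣ orderOf g → (θ : G → ℂ) g = (θ' : G → ℂ) g) ∧ ∀ θ ∈ Y, ∀ g : G, ¬ p ∣ orderOf g → (ε : ℂ) * (θ : G → ℂ) g = ∑ᶠ χ ∈ X, (εX χ : ℂ) * (χ : G → ℂ) g := by
  classical
  have hp : p.Prime := Fact.out
  haveI : M.IsPrime := hM.2.1.isPrime
  have hP' : Nat.card (P : Subgroup G) = p := hP
  subst hep
  obtain ⟨y, hy, hy1⟩ : ∃ y : G, y ∈ (P : Subgroup G) ∧ y ≠ 1 := by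
    have hnt : Nontrivial (P : Subgroup G) := by
      rw [← Finite.one_lt_card_iff_nontrivial, hP']; exact hp.one_lt
    obtain ⟨⟨y, hy⟩, hne⟩ := exists_ne (1 : (P : Subgroup G))
    exact ⟨y, hy, fun h => hne (Subtype.ext h)⟩
  have hconj : ∀ y y' : G, y ∈ (P : Subgroup G) → y ≠ 1 → y' ∈ (P : Subgroup G) → y' ≠ 1 →
      ∃ g : G, g * y * g⁻¹ = y' := fun y y' h1 h2 h3 h4 => c2_conj P hP' he h1 h2 h3 h4
  have hab : IsMulCommutative P := by
    haveI : IsCyclic P := isCyclic_of_prime_card hP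
    exact IsCyclic.isMulCommutative
  have hfrob : ∀ y' : G, y' ∈ (P : Subgroup G) → y' ≠ 1 → Subgroup.centralizer ({y'} : Set G)
      ⊓ Subgroup.normalizer ((P : Subgroup G) : Set G)
        = Subgroup.centralizer ((P : Subgroup G) : Set G) := by
    intro y' hy' hy1'
    apply le_antisymm
    · rintro g ⟨hg1, -⟩
      exact c2_cent P hP' hy' hy1' g (Subgroup.mem_centralizer_iff.1 hg1 y' rfl).symm
    · intro g hg
      refine ⟨?_, ?_⟩
      · exact Subgroup.centralizer_le (Set.singleton_subset_iff.2 hy') hg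
      · exact Subgroup.centralizer_le_normalizer _ hg
  obtain ⟨K, hK, hKc⟩ := c2_K P hP' hab hfrob hy hy1
  choose a ha hdeg using fun χ : Cfsg.IrrCharacter G => c2_int P hP' hconj χ hy hy1
  have htriv : Helper81.trivIrr G ∈ Cfsg.principalBlock M G := Helper81.trivIrr_mem_principalBlock
  have hval : ∀ χ ∈ Cfsg.principalBlock M G, ∀ x : G, x ∈ (P : Subgroup G) → x ≠ 1 → ∀ w : G,
      w ∈ Subgroup.centralizer ((P : Subgroup G) : Set G) → ¬ p ∣ orderOf w →
      (χ : G → ℂ) (x * w) = (a χ : ℂ) := by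
    intro χ hχ x hx hx1 w hw hwreg
    have hpart : Cfsg.IsPPart p (x * w) x :=
      ⟨w, rfl, (Subgroup.mem_centralizer_iff.1 hw x hx), Helper82.excBlock_orderOf P x hx, hwreg⟩
    rw [Helper82.excBlock_const hM P hab hfrob χ hχ (x * w) x hpart hx hx1]
    obtain ⟨g, hg⟩ := hconj y x hy hy1 hx hx1
    rw [← hg, Helper81.irr_conj χ y g]
    exact ha χ
  have hpm : ∀ χ ∈ Cfsg.principalBlock M G, a χ = 1 ∨ a χ = -1 := by
    intro χ hχ
    have h0 : a χ ≠ 0 := by
      intro h0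
      have := Helper82.excBlock_ne_zero hM P hab χ hχ y hy
      rw [ha χ, h0] at this
      exact this (by simp)
    have h1 : |a χ| ≤ 1 := by
      apply c2_abs_le p hLB P hP' hy hy1 K hK hKc χ (a χ)
      intro k hk
      apply hval χ hχ y hy hy1 k
      · apply c2_cent P hP' hy hy1
        exact (hKc k).2 ⟨0, k, hk, by simp⟩
      · intro hdvd
        apply hK
        have h2 : orderOf (⟨k, hk⟩ : K) ∣ Nat.card K := orderOf_dvd_natCard _
        rw [← Subgroup.orderOf_coe] at h2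
        exact hdvd.trans h2
    rcases abs_le.1 h1 with ⟨h2, h3⟩
    omega
  have hBfin : (Cfsg.principalBlock M G).Finite := Set.toFinite _
  have hBcard : (Cfsg.principalBlock M G).ncard = p := by
    have h1 := Helper82.excBlock_sum_self hM P hab hfrob y hy hy1
    have h2 : ∑ᶠ ζ ∈ Cfsg.principalBlock M G, (ζ : G → ℂ) y * (starRingEnd ℂ) ((ζ : G → ℂ) y)
        = ∑ᶠ ζ ∈ Cfsg.principalBlock M G, (1 : ℂ) := by
      apply finsum_mem_congr rfl
      intro ζ hζ
      rw [ha ζ]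
      rcases hpm ζ hζ with h | h <;> rw [h] <;> simp
    rw [h2, finsum_mem_eq_finite_toFinset_sum _ hBfin, Finset.sum_const,
      ← Set.ncard_eq_toFinset_card _ hBfin, hP'] at h1
    simpa using h1
  refine ⟨Cfsg.principalBlock M G \ {Helper81.trivIrr G}, {Helper81.trivIrr G}, ?_, ?_, ?_, ?_,
    a, -1, ?_, ?_, ?_, ?_, ?_⟩
  · rw [Set.sdiff_union_self]
    exact (Set.union_eq_left.2 (Set.singleton_subset_iff.2 htriv)).symm
  · exact Set.disjoint_sdiff_left
  · rw [Nat.card_coe_set_eq, Set.ncard_sdiff_singleton_of_mem htriv, hBcard]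
  · rw [Nat.card_coe_set_eq, Set.ncard_singleton, Nat.div_self]
    have := hp.two_le
    omega
  · intro χ hχ
    exact ⟨hpm χ hχ.1, hdeg χ, hval χ hχ.1⟩
  · right; rfl
  · intro θ hθ
    rw [Set.mem_singleton_iff.1 hθ]
    have h1 : Cfsg.charDegree (Helper81.trivIrr G : G → ℂ) = 1 := by
      have := Helper81.irr_one_eq_charDegree (Helper81.trivIrr G)
      rw [Helper81.trivIrr_apply] at this
      exact_mod_cast this.symm
    rw [h1, Int.modEq_iff_dvd]
    refine ⟨-1, ?_⟩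
    rw [Nat.cast_sub hp.one_le]
    push_cast
    ring
  · intro θ hθ θ' hθ' g _
    rw [Set.mem_singleton_iff.1 hθ, Set.mem_singleton_iff.1 hθ']
  · intro θ hθ g hg
    rw [Set.mem_singleton_iff.1 hθ, Helper81.trivIrr_apply]
    have h1 := Helper82.excBlock_sum_preg hM P g y hg hy hy1
    have hBins : Cfsg.principalBlock M G = insert (Helper81.trivIrr G)
        (Cfsg.principalBlock M G \ {Helper81.trivIrr G}) := by
      rw [Set.insert_sdiff_singleton, Set.insert_eq_of_mem htriv]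
    have h2 : ∑ᶠ ζ ∈ Cfsg.principalBlock M G, (ζ : G → ℂ) g * (starRingEnd ℂ) ((ζ : G → ℂ) y)
        = 1 + ∑ᶠ χ ∈ Cfsg.principalBlock M G \ {Helper81.trivIrr G},
          (a χ : ℂ) * (χ : G → ℂ) g := by
      conv_lhs => rw [hBins]
      rw [finsum_mem_insert _ (by simp) (hBfin.subset Set.sdiff_subset)]
      congr 1
      · simp [Helper81.trivIrr_apply]
      · apply finsum_mem_congr rfl
        intro ζ _
        rw [ha ζ, map_intCast, mul_comm]
    rw [h2] at h1
    push_cast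
    linear_combination -h1

end Cfsg.Agent.Helper20
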